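import Cfsg.Agent.H54.O84Base
import Cfsg.Agent.H30.OrthGen
import Cfsg.Agent.H30.OrthMatrix
import Cfsg.Prelude.Def_ChevD4

/-! Statements of the pieces of S3384 (`Ω₈⁺(4)` in `E₈(2)`). -/

set_option autoImplicit false

namespace Cfsg.Agent.H54.O84

open Equiv Cfsg.Lie H37 H40 H34 H29 Multiplicative
open scoped Matrix Pointwise

universe u

theorem w_mem_Ψ {i : Fin 2} {u : Perm Rt} (hu : u ∈ CW w) {r : Rt} (hr : r ∈ u '' Ψ i) :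
    w r ∈ u '' Ψ i := by
  obtain ⟨_, ⟨s, hs, rfl⟩, rfl⟩ := hr
  refine ⟨_, ⟨π i s, hs.elim (fun h => Or.inr ((π_mem_Δ1 i).2 h))
    (fun h => Or.inl ((π_mem_Δ0 i).2 h)), rfl⟩, ?_⟩
  rw [← Perm.mul_apply w u, ← (mem_CW.1 hu).2]
  simp [π]

/-! ### Root combinatorics -/

/-- The twelve positive roots of `D₄` modulo 5; the first four are simple. -/
def lam : Fin 12 → V := ![![1, 4, 0, 0], ![0, 0, 1, 4], ![0, 1, 4, 0], ![0, 0, 1, 1], ![1, 0, 4, 0],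
  ![1, 0, 0, 4], ![0, 1, 0, 4], ![1, 1, 0, 0], ![1, 0, 1, 0], ![1, 0, 0, 1], ![0, 1, 1, 0],
  ![0, 1, 0, 1]]
def cD : Fin 4 → Fin 4 → ℤ := ![![2, 0, -1, 0], ![0, 2, -1, 0], ![-1, -1, 2, -1], ![0, 0, -1, 2]]
/-- Words of the elements of `CW (π i)` permuting the simple roots of `Δ0`. -/
def cL (i : Fin 2) : List (List ℕ) := if i = 0 then [[], [5, 4, 3, 2, 1, 3, 4, 5],
  [6, 0, 2, 3, 4, 5, 1, 3, 4, 2, 3, 0, 2, 1, 3, 4, 5, 6, 0, 2, 3, 4, 1, 3, 2, 0],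
  [5, 4, 3, 2, 1, 3, 4, 5, 6, 0, 2, 3, 4, 5, 1, 3, 4, 2, 3, 0, 2, 1, 3, 4, 5, 6, 0, 2, 3, 4, 5, 1, 3,
    4, 2, 3, 0, 2, 1, 3, 4, 5],
  [6, 0, 2, 3, 4, 5, 1, 3, 4, 2, 3, 0, 2, 1, 3, 4, 5, 6, 0, 2, 3, 4, 5, 1, 3, 4, 2, 3, 0, 2, 1, 3, 4,
    5],
  [5, 4, 3, 2, 1, 3, 4, 5, 6, 0, 2, 3, 4, 5, 1, 3, 4, 2, 3, 0, 2, 1, 3, 4, 5, 6, 0, 2, 3, 4, 1, 3, 2,
    0]] else [[], [5, 4, 3, 2, 1, 3, 4, 5, 6, 0, 2, 3, 4, 5, 1, 3, 4, 2, 3, 0, 2, 1, 3, 4, 5, 6, 0, 2,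
    3, 4, 5, 1, 3, 4, 2, 3, 0, 2, 1, 3, 4, 5]]
/-- The transversal of `WS Ψ0` in the stabiliser of `Ψ0` in `CW (π i)`. -/
noncomputable def cT (i : Fin 2) (x : Bool × Fin (cL i).length) : Perm Rt :=
  (if x.1 then π i else 1) * wd ((cL i).get x.2)

def RhoStmt : Prop := (∀ r, ρ r ∈ CW w) ∧ (∀ r, τ r ∉ CW w) ∧ (∀ u ∈ C8.S.W, ∀ r, u * τ r * u⁻¹ = τ (u r)) ∧
  (∀ u ∈ CW w, ∀ r, u * ρ r * u⁻¹ = ρ (u r)) ∧ (∀ r s, |C8.R.pair r s| ≤ 2) ∧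
  (∀ r s, C8.R.pair (w r) s = -C8.R.pair r (w s)) ∧
  (∀ r s, m (ρ r s) = m s - ((C8.R.pair r s + 2 * C8.R.pair (w r) s : ℤ) : ZMod 5) • m r) ∧
  (∀ x : V, (∀ r, x ⬝ᵥ m r = 0) → x = 0) ∧ (∀ r, m (C8.S.neg r) = -m r) ∧
  (∀ u ∈ C8.S.W, ∀ S, (WS S).map (MulAut.conj u).toMonoidHom = WS (u '' S))

def LinStmt : Prop := ∀ f : Rt → ℤ, IsAdd C8.R f → (∀ r, (f (w r) : ZMod 5) = 2 * f r) →
  ∃ x : V, ∀ r, (f r : ZMod 5) = x ⬝ᵥ m r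

def WfStmt : Prop := ∀ u ∈ C8.S.W, ∀ l : V, l ≠ 0 → (∀ s, ∃ c : ZMod 5, m (u s) = m s + c • l) →
  u = 1 ∨ ∃ r, m r = l ∧ (u = τ r ∨ u = τ (w r) ∨ u = ρ r)

def U5Stmt : Prop := ∃ u ∈ CW w, u ^ 5 = 1 ∧ u ≠ 1 ∧ ∃ x₀ : V, ∀ k : ℕ, ¬ 5 ∣ k → ∀ x : V,
  (∀ s, x ⬝ᵥ m ((u ^ k) s) = x ⬝ᵥ m s) → ∃ c : ZMod 5, x = c • x₀

def ClsTStmt : Prop := ∀ r : Rt, ∃ u ∈ CW w, (u r : ℕ) = 130

/-- The conclusion of the classification of `D₄`-configurations. -/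
def ClsAt (r : Fin 4 → Rt) : Prop := (∀ k l, C8.R.pair (r k) (r l) = cD k l) →
  (∀ k l, C8.R.pair (w (r k)) (r l) = 0) →
  ∃ u ∈ CW w, ∃ i, ∀ s, (∀ k, C8.R.pair (w (r k)) s = 0) → s ∈ u '' Ψ i

def ClsLStmt : Prop := ∀ r : Fin 4 → Rt, (r 2 : ℕ) = 130 → ClsAt r
def ClsStmt : Prop := ∀ r : Fin 4 → Rt, ClsAt r

def InvStmt : Prop := ∀ y ∈ WS Ψ0, (∀ r ∈ Δ0, y r ∈ Δ0) ∧ ∀ r,
  C8.R.rc (y r) ⟨0, by decide⟩ % 2 = C8.R.rc r ⟨0, by decide⟩ % 2 ∧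
  C8.R.rc (y r) ⟨5, by decide⟩ % 2 = C8.R.rc r ⟨5, by decide⟩ % 2

def RwStmt : Prop := ∀ i r, ρ r ∈ WS (Ψ i) ↔ r ∈ Ψ i

def RedStmt : Prop := ∀ u ∈ C8.S.W, u '' Δ0 = Δ0 →
  ∃ y ∈ C8.S.WJ J, ∀ j ∈ J, ∃ j' ∈ J, (u * y) (C8.S.α j) = C8.S.α j'

def HalfStmt : Prop := ∀ u ∈ C8.S.W, u '' Ψ0 = Ψ0 → u '' Δ0 = Δ0 ∨ u '' Δ1 = Δ0

def DetStmt : Prop := ∀ i, ∀ u ∈ CW (π i), ∀ u' ∈ CW (π i),
  (∀ j ∈ J, u (C8.S.α j) = u' (C8.S.α j)) → u = u'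

def CtStmt : Prop := ∀ i x, cT i x ∈ CW (π i) ⊓ St Ψ0

def PermStmt : Prop := ∀ i, ∀ u ∈ CW (π i), (∀ j ∈ J, ∃ j' ∈ J, u (C8.S.α j) = C8.S.α j') →
  ∃ k, u = cT i (false, k)

def CoverStmt : Prop := ∀ i, ∀ u ∈ CW (π i) ⊓ St Ψ0, ∃ x, (cT i x)⁻¹ * u ∈ WS Ψ0

def SepStmt : Prop := ∀ i x y, (cT i x)⁻¹ * cT i y ∈ WS Ψ0 → x = y

def StabStmt : Prop := ∀ i, (WS (Ψ i)).relIndex (CW w ⊓ St (Ψ i)) = nI i

/-! ### The algebraic group -/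

def CommStmt : Prop := (∀ x ∈ P8.U Δ0, ∀ y ∈ P8.U Δ1, Commute x y) ∧
  ∀ g ∈ P8.U Ψ0, ∃ x ∈ P8.U Δ0, ∃ y ∈ P8.U Δ1, g = x * y
def Nm1Stmt : Prop := P8.H ≤ P8.U Ψ0
def Nm2Stmt : Prop := ∀ n ∈ P8.N, P8.ν n ∈ WS Ψ0 → n ∈ P8.U Ψ0
def Nm3Stmt : Prop := ∀ n ∈ P8.N, n ∈ P8.U Ψ0 → P8.ν n ∈ WS Ψ0
def NmStmt : Prop := (∀ n ∈ P8.N, ∀ S, (P8.U S).map (MulAut.conj n).toMonoidHom = P8.U (P8.ν n '' S)) ∧
  ∀ u ∈ C8.S.W, ∀ n ∈ P8.N, n ∈ P8.U (u '' Ψ0) ↔ P8.ν n ∈ WS (u '' Ψ0)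
def E1Stmt : Prop := ∀ z : GK, (∀ y ∈ P8.U Ψ0, Commute z y) → z = 1

/-- Fixed points in a subsystem subgroup. -/
noncomputable def fixU (φ : GK →* GK) (S : Set Rt) : Subgroup GK := P8.U S ⊓ φ.eqLocus (MonoidHom.id GK)
noncomputable def fr4 : GK →* GK := C8.V.fieldHom (iterateFrobenius K 2 2)
/-- The group generated by the root elements of `Δ0` over a subfield. -/
noncomputable def D4g {F : Type u} [Field F] (ι : F →+* K) : Subgroup GK :=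
  Subgroup.closure {g | ∃ r ∈ Δ0, ∃ t, g = C8.xg K r (ι t)}

def SetupStmt : Prop := Nonempty (Frm w)
def MoveStmt : Prop := ∀ (F : Frm w) (i : Fin 2), ∃ F' : Frm (π i), F'.Y Ψ0 = F.Y (Ψ i)
def E2Stmt : Prop := ∀ (i : Fin 2) (F : Frm (π i)), Nonempty (F.Y Ψ0 ≃* fixU (F.σ.comp F.σ) Δ0)
def E3Stmt : Prop := ∀ φ : GK →* GK, (∀ (r : Rt) (t : K), φ (C8.xg K r t) = C8.xg K (C8.S.neg r) (t ^ 4)) →
  Nonempty (fixU φ Δ0 ≃* fixU fr4 Δ0)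
def E4Stmt : Prop := ∀ (F : Type u) [Field F] [Fintype F], Fintype.card F = 4 → ∀ ι : F →+* K,
  fixU fr4 Δ0 = D4g ι
def E5Stmt : Prop := ∀ (F : Type u) [Field F] (ι : F →+* K),
  Nonempty (chevD4.group F ≃* D4g ι ⧸ Subgroup.center (D4g ι))
def E6Stmt : Prop := ∀ (F : Type u) [Field F] [Fintype F], Fintype.card F = 4 → ∀ ι : F →+* K,
  Subgroup.center (D4g ι) = ⊥
abbrev Om (F : Type u) [Field F] : Type u := Cfsg.Omega F (Cfsg.quadFormPlus 4 F)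
def OmStmt : Prop := (Finite G0 ∧ ¬ 5 ^ 6 ∣ Nat.card G0) ∧
  ∀ (F : Type u) [Field F] [Fintype F], Fintype.card F = 4 → IsSimpleGroup (Om F) ∧
    Subgroup.center (Om F) = ⊥ ∧ ¬ 5 ^ 5 ∣ Nat.card (Om F) ∧ Nonempty (chevD4.group F ≃* Om F)
def IsoStmt : Prop := ∀ (F : Type u) [Field F] [Fintype F], Fintype.card F = 4 →
  ∀ (E : Frm w) (i : Fin 2), Nonempty (E.Y (Ψ i) ≃* Om F)

/-- The torus `5⁴` of the frame. -/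
structure Tor (F : Frm w) (ζ : Kˣ) (a : MV →* G0) : Prop where
  prim : IsPrimitiveRoot ζ 5
  inj : Function.Injective a
  lab : ∀ x : V, ∃ c, F.j (a (ofAdd x)) = C8.tg K c ∧
    ∀ r : Rt, torChar chevE8 c r = ζ ^ (x ⬝ᵥ m r).val
  surj : ∀ g, F.j g ∈ P8.H → g ∈ a.range

def Tor1Stmt : Prop := ∀ F : Frm w, ∃ (ζ : Kˣ) (a : MV →* G0), IsPrimitiveRoot ζ 5 ∧
  Function.Injective a ∧ ∀ x : V, ∃ c, F.j (a (ofAdd x)) = C8.tg K c ∧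
    ∀ r : Rt, torChar chevE8 c r = ζ ^ (x ⬝ᵥ m r).val
def Tor2Stmt : Prop := ∀ (F : Frm w) (ζ : Kˣ) (a : MV →* G0), IsPrimitiveRoot ζ 5 →
  (∀ x : V, ∃ c, F.j (a (ofAdd x)) = C8.tg K c ∧ ∀ r : Rt, torChar chevE8 c r = ζ ^ (x ⬝ᵥ m r).val) →
  ∀ g, F.j g ∈ P8.H → g ∈ a.range

/-- The normaliser of the image. -/
abbrev Nz {Γ : Type} [Group Γ] (a : MV →* Γ) : Subgroup Γ := Subgroup.normalizer (a.range : Set Γ)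

def Nu1Stmt : Prop := ∀ (F : Frm w) (ζ : Kˣ) (a : MV →* G0), Tor F ζ a → ∀ g ∈ Nz a,
  F.j g ∈ P8.N ∧ F.ν g ∈ CW w ∧ (F.ν g = 1 ↔ g ∈ a.range) ∧
  ∀ x y : V, g * a (ofAdd x) * g⁻¹ = a (ofAdd y) → ∀ r, y ⬝ᵥ m (F.ν g r) = x ⬝ᵥ m r
def Nu2Stmt : Prop := ∀ (F : Frm w) (ζ : Kˣ) (a : MV →* G0), Tor F ζ a → ∀ u ∈ CW w,
  ∃ g ∈ Nz a, F.ν g = u
def CenStmt : Prop := ∀ (F : Frm w) (ζ : Kˣ) (a : MV →* G0), Tor F ζ a → ∀ l : V, l ≠ 0 → ∀ g,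
  (∀ x, x ⬝ᵥ l = 0 → Commute (a (ofAdd x)) g) → g ∈ a.range ∨
    ∃ r, m r = l ∧ ∀ i, ∀ u ∈ CW w, r ∈ u '' Ψ i → g ∈ F.Y (u '' Ψ i)

/-! ### The finite group -/

/-- The local data of the finite group. -/
structure Geo (Γ : Type) [Group Γ] where
  a : MV →* Γ
  ν : Γ → Perm Rt
  Y : Set Rt → Subgroup Γ
  inj : Function.Injective a
  ν_mul : ∀ g ∈ Nz a, ∀ g' ∈ Nz a, ν (g * g') = ν g * ν g'
  ν_mem : ∀ g ∈ Nz a, ν g ∈ CW w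
  ν_surj : ∀ u ∈ CW w, ∃ g ∈ Nz a, ν g = u
  ν_ker : ∀ g ∈ Nz a, ν g = 1 ↔ g ∈ a.range
  act : ∀ g ∈ Nz a, ∀ x y : V, g * a (ofAdd x) * g⁻¹ = a (ofAdd y) →
    ∀ r, y ⬝ᵥ m (ν g r) = x ⬝ᵥ m r
  Y_conj : ∀ g ∈ Nz a, ∀ S, (Y S).map (MulAut.conj g).toMonoidHom = Y (ν g '' S)
  mem_Y : ∀ i, ∀ g ∈ Nz a, g ∈ Y (Ψ i) ↔ ν g ∈ WS (Ψ i)
  cen : ∀ l : V, l ≠ 0 → ∀ g, (∀ x, x ⬝ᵥ l = 0 → Commute (a (ofAdd x)) g) → g ∈ a.range ∨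
    ∃ r, m r = l ∧ ∀ i, ∀ u ∈ CW w, r ∈ u '' Ψ i → g ∈ Y (u '' Ψ i)

def GeoStmt : Prop := ∀ F : Frm w, ∃ G : Geo G0, G.Y = F.Y

/-- The centraliser of the hyperplane of the `k`-th root. -/
def Cz {X : Type*} [Group X] (b : MV →* X) (k : Fin 12) : Subgroup X :=
  Subgroup.centralizer {g | ∃ x : V, x ⬝ᵥ lam k = 0 ∧ g = b (ofAdd x)}

/-- The structure of `Ω₈⁺(4)` over its torus `5⁴`. -/
structure XF {X : Type*} [Group X] (b : MV →* X) : Prop where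
  inj : Function.Injective b
  refl : ∀ k, ∃ n, ∀ x : V, n * b (ofAdd x) * n⁻¹ = b (ofAdd (x - (x ⬝ᵥ lam k) • lam k))
  gen : ⨆ k, Cz b k = ⊤

def XfStmt : Prop := ∀ (F : Type u) [Field F] [Fintype F], Fintype.card F = 4 →
  ∃ b : MV →* Om F, XF b

def SylStmt : Prop := ∀ (Γ : Type) [Group Γ] [Finite Γ] (G : Geo Γ), ¬ 5 ^ 6 ∣ Nat.card Γ →
  ∀ b : MV →* Γ, Function.Injective b → ∃ g, b.range.map (MulAut.conj g).toMonoidHom = G.a.range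

def Cg1Stmt : Prop := ∀ (Γ : Type) [Group Γ] (G : Geo Γ) (b : MV →* Γ), Function.Injective b →
  b.range = G.a.range →
  (∀ k, ∃ n, ∀ x : V, n * b (ofAdd x) * n⁻¹ = b (ofAdd (x - (x ⬝ᵥ lam k) • lam k))) →
  ∃ r : Fin 12 → Rt, (∀ k l, ((C8.R.pair (r k) (r l) + 2 * C8.R.pair (w (r k)) (r l) : ℤ) : ZMod 5) =
    lam k ⬝ᵥ lam l) ∧ ∀ k, ∀ g ∈ Cz b k, ∀ x, x ⬝ᵥ m (r k) = 0 → Commute (G.a (ofAdd x)) g

def Cg2Stmt : Prop := ∀ (Γ : Type) [Group Γ] (G : Geo Γ) (X : Subgroup Γ) (b : MV →* X), XF b →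
  (X.subtype.comp b).range = G.a.range → ∃ u ∈ CW w, ∃ i, X ≤ G.Y (u '' Ψ i)

def ConjStmt : Prop := ∀ (Γ : Type) [Group Γ] [Finite Γ] (G : Geo Γ), ¬ 5 ^ 6 ∣ Nat.card Γ →
  ∀ (Ω : Type u) [Group Ω] (b : MV →* Ω), XF b → (∀ i, Nonempty (G.Y (Ψ i) ≃* Ω)) →
  ∀ X : Subgroup Γ, Nonempty (X ≃* Ω) → ∃ i g, X.map (MulAut.conj g).toMonoidHom = G.Y (Ψ i)

def YiStmt : Prop := ∀ (Γ : Type) [Group Γ] (G : Geo Γ) (i : Fin 2), ∀ g ∈ Nz G.a,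
  g ∈ Subgroup.normalizer (G.Y (Ψ i) : Set Γ) ↔ G.ν g ∈ St (Ψ i)

def IdxStmt : Prop := ∀ (Γ : Type) [Group Γ] [Finite Γ] (G : Geo Γ) (i : Fin 2),
  ¬ 5 ^ 5 ∣ Nat.card (G.Y (Ψ i)) →
  (G.Y (Ψ i)).relIndex (Subgroup.normalizer (G.Y (Ψ i) : Set Γ)) = nI i

def Cen1Stmt : Prop := ∀ (Γ : Type) [Group Γ] (G : Geo Γ) (i : Fin 2),
  Subgroup.center (G.Y (Ψ i)) = ⊥ → Subgroup.centralizer (G.Y (Ψ i) : Set Γ) = ⊥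

def FinAStmt : Prop := ∀ (Γ : Type) [Group Γ] [Finite Γ] (X H : Subgroup Γ), IsSimpleGroup X →
  Subgroup.centralizer (X : Set Γ) = ⊥ → X ≤ H → H ≤ Subgroup.normalizer (X : Set Γ) →
  Cfsg.generalizedFittingSubgroup H = X.subgroupOf H

def FinBStmt : Prop := ∀ (Γ : Type) [Group Γ] [Finite Γ] (X : Subgroup Γ) (p k e : ℕ), p.Prime →
  ¬ p ∣ e → X.relIndex (Subgroup.normalizer (X : Set Γ)) = p ^ k * e →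
  ∃ H, X ≤ H ∧ H ≤ Subgroup.normalizer (X : Set Γ) ∧ X.relIndex H = p ^ k ∧
    ∀ H', X ≤ H' → H' ≤ Subgroup.normalizer (X : Set Γ) → X.relIndex H' = p ^ k →
      ∃ g, H'.map (MulAut.conj g).toMonoidHom = H

/-- Exactly `k` classes of subgroups. -/
def Cls {Γ : Type} [Group Γ] (P : Subgroup Γ → Prop) (k : ℕ) : Prop :=
  ∃ f : Fin k → Subgroup Γ, (∀ i, P (f i)) ∧
    (∀ i j, (∃ g : Γ, (f i).map (MulAut.conj g).toMonoidHom = f j) → i = j) ∧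
    ∀ H, P H → ∃ (i : Fin k) (g : Γ), H.map (MulAut.conj g).toMonoidHom = f i

/-- The hypotheses of the final step. -/
structure Two {Γ : Type} [Group Γ] (Ω : Type u) [Group Ω] (Y : Fin 2 → Subgroup Γ) : Prop where
  simple : IsSimpleGroup Ω
  iso : ∀ i, Nonempty (Y i ≃* Ω)
  cent : ∀ i, Subgroup.centralizer (Y i : Set Γ) = ⊥
  idx : ∀ i, (Y i).relIndex (Subgroup.normalizer (Y i : Set Γ)) = nI i
  conj : ∀ X : Subgroup Γ, Nonempty (X ≃* Ω) → ∃ i g, X.map (MulAut.conj g).toMonoidHom = Y i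

/-- `F*(H) ≅ Ω` has index `d`. -/
def Ext {Γ : Type} [Group Γ] (Ω : Type u) [Group Ω] (d : ℕ) (H : Subgroup Γ) : Prop :=
  Nonempty (Cfsg.generalizedFittingSubgroup H ≃* Ω) ∧ (Cfsg.generalizedFittingSubgroup H).index = d

def FinCStmt : Prop := ∀ (Γ : Type) [Group Γ] [Finite Γ] (Ω : Type u) [Group Ω]
  (Y : Fin 2 → Subgroup Γ), Two Ω Y → (∀ i j g, (Y i).map (MulAut.conj g).toMonoidHom = Y j → i = j) ∧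
  (∀ i d H, Y i ≤ H → H ≤ Subgroup.normalizer (Y i : Set Γ) → (Y i).relIndex H = d → Ext Ω d H) ∧
  (∀ d H, Ext Ω d H → ∃ i g, Y i ≤ H.map (MulAut.conj g).toMonoidHom ∧
    H.map (MulAut.conj g).toMonoidHom ≤ Subgroup.normalizer (Y i : Set Γ) ∧
    (Y i).relIndex (H.map (MulAut.conj g).toMonoidHom) = d) ∧
  ∀ i j (H H' : Subgroup Γ) g, Y i ≤ H → H ≤ Subgroup.normalizer (Y i : Set Γ) → Y j ≤ H' →
    H' ≤ Subgroup.normalizer (Y j : Set Γ) → H.map (MulAut.conj g).toMonoidHom = H' → i = j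

def FinStmt : Prop := ∀ (Γ : Type) [Group Γ] [Finite Γ] (Ω : Type u) [Group Ω]
  (Y : Fin 2 → Subgroup Γ), Two Ω Y → Cls (fun H : Subgroup Γ => Nonempty (H ≃* Ω)) 2 ∧
    Cls (Ext (Γ := Γ) Ω 3) 1 ∧ Cls (Ext (Γ := Γ) Ω 4) 2 ∧ Cls (Ext (Γ := Γ) Ω 12) 1

/-! ### The unitary model of the orthogonal group -/

section Model

variable (F : Type u) [Field F] (o : F)

abbrev L : Type u := QuadraticAlgebra F o 1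
abbrev UV : Type u := Fin 4 → L F o

/-- The norm form. -/
def nq : QuadraticForm F (L F o) :=
  QuadraticMap.linMulLin (QuadraticAlgebra.reₗ o 1) (QuadraticAlgebra.reₗ o 1) +
    QuadraticMap.linMulLin (QuadraticAlgebra.reₗ o 1) (QuadraticAlgebra.imₗ o 1) -
    o • QuadraticMap.linMulLin (QuadraticAlgebra.imₗ o 1) (QuadraticAlgebra.imₗ o 1)

/-- The sum of four norm forms. -/
def Qn : QuadraticForm F (UV F o) := ∑ i, (nq F o).comp (LinearMap.proj i)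

theorem Qn_apply (x : UV F o) : Qn F o x = ∑ i, QuadraticAlgebra.norm (x i) := by
  simp only [Qn, QuadraticMap.sum_apply, QuadraticMap.comp_apply, LinearMap.proj_apply]
  refine Finset.sum_congr rfl fun i _ => ?_
  simp [nq, QuadraticAlgebra.norm_def]; ring

variable {F o}

/-- The diagonal torus. -/
def Diag (ζ : L F o) (b : MV →* H30.O (Qn F o)) : Prop := orderOf ζ = 5 ∧
  QuadraticAlgebra.norm ζ = 1 ∧ ∀ (x : V) (y : UV F o) i, (b (ofAdd x)).1 y i = ζ ^ (x i).val * y i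

/-- Transitivity on pairs of coordinates. -/
def Blk (Z : Subgroup (H30.O (Qn F o))) : Prop := ∀ i j : Fin 4, i ≠ j → ∀ y y' : UV F o,
  (∀ k, k ≠ i → k ≠ j → y k = y' k) →
  QuadraticAlgebra.norm (y i) + QuadraticAlgebra.norm (y j) =
    QuadraticAlgebra.norm (y' i) + QuadraticAlgebra.norm (y' j) →
  QuadraticAlgebra.norm (y i) + QuadraticAlgebra.norm (y j) ≠ 0 → ∃ g ∈ Z, g.1 y = y'

end Model

/-- A statement about the model. -/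
def Mdl (P : ∀ (F : Type u) [Field F] (_ : F), Prop) : Prop :=
  ∀ (F : Type u) [Field F] [Fintype F] (o : F), Fintype.card F = 4 → o ^ 2 + o + 1 = 0 → P F o

def X0Stmt : Prop := Mdl.{u} fun F _ o => (QuadraticMap.polarBilin (Qn F o)).Nondegenerate ∧
  ¬ H30.IsExc (Qn F o) ∧ Nonempty ((Qn F o).IsometryEquiv (H30.qPlus F 4))
def X1Stmt : Prop := Mdl.{u} fun F _ o => ∃ (ζ : L F o) (b : MV →* H30.O (Qn F o)), Diag ζ b ∧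
  Function.Injective b
def X2Stmt : Prop := Mdl.{u} fun F _ o => ∀ (ζ : L F o) b, Diag ζ b → ∀ k,
  Cz b k ≤ commutator (H30.O (Qn F o))
def X3Stmt : Prop := Mdl.{u} fun F _ o => ∀ (ζ : L F o) b, Diag ζ b → Blk (⨆ k, Cz b k)
def X4Stmt : Prop := Mdl.{u} fun F _ o => ∀ Z : Subgroup (H30.O (Qn F o)), Blk Z → ∀ y, Qn F o y ≠ 0 →
  ∃ g ∈ Z, ∃ s : F, s ≠ 0 ∧ g.1 y = s • (Pi.single 0 1 : UV F o)
def X5Stmt : Prop := Mdl.{u} fun F _ o => ∀ (ζ : L F o) b, Diag ζ b →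
  H30.refl (Qn F o) (Pi.single 0 1) ∈ Subgroup.normalizer ((⨆ k, Cz b k : Subgroup _) : Set _)
def X6Stmt : Prop := Mdl.{u} fun F _ o => ∀ (ζ : L F o) b, Diag ζ b → ∀ k, ∃ n, ∀ x : V,
  n * b (ofAdd x) * n⁻¹ = b (ofAdd (x - (x ⬝ᵥ lam k) • lam k))
def X7Stmt : Prop := Mdl.{u} fun F _ o => ∀ (ζ : L F o) b, Diag ζ b →
  commutator (H30.O (Qn F o)) ≤ ⨆ k, Cz b k

end Cfsg.Agent.H54.O84
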