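import Cfsg.Agent.H42.PcDefs

/-! Project PC: squares in `T` lie in the derived group of `T ⟨y⟩`. -/

set_option autoImplicit false

namespace Cfsg.Agent.H54.PcB

open Subgroup Cfsg.Agent.H42.Pc
open scoped commutatorElement

universe u

theorem ext_eq {G : Type u} [Group G] (T : Subgroup G) (y : G) {w : G} (hw : w ∈ T) :
    Ext T (y * w) = Ext T y := by
  have key : ∀ (a : G) {v : G}, v ∈ T → Ext T (a * v) ≤ Ext T a := fun a v hv =>
    sup_le le_sup_left (zpowers_le.2 (mul_mem (mem_sup_right (mem_zpowers a)) (mem_sup_left hv)))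
  refine le_antisymm (key y hw) ?_
  have := key (y * w) (inv_mem hw)
  rwa [mul_inv_cancel_right] at this

theorem b : BStmt.{u} := by
  intro G _ _ T h y hy hy2
  have nT := h.nT
  obtain ⟨w0, hw0, h0⟩ := h.tr y hy hy2
  have out : ∀ w ∈ T, y * w ∉ T := fun w hw e => hy (by
    have := mul_mem e (inv_mem hw)
    rwa [mul_inv_cancel_right] at this)
  have sq : ∀ w ∈ T, y * w * (y * w) ∈ T := fun w hw => by
    have e : y * w * (y * w) = y * y * (y⁻¹ * w * y⁻¹⁻¹) * w := by group
    rw [e]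
    exact mul_mem (mul_mem hy2 (nT.conj_mem w hw y⁻¹)) hw
  have all : ∀ w ∈ T, y * w * (y * w) ∈ Dr T y := fun w hw => by
    obtain ⟨g, hg⟩ := h.cc (y * w0) (y * w) (out w0 hw0) (out w hw) (sq w0 hw0) (sq w hw)
    have hT : T.map (MulAut.conj g).toMonoidHom ≤ T := by
      rintro _ ⟨x, hx, rfl⟩
      exact nT.conj_mem x hx g
    have hE : (Ext T y).map (MulAut.conj g).toMonoidHom ≤ Ext T y := by
      conv_lhs => rw [← ext_eq T y hw0]
      rw [← ext_eq T y hw]
      unfold H42.Pc.Ext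
      rw [Subgroup.map_sup, MonoidHom.map_zpowers, hg]
      exact sup_le_sup hT le_rfl
    have hD : g * (y * w0 * (y * w0)) * g⁻¹ ∈ Dr T y := by
      have : (Dr T y).map (MulAut.conj g).toMonoidHom ≤ Dr T y := by
        unfold Dr
        rw [map_commutator]
        exact commutator_mono hE hE
      exact this ⟨_, h0, rfl⟩
    have hm : y * w ∈ zpowers (g * (y * w0) * g⁻¹) := hg ▸ mem_zpowers _
    obtain ⟨k, hk⟩ := mem_zpowers_iff.1 hm
    have e : y * w * (y * w) = (g * (y * w0 * (y * w0)) * g⁻¹) ^ k := by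
      rw [← hk, ← (Commute.refl _).mul_zpow]
      congr 1
      group
    rw [e]
    exact zpow_mem hD k
  intro w hw
  have h1 : y * y ∈ Dr T y := by simpa using all 1 (one_mem T)
  have h2 : ⁅y⁻¹, w⁆ ∈ Dr T y :=
    commutator_mem_commutator (inv_mem (mem_sup_right (mem_zpowers y))) (mem_sup_left hw)
  have e : w * w = ⁅y⁻¹, w⁆⁻¹ * ((y * y)⁻¹ * (y * w * (y * w))) := by
    rw [commutatorElement_def]; group
  rw [e]
  exact mul_mem (inv_mem h2) (mul_mem (inv_mem h1) (all w hw))

end Cfsg.Agent.H54.PcB
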