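import Cfsg.Agent.H54.S4Su1

/-! # Standard subgroups of type `Sp₄(q)`: the constants and the transport of the hat groups -/

set_option autoImplicit false

namespace Cfsg.Agent.H54.S4Su

open Cfsg Cfsg.Agent.H63 Cfsg.Agent.H63.SL Cfsg.Agent.H35.S4 Subgroup
open scoped commutatorElement

universe u v

variable {F : Type v} [Field F] {G : Type u} [Group G] {L : Subgroup G} {x : ZMod 8 → F → G} {t : G}

theorem u23 (hC : Ctx L x t) {b c : F} (h : x 2 b * x 3 c = 1) : b = 0 ∧ c = 0 := by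
  have P := hC.mod.pin
  obtain ⟨h1, h2, -⟩ := hC.kp.uniq 2 b c 0 0 (by rw [x0 P, x0 P, mul_one, mul_one]; exact h)
  exact ⟨h1, h2⟩

theorem hat_sq (hC : Ctx L x t) {c a : F} {i : ZMod 8} {p : G} (hp : p ∈ HatS L x t c i)
    (h : p * t * p⁻¹ = t * x i a) : p * p = x i (c * a) := by
  obtain ⟨b, h1, h2⟩ := hp.2.2.1
  rwa [xinj hC.mod.pin (mul_left_cancel (h.symm.trans h1))]

theorem conj_of_cm {g k z : G} (h : ⁅g, k⁆ = z) : k * g * k⁻¹ = z⁻¹ * g := by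
  rw [← h, commutatorElement_def]; group

theorem conj_of_cm' {g k z : G} (h : ⁅g, k⁆ = z) : g * k * g⁻¹ = z * k := by
  rw [← h, commutatorElement_def]; group

/-- **RAD4** -/
theorem rad4 : Rad4Stmt.{u, v} := by
  intro F _ _ G _ _ L x t hC c l c' l' Xh Y H H2 r1 r3 r4
  have P := hC.mod.pin
  have h2 := P.two
  obtain ⟨π, hπ, lπ⟩ := H.surj 1 sh1 1
  obtain ⟨p, hp, y, hy, lp, ly, e⟩ := r4 π hπ 1 lπ 1
  have cY : ∀ y ∈ Y, ∀ a, Commute y (x 3 a) := fun y hy a => ((H2.cen hy).1 _ (xA 2 a).2.2).symm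
  have c4 : ∀ y ∈ Y, ∀ a, y * t * y⁻¹ = t * x 2 a → ∃ w, w ^ 2 = a ∧ y * y = x 2 ((c' * w) ^ 2) ∧
      x 4 1 * y * (x 4 1)⁻¹ = y * x 3 (l' * w) := fun y hy a h => by
    obtain ⟨w, h1, h3, -, h4⟩ := H2.mov y hy
    refine ⟨w, xinj P (mul_left_cancel (h1.symm.trans h)), h3, ?_⟩
    have := (h4 1).1
    rw [one_pow, mul_one] at this
    rw [conj_of_cm this, xinv P, (cY y hy _).eq]
  have k1 : ∀ s, π * x 3 s * π⁻¹ = x 2 (l * 1 * s) * x 3 s := fun s =>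
    conj_of_cm' (H.act 1 sh1 π hπ 1 lπ s).2
  obtain ⟨w, hw, yy, y4⟩ := c4 y hy _ ly
  have pp := hat_sq hC ((H.mem 3 sh3 p).1 hp) lp
  have p4 := (c32 H hp 1).2.2.symm.mul_inv_cancel
  have e1 : x 3 (c * (1 * 1)) * π * (x 2 ((c' * w) ^ 2) * x 3 (l' * w)) = π := by
    calc _ = (x 4 1 * p * (x 4 1)⁻¹) * (x 4 1 * π * (x 4 1)⁻¹) * (x 4 1 * y * (x 4 1)⁻¹) := by
          rw [p4, e, y4, ← pp, ← yy]; group
      _ = x 4 1 * (p * π * y) * (x 4 1)⁻¹ := by group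
      _ = (x 4 1 * x 4 1) * π * (x 4 1 * x 4 1)⁻¹ := by rw [← e]; group
      _ = π := by rw [xsq P]; group
  have e2 : x 2 ((c' * w) ^ 2 + l * 1 * (l' * w)) * x 3 (l' * w + c * (1 * 1)) = 1 := by
    have c2 := (c12 H hπ ((c' * w) ^ 2)).2.2.mul_inv_cancel
    calc _ = (x 3 (c * (1 * 1)))⁻¹ * (x 3 (c * (1 * 1)) *
          ((π * x 2 ((c' * w) ^ 2) * π⁻¹) * (π * x 3 (l' * w) * π⁻¹))) * x 3 (c * (1 * 1)) := by
          rw [c2, k1, P.add, P.add]; group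
      _ = (x 3 (c * (1 * 1)))⁻¹ * (x 3 (c * (1 * 1)) * π * (x 2 ((c' * w) ^ 2) * x 3 (l' * w))) *
          π⁻¹ * x 3 (c * (1 * 1)) := by group
      _ = 1 := by rw [e1]; group
  obtain ⟨f1, f2⟩ := u23 hC e2
  have hc : c = l' * w := by linear_combination f2 - l' * w * h2
  refine ⟨by rw [hc, mul_pow, hw]; ring, ?_, fun hD => ?_⟩
  · rw [hc]; linear_combination f1 - c' ^ 2 * hw - l * l' * w * h2
  · obtain ⟨y0, hy0, l0⟩ := H2.sat 1 (hD 1)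
    obtain ⟨w0, hw0, -, y04⟩ := c4 y0 hy0 1 l0
    have : w0 = 1 := by
      have : (w0 + 1) ^ 2 = 0 := by linear_combination hw0 + (w0 + 1) * h2
      linear_combination (pow_eq_zero_iff two_ne_zero).1 this - h2
    rw [this, mul_one] at y04
    have a1 : Commute (p * π * y) (y0 * x 3 l') := by
      rw [← e, ← y04]; exact (r1 π hπ y0 hy0).conj _
    have a2 : Commute (p * π * y) y0 :=
      ((r3 p hp y0 hy0).mul_left (r1 π hπ y0 hy0)).mul_left (H2.com y hy y0 hy0)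
    have a3 : Commute (p * π * y) (x 3 l') := by
      have := a2.inv_right.mul_right a1
      rwa [inv_mul_cancel_left] at this
    have a4 : Commute π (x 3 l') := by
      have := ((c32 H hp l').2.1.inv_left.mul_left a3).mul_left (cY y hy l').inv_left
      rwa [show p⁻¹ * (p * π * y) * y⁻¹ = π by group] at this
    have := k1 l'
    rw [a4.mul_inv_cancel, mul_one] at this
    exact P.inj 2 _ (mul_eq_right.1 this.symm)

/-- The fields of `HatP` at one index. -/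
structure HatAt (L : Subgroup G) (x : ZMod 8 → F → G) (t : G) (c l : F) (i : ZMod 8)
    (X : Subgroup G) : Prop where
  mem : ∀ p, p ∈ X ↔ p ∈ HatS L x t c i
  le : ∀ a, x i a ∈ X
  surj : ∀ a, ∃ p ∈ X, p * t * p⁻¹ = t * x i a
  fix : ∀ p ∈ X, Commute p t → ∃ a, p = x i a
  com : ∀ p ∈ X, ∀ p' ∈ X, Commute p p'
  odd : OddC L t X
  act : ∀ p ∈ X, ∀ a, p * t * p⁻¹ = t * x i a → ∀ s,
    ⁅p, x (i - 2) s⁆ = x (i - 1) (l * a * s) ∧ ⁅p, x (i + 2) s⁆ = x (i + 1) (l * a * s)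
  ref : ∀ p ∈ X, ∀ a, p * t * p⁻¹ = t * x i a →
    n2 x (i + 2) * p * (n2 x (i + 2))⁻¹ = p * x i (l * a)

theorem hatAt3 (hC : Ctx L x t) {c l : F} {Y : Subgroup G} (H : Hat3 L x t c l Y) :
    HatAt L x t c l 3 Y := by
  have P := hC.mod.pin
  have nn := hC.kb.nsq 5
  have nt : Commute t (n2 x 5) := hC.kb.tL _ (hC.kb.nL 5)
  have a5 : ∀ p ∈ Y, ∀ a, p * t * p⁻¹ = t * x 3 a → ∀ s, ⁅p, x 5 s⁆ = x 4 (l * a * s) := by
    intro p hp a h s
    have h1 : n2 x 5 * p * (n2 x 5)⁻¹ ∈ Y := (H.mem _).2 (hC.kb.hatN 5 c 3 p ((H.mem p).1 hp))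
    have n3 : n2 x 5 * x 3 a * (n2 x 5)⁻¹ = x 3 a := hC.kp.nn 5 3 a
    have n5 : n2 x 5 * x 5 s * (n2 x 5)⁻¹ = x 1 s := hC.kp.nn 5 5 s
    have n4 : n2 x 5 * x 4 (l * a * s) * (n2 x 5)⁻¹ = x 2 (l * a * s) := hC.kp.nn 5 4 _
    have h2 := H.act _ h1 a (by
      calc _ = n2 x 5 * (p * ((n2 x 5)⁻¹ * t * n2 x 5) * p⁻¹) * (n2 x 5)⁻¹ := by group
        _ = n2 x 5 * t * (n2 x 5)⁻¹ * (n2 x 5 * x 3 a * (n2 x 5)⁻¹) := by
          rw [nt.symm.inv_mul_cancel, h]; group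
        _ = _ := by rw [n3, nt.symm.mul_inv_cancel]) s
    rw [← n5, ← n4, ← conjugate_commutatorElement] at h2
    exact mul_left_cancel (mul_right_cancel h2)
  refine ⟨H.mem, H.le, H.surj, H.fix, H.com, H.odd, fun p hp a h s => ⟨H.act p hp a h s, a5 p hp a h s⟩,
    fun p hp a h => ?_⟩
  have cA := fun b => hcA ((H.mem p).1 hp) b
  have b5 := conj_of_cm (a5 p hp a h 1)
  have b1 := conj_of_cm (H.act p hp a h 1)
  rw [mul_one, xinv P 4] at b5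
  rw [mul_one, xinv P 2] at b1
  have r : ⁅x 1 1, x 4 (l * a)⁆ = x 2 (1 ^ 2 * (l * a)) * x 3 (1 * (l * a)) := P.rs 1 sh1 _ _
  have r' := conj_of_cm' r
  rw [one_pow, one_mul] at r'
  have c2 : Commute p (x 2 (l * a)) := (cA _).1
  have c3 : Commute p (x 3 (l * a)) := (cA _).2.1
  have c34 : Commute (x 3 (l * a)) (x 4 (l * a)) := P.c1 3 _ _
  have c24 : Commute (x 2 (l * a)) (x 3 (l * a) * x 4 (l * a)) := (P.c1 2 _ _).mul_right (P.c2 2 _ _)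
  have c5 : Commute (x 5 1) (x 3 (l * a) * x 4 (l * a)) :=
    (P.c2 3 _ _).symm.mul_right (P.c1 4 _ _).symm
  change x 5 1 * x 1 1 * x 5 1 * p * (x 5 1 * x 1 1 * x 5 1)⁻¹ = p * x 3 (l * a)
  calc _ = x 5 1 * (x 1 1 * (x 5 1 * p * (x 5 1)⁻¹) * (x 1 1)⁻¹) * (x 5 1)⁻¹ := by group
    _ = x 5 1 * (x 1 1 * x 4 (l * a) * (x 1 1)⁻¹ * (x 1 1 * p * (x 1 1)⁻¹)) * (x 5 1)⁻¹ := by
        rw [b5]; group
    _ = x 5 1 * (x 2 (l * a) * (x 3 (l * a) * x 4 (l * a)) * x 2 (l * a) * p) * (x 5 1)⁻¹ := by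
        rw [r', b1]; group
    _ = x 5 1 * (x 3 (l * a) * x 4 (l * a)) * (x 5 1)⁻¹ * (x 5 1 * p * (x 5 1)⁻¹) := by
        rw [c24.eq, mul_assoc _ (x 2 _) (x 2 _), xsq P]; group
    _ = x 3 (l * a) * (x 4 (l * a) * x 4 (l * a)) * p := by rw [c5.mul_inv_cancel, b5]; group
    _ = _ := by rw [xsq P, mul_one, c3.eq]

theorem HatAt.rot (hC : Ctx L x t) {c l : F} {i : ZMod 8} {X : Subgroup G}
    (H : HatAt L x t c l i X) (k : ZMod 8) : ∃ X', HatAt L x t c l (i + 2 * k) X' := by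
  obtain ⟨w, hw, wx, wh, -⟩ := hC.kb.rot k
  have wt : w * t * w⁻¹ = t := (hC.kb.tL w hw).symm.mul_inv_cancel
  have mv : ∀ p a, w * p * w⁻¹ * t * (w * p * w⁻¹)⁻¹ = t * x (i + 2 * k) a ↔
      p * t * p⁻¹ = t * x i a := fun p a => by
    rw [← wx]
    conv_lhs => rw [← wt]
    constructor
    · intro h
      calc _ = w⁻¹ * (w * p * w⁻¹ * (w * t * w⁻¹) * (w * p * w⁻¹)⁻¹) * w := by group
        _ = _ := by rw [h]; group
    · intro h
      calc _ = w * (p * t * p⁻¹) * w⁻¹ := by group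
        _ = _ := by rw [h]; group
  have mem : ∀ p, p ∈ cj w X ↔ ∃ q ∈ X, w * q * w⁻¹ = p := fun p => Iff.rfl
  refine ⟨cj w X, fun p => ?_, fun a => ⟨_, H.le a, wx i a⟩, fun a => ?_, ?_, ?_, ?_, ?_, ?_⟩
  · obtain ⟨q, rfl⟩ : ∃ q, p = w * q * w⁻¹ := ⟨w⁻¹ * p * w, by group⟩
    rw [← wh, ← H.mem, mem]
    exact ⟨fun ⟨r, hr, e⟩ => mul_left_cancel (mul_right_cancel e) ▸ hr, fun h => ⟨q, h, rfl⟩⟩
  · obtain ⟨p, hp, e⟩ := H.surj a
    exact ⟨_, (mem _).2 ⟨p, hp, rfl⟩, (mv p a).2 e⟩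
  · intro p hp h
    obtain ⟨q, hq, rfl⟩ := (mem p).1 hp
    rw [← wt, Commute.conj_iff] at h
    obtain ⟨a, rfl⟩ := H.fix q hq h
    exact ⟨a, wx i a⟩
  · intro p hp p' hp'
    obtain ⟨q, hq, rfl⟩ := (mem p).1 hp
    obtain ⟨q', hq', rfl⟩ := (mem p').1 hp'
    exact (H.com q hq q' hq').conj w
  · intro g hg h1 h2 p hp
    obtain ⟨q, hq, rfl⟩ := (mem p).1 hp
    have : Commute g w := (hg w hw).symm
    exact (this.mul_right (H.odd g hg h1 h2 q hq)).mul_right this.inv_right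
  · intro p hp a h s
    obtain ⟨q, hq, rfl⟩ := (mem p).1 hp
    obtain ⟨h1, h2⟩ := H.act q hq a ((mv q a).1 h) s
    rw [show i + 2 * k - 2 = i - 2 + 2 * k by ring, show i + 2 * k - 1 = i - 1 + 2 * k by ring,
      show i + 2 * k + 2 = i + 2 + 2 * k by ring, show i + 2 * k + 1 = i + 1 + 2 * k by ring,
      ← wx, ← wx, ← wx, ← wx, ← h1, ← h2, conjugate_commutatorElement, conjugate_commutatorElement]
    exact ⟨rfl, rfl⟩
  · intro p hp a h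
    obtain ⟨q, hq, rfl⟩ := (mem p).1 hp
    have e : n2 x (i + 2 * k + 2) = w * n2 x (i + 2) * w⁻¹ := by
      rw [n2, n2, show i + 2 * k + 2 + 4 = i + 2 + 4 + 2 * k by ring,
        show i + 2 * k + 2 = i + 2 + 2 * k by ring, ← wx, ← wx]
      group
    rw [e, ← wx]
    calc _ = w * (n2 x (i + 2) * q * (n2 x (i + 2))⁻¹) * w⁻¹ := by group
      _ = _ := by rw [H.ref q hq a ((mv q a).1 h)]; group

/-- **HAT4** -/
theorem hat4 : Hat4Stmt.{u, v} := by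
  intro F _ _ G _ _ L x t hC c l Y H
  have : ∀ i : ZMod 8, ∃ X : Subgroup G, sh i → HatAt L x t c l i X := fun i => by
    by_cases hi : sh i
    · obtain ⟨k, rfl⟩ : ∃ k : ZMod 8, i = 3 + 2 * k := by revert i; decide
      obtain ⟨X, hX⟩ := (hatAt3 hC H).rot hC k
      exact ⟨X, fun _ => hX⟩
    · exact ⟨⊥, fun h => absurd h hi⟩
  choose Xh h using this
  exact ⟨Xh, fun i hi => (h i hi).mem, fun i hi => (h i hi).le, fun i hi => (h i hi).surj,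
    fun i hi => (h i hi).fix, fun i hi => (h i hi).com, fun i hi => (h i hi).odd,
    fun i hi => (h i hi).act, fun i hi => (h i hi).ref⟩

end Cfsg.Agent.H54.S4Su
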