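import Cfsg.Agent.H54.S4Sh1

/-! # Standard subgroups of type `Sp₄(q)`: no graph symmetry in type III, commutators in type II -/

set_option autoImplicit false

namespace Cfsg.Agent.H54.S4Su

open Cfsg Cfsg.Agent.H63 Cfsg.Agent.H63.SL Cfsg.Agent.H35.S4 Subgroup
open scoped commutatorElement

universe u v

variable {F : Type v} [Field F] {G : Type u} [Group G] {L : Subgroup G} {x : ZMod 8 → F → G} {t : G}

theorem A3_le (hC : Ctx L x t) {i : ZMod 8} {g : G} (h : g ∈ A3 x i) : g ∈ L := by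
  obtain ⟨a, b, c, rfl⟩ := (hC.kp.memA i g).1 h
  exact mul_mem (mul_mem (hC.kb.xL _ _) (hC.kb.xL _ _)) (hC.kb.xL _ _)

theorem A3_sq (hC : Ctx L x t) {i : ZMod 8} {g : G} (h : g ∈ A3 x i) : g * g = 1 := by
  have P := hC.mod.pin
  obtain ⟨a, b, c, rfl⟩ := (hC.kp.memA i g).1 h
  have c1 : Commute (x (i - 1) a) (x i b) := by simpa using P.c1 (i - 1) a b
  have c2 : Commute (x (i - 1) a) (x (i + 1) c) := by
    have := P.c2 (i - 1) a c
    rwa [show i - 1 + 2 = i + 1 by ring] at this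
  rw [← pow_two, (c2.mul_left (P.c1 i b c)).mul_pow, c1.mul_pow, pow_two, pow_two, pow_two,
    xsq P, xsq P, xsq P, mul_one, mul_one]

theorem odd_sq {o : G} (h : Odd (orderOf o)) (e : o * o = 1) : o = 1 := by
  have h1 : orderOf o ∣ 2 := orderOf_dvd_of_pow_eq_one (by rw [pow_two, e])
  rcases (Nat.dvd_prime Nat.prime_two).1 h1 with h2 | h2
  · exact orderOf_eq_one_iff.1 h2
  · rw [h2] at h; exact absurd h (by decide)

theorem nsh2 : ¬ sh 2 := by decide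

/-- **NSW** -/
theorem nsw : NswStmt.{u, v} := by
  intro F _ _ G _ _ L x t hC A _ j σ y Yh D H g hg r hr
  have P := hC.mod.pin
  have tt := tsq hC
  obtain ⟨l, hl, φ, h⟩ := hC.kn.aut g (hC.tc.cN hg)
  have hk : l * g ∈ N[L] := mul_mem (le_normalizer hl) (hC.tc.cN hg)
  have kt : Commute (l * g) t :=
    (hC.kb.tL l hl).symm.mul_left (mem_centralizer_singleton_iff.1 hg)
  rcases h with h | h
  · obtain ⟨l0, hl0, z, hz, z1, rfl⟩ := hr
    obtain ⟨a, rfl⟩ := (hC.kp.memX 1 z).1 hz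
    refine ⟨l⁻¹ * (l * g * l0 * (l * g)⁻¹), mul_mem (inv_mem hl) ((mem_normalizer_iff.1 hk l0).1 hl0),
      x 1 (φ a), xX 1 _, fun e => z1 ?_, by rw [← h]; group⟩
    rw [(map_eq_zero_iff φ φ.injective).1 (P.inj 1 _ e), x0 P]
  exfalso
  generalize l * g = k at *
  obtain ⟨O, hO⟩ := hC.kb.od
  have mO : ∀ o, o ∈ O ↔ o ∈ Od L t := fun o => by rw [← hO]; rfl
  have h2 : ∀ a, k * x 2 a * k⁻¹ = x 3 (φ a) := h 2
  have h3 : ∀ a, k * x 3 a * k⁻¹ = x 2 (φ a ^ 2) := h 3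
  have h4 : ∀ a, k * x 4 a * k⁻¹ = x 1 (φ a) := h 4
  have key : ∀ b, σ b ≠ b → ∃ p ∈ Yh 2, ∃ v ∈ A3 x 2, ∃ o ∈ O, k * y 3 b * k⁻¹ = p * (t * v * o) := by
    intro b hb
    have hy : y 3 b ∈ HatS L x t 0 3 := (D.hat 3 sh3 _).2 ⟨b, rfl⟩
    obtain ⟨a, ha, ha'⟩ := hy.2.2.1
    rw [zero_mul, x0 P] at ha'
    have a0 : a ≠ 0 := by
      rintro rfl
      rw [x0 P, mul_one, mul_inv_eq_iff_eq_mul] at ha
      have e := D.conj 3 sh3 b
      rw [← ha, mul_inv_cancel_right] at e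
      have := D.inj 3 sh3 (b + σ b) (by rw [D.add 3 sh3, ← e, ha'])
      exact hb (by linear_combination this - b * D.quad.two)
    obtain ⟨p, hp, lp⟩ := H.surj 2 nsh2 (φ a ^ 2)
    have hp' := (H.mem 2 nsh2 p).1 hp
    have pp := hat_sq hC hp' lp
    have lq : k * y 3 b * k⁻¹ * t * (k * y 3 b * k⁻¹)⁻¹ = t * x 2 (φ a ^ 2) := by
      calc _ = k * (y 3 b * (k⁻¹ * t * k) * (y 3 b)⁻¹) * k⁻¹ := by group
        _ = k * t * k⁻¹ * (k * x 3 a * k⁻¹) := by rw [kt.inv_mul_cancel, ha]; group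
        _ = _ := by rw [h3, kt.mul_inv_cancel]
    have cq : k * y 3 b * k⁻¹ ∈ C[A3 x 2] := fun v hv => by
      obtain ⟨c, d, e, rfl⟩ := (hC.kp.memA 2 v).1 hv
      obtain ⟨c, rfl⟩ := φ.surjective c
      obtain ⟨e, rfl⟩ := φ.surjective e
      obtain ⟨d, rfl⟩ := hC.kb.root d
      obtain ⟨d, rfl⟩ := φ.surjective d
      change Commute (x 1 _ * x 2 _ * x 3 _) _
      rw [← h2, ← h3, ← h4]
      exact ((((hcA hy c).2.2.conj k).mul_right ((hcA hy d).2.1.conj k)).mul_right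
        ((hcA hy e).1.conj k)).symm
    have qq : k * y 3 b * k⁻¹ * (k * y 3 b * k⁻¹) = 1 := by
      calc _ = k * (y 3 b * y 3 b) * k⁻¹ := by group
        _ = 1 := by rw [ha']; group
    generalize k * y 3 b * k⁻¹ = q at *
    obtain ⟨v, hv, o, ho, e⟩ := hC.kb.cA 2 (p⁻¹ * q) (by
      change _ = _
      calc _ = p⁻¹ * (q * t * q⁻¹) * q := by group
        _ = _ := by rw [lq, ← lp]; group) (mul_mem (inv_mem hp'.1) cq)
    rcases e with e | e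
    · exfalso
      have c1 : Commute v o := ho.1 v (A3_le hC hv)
      have c2 : Commute p (v * o) := (Commute.symm (hp'.1 v hv)).mul_right
        (H.odd 2 nsh2 o ho.1 ho.2.1 ho.2.2 p hp).symm
      have e1 : q = p * (v * o) := by rw [← e]; group
      rw [e1, ← pow_two, c2.mul_pow, c1.mul_pow, pow_two, pow_two, pow_two, pp, A3_sq hC hv,
        one_mul (o * o)] at qq
      have := P.inj 2 _ ((hC.kb.lto _ (hC.kb.xL 2 _) _
        ((mO _).1 (mul_mem ((mO o).2 ho) ((mO o).2 ho)))).1 qq).1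
      rw [one_mul] at this
      exact a0 ((map_eq_zero_iff φ φ.injective).1 ((pow_eq_zero_iff two_ne_zero).1 this))
    · exact ⟨p, hp, v, hv, o, (mO o).2 ho, by rw [← e]; group⟩
  obtain ⟨ω, hω⟩ := D.quad.tr
  obtain ⟨γ, g1, -⟩ := hC.kb.ne1
  have ne : ∀ c : F, c ≠ 0 → σ (j c * ω) ≠ j c * ω := fun c hc e => by
    rw [map_mul, (D.quad.fix _).2 ⟨c, rfl⟩, hω] at e
    have e1 : j c = 0 := by linear_combination e
    have e2 := D.add 3 sh3 0 0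
    rw [add_zero] at e2
    exact hc (P.inj 3 c (by rw [← D.res 3 sh3, e1]; exact mul_eq_left.1 e2.symm))
  obtain ⟨p1, hp1, v1, hv1, o1, ho1, e1⟩ := key _ (ne 1 one_ne_zero)
  obtain ⟨p2, hp2, v2, hv2, o2, ho2, e2⟩ := key _ (ne γ γ.ne_zero)
  obtain ⟨p3, hp3, v3, hv3, o3, ho3, e3⟩ := key _ (ne (1 + γ) fun e => g1 (Units.ext (by
    change (γ : F) = 1
    linear_combination e - P.two)))
  have e4 : p1 * (t * v1 * o1) * (p2 * (t * v2 * o2)) = p3 * (t * v3 * o3) := by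
    rw [← e1, ← e2, ← e3, map_add, add_mul, D.add 3 sh3]; group
  have od := fun o ho => (mO o).1 ho
  have hp2' := (H.mem 2 nsh2 p2).1 hp2
  obtain ⟨w, hw, -⟩ := hp2'.2.2.1
  have c2 : Commute p2 (v1 * o1) := (Commute.symm (hp2'.1 v1 hv1)).mul_right
    (H.odd 2 nsh2 o1 (od _ ho1).1 (od _ ho1).2.1 (od _ ho1).2.2 p2 hp2).symm
  have ct : ∀ v ∈ A3 x 2, ∀ o ∈ O, Commute t (v * o) := fun v hv o ho =>
    (hC.kb.tL v (A3_le hC hv)).mul_right (od o ho).2.1.symm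
  have c3 : Commute v2 o1 := (od _ ho1).1 v2 (A3_le hC hv2)
  have e5 : p3⁻¹ * p1 * (x 2 w * p2) * (v1 * v2 * (o1 * o2)) = t * (v3 * o3) := by
    calc _ = p3⁻¹ * p1 * ((t * t)⁻¹ * t * (p2 * t * p2⁻¹) * p2) * (v1 * (v2 * o1) * o2) := by
          rw [tt, hw, ← mul_assoc _ t, mul_assoc _ t t, tt]; group
      _ = p3⁻¹ * p1 * t⁻¹ * p2 * (t * (v1 * o1)) * (v2 * o2) := by rw [c3.eq]; group
      _ = p3⁻¹ * (p1 * t⁻¹ * (p2 * (v1 * o1)) * (t * v2 * o2)) := by rw [(ct v1 hv1 o1 ho1).eq]; group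
      _ = p3⁻¹ * (p1 * (t * v1 * o1) * (p2 * (t * v2 * o2))) := by
          rw [c2.eq, inv_eq_of_mul_eq_one_right tt]; group
      _ = _ := by rw [e4]; group
  have hQ : p3⁻¹ * p1 * (x 2 w * p2) ∈ Yh 2 :=
    mul_mem (mul_mem (inv_mem hp3) hp1) (mul_mem (H.le 2 nsh2 w) hp2)
  obtain ⟨c, hc⟩ := H.fix 2 nsh2 _ hQ (by
    rw [eq_mul_inv_of_mul_eq e5]
    exact (((Commute.refl t).mul_right (ct v3 hv3 o3 ho3)).mul_right
      (ct _ (mul_mem hv1 hv2) _ (mul_mem ho1 ho2)).inv_right).symm)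
  rw [hc] at e5
  have hl' : x 2 c * (v1 * v2) ∈ L := mul_mem (hC.kb.xL _ _) (A3_le hC (mul_mem hv1 hv2))
  have c4 : Commute (x 2 c * (v1 * v2))⁻¹ (o3 * (o1 * o2)⁻¹) :=
    (od _ (mul_mem ho3 (inv_mem (mul_mem ho1 ho2)))).1 _ (inv_mem hl')
  refine (hC.kb.lto (v3 * (x 2 c * (v1 * v2))⁻¹) (mul_mem (A3_le hC hv3) (inv_mem hl')) _
    (od _ (mul_mem ho3 (inv_mem (mul_mem ho1 ho2))))).2 ?_
  calc _ = t * v3 * ((x 2 c * (v1 * v2))⁻¹ * (o3 * (o1 * o2)⁻¹)) := by group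
    _ = t * (v3 * o3) * (x 2 c * (v1 * v2 * (o1 * o2)))⁻¹ := by rw [c4.eq]; group
    _ = 1 := by rw [← e5]; group

/-- **COM3** -/
theorem com3 : Com3Stmt.{u, v} := by
  intro F _ _ G _ _ L x t hC Xh H π hπ p hp
  have P := hC.mod.pin
  have tt := tsq hC
  have sq : ∀ i, ∀ q ∈ Xh i, q * q = 1 := fun i q hq => by
    obtain ⟨a, -, h⟩ := ((H.mem i q).1 hq).2.2.1
    rw [h, zero_mul, x0 P]
  have com : ∀ i, ∀ q ∈ Xh i, ∀ q' ∈ Xh i, Commute q q' := fun i q hq q' hq' => by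
    calc q * q' = q * q' * (q * q') * (q'⁻¹ * q⁻¹) := by group
      _ = q' * q := by
        rw [sq i _ (mul_mem hq hq'), one_mul, inv_eq_of_mul_eq_one_right (sq i q hq),
          inv_eq_of_mul_eq_one_right (sq i q' hq')]
  have c23 : ∀ r ∈ Xh 2, ∀ r' ∈ Xh 3, Commute r r' := fun r hr r' hr' => (H.c1 2 hr r' hr').symm
  -- the group `Ẑ`
  let Z : Subgroup G :=
    { carrier := {z | ∃ r ∈ Xh 2, ∃ r' ∈ Xh 3, z = r * r'}
      one_mem' := ⟨1, one_mem _, 1, one_mem _, (mul_one 1).symm⟩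
      mul_mem' := by
        rintro _ _ ⟨a, ha, b, hb, rfl⟩ ⟨c, hc, d, hd, rfl⟩
        exact ⟨_, mul_mem ha hc, _, mul_mem hb hd, by
          rw [mul_assoc, mul_assoc, ← mul_assoc b, ← (c23 c hc b hb).eq, mul_assoc]⟩
      inv_mem' := by
        rintro _ ⟨a, ha, b, hb, rfl⟩
        exact ⟨_, inv_mem ha, _, inv_mem hb, by
          rw [mul_inv_rev, (c23 _ (inv_mem ha) _ (inv_mem hb)).eq]⟩ }
  have z1 : ∀ q ∈ Xh 1, ∀ z ∈ Z, Commute q z := by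
    rintro q hq _ ⟨a, ha, b, hb, rfl⟩
    exact (Commute.symm (H.c1 1 hq a ha)).mul_right (Commute.symm (H.c2 1 hq b hb))
  have z4 : ∀ q ∈ Xh 4, ∀ z ∈ Z, Commute q z := by
    rintro q hq _ ⟨a, ha, b, hb, rfl⟩
    exact Commute.mul_right (H.c2 2 ha q hq) (H.c1 3 hb q hq)
  have zz : ∀ z ∈ Z, ∀ z' ∈ Z, Commute z z' := by
    rintro _ ⟨a, ha, b, hb, rfl⟩ _ ⟨c, hc, d, hd, rfl⟩
    exact ((com 2 a ha c hc).mul_right (c23 a ha d hd)).mul_left
      ((c23 c hc b hb).symm.mul_right (com 3 b hb d hd))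
  have zsq : ∀ z ∈ Z, z * z = 1 := by
    rintro _ ⟨a, ha, b, hb, rfl⟩
    rw [← pow_two, (c23 a ha b hb).mul_pow, pow_two, pow_two, sq 2 a ha, sq 3 b hb, mul_one]
  have m2 : ∀ r ∈ Xh 2, r ∈ Z := fun r hr => ⟨r, hr, 1, one_mem _, (mul_one r).symm⟩
  have m3 : ∀ r ∈ Xh 3, r ∈ Z := fun r hr => ⟨1, one_mem _, r, hr, (one_mul r).symm⟩
  obtain ⟨a, ha, -⟩ := ((H.mem 1 π).1 hπ).2.2.1
  obtain ⟨w, hw, -⟩ := ((H.mem 4 p).1 hp).2.2.1
  have ππ := sq 1 π hπ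
  have pp := sq 4 p hp
  have πi := inv_eq_of_mul_eq_one_right ππ
  have pi := inv_eq_of_mul_eq_one_right pp
  have hκ : ⁅π, p⁆ = π * p * π * p := by rw [commutatorElement_def, πi, pi]
  have f1 : ∀ s, π * x 1 s * π⁻¹ = x 1 s := fun s => (com 1 π hπ _ (H.le 1 s)).mul_inv_cancel
  have f4 : ∀ s, p * x 4 s * p⁻¹ = x 4 s := fun s => (com 4 p hp _ (H.le 4 s)).mul_inv_cancel
  have fz1 : ∀ z ∈ Z, π * z * π⁻¹ = z := fun z hz => (z1 π hπ z hz).mul_inv_cancel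
  have fz4 : ∀ z ∈ Z, p * z * p⁻¹ = z := fun z hz => (z4 p hp z hz).mul_inv_cancel
  have k1 : ∀ s, Commute ⁅π, p⁆ (x 1 s) := fun s => by
    obtain ⟨r, hr, r', hr', -, -, e⟩ := H.r1 p hp w hw s
    have hz : (r * r')⁻¹ ∈ Z := inv_mem ⟨r, hr, r', hr', rfl⟩
    have e1 := conj_of_cm e
    generalize (r * r')⁻¹ = z at *
    have e2 : π * p * x 1 s * (π * p)⁻¹ = z * x 1 s := by
      calc _ = π * (p * x 1 s * p⁻¹) * π⁻¹ := by group
        _ = π * z * π⁻¹ * (π * x 1 s * π⁻¹) := by rw [e1]; group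
        _ = _ := by rw [fz1 z hz, f1]
    have e3 := ((z1 π hπ z hz).mul_left (z4 p hp z hz)).mul_inv_cancel
    change _ = _
    rw [hκ, ← mul_inv_eq_iff_eq_mul]
    calc _ = π * p * (π * p * x 1 s * (π * p)⁻¹) * (π * p)⁻¹ := by group
      _ = π * p * (z * x 1 s) * (π * p)⁻¹ := by rw [e2]
      _ = π * p * z * (π * p)⁻¹ * (π * p * x 1 s * (π * p)⁻¹) := by group
      _ = _ := by rw [e3, e2, ← mul_assoc, zsq z hz, one_mul]
  have k4 : ∀ s, Commute ⁅π, p⁆ (x 4 s) := fun s => by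
    obtain ⟨r, hr, r', hr', -, -, e⟩ := H.r4 π hπ a ha s
    have hz : r * r' ∈ Z := ⟨r, hr, r', hr', rfl⟩
    have e1 := conj_of_cm' e
    generalize r * r' = z at *
    have e2 : π * p * x 4 s * (π * p)⁻¹ = z * x 4 s := by
      calc _ = π * (p * x 4 s * p⁻¹) * π⁻¹ := by group
        _ = _ := by rw [f4, e1]
    have e3 := ((z1 π hπ z hz).mul_left (z4 p hp z hz)).mul_inv_cancel
    change _ = _
    rw [hκ, ← mul_inv_eq_iff_eq_mul]
    calc _ = π * p * (π * p * x 4 s * (π * p)⁻¹) * (π * p)⁻¹ := by group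
      _ = π * p * (z * x 4 s) * (π * p)⁻¹ := by rw [e2]
      _ = π * p * z * (π * p)⁻¹ * (π * p * x 4 s * (π * p)⁻¹) := by group
      _ = _ := by rw [e3, e2, ← mul_assoc, zsq z hz, one_mul]
  have kz : ∀ z ∈ Z, Commute ⁅π, p⁆ z := fun z hz => by
    rw [hκ]
    exact (((z1 π hπ z hz).mul_left (z4 p hp z hz)).mul_left (z1 π hπ z hz)).mul_left (z4 p hp z hz)
  -- the image of `t`
  obtain ⟨r1, hr1, s1, hs1, a1, b1, e1⟩ := H.r4 π hπ a ha w
  obtain ⟨r2, hr2, s2, hs2, a2, b2, e2⟩ := H.r1 p hp w hw a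
  have same : ∀ i, ∀ r ∈ Xh i, ∀ r' ∈ Xh i, r * t * r⁻¹ = r' * t * r'⁻¹ → ∃ c, r'⁻¹ * r = x i c :=
    fun i r hr r' hr' e => H.fix i _ (mul_mem (inv_mem hr') hr) (by
      change _ = _
      calc _ = r'⁻¹ * (r * t * r⁻¹) * r := by group
        _ = _ := by rw [e]; group)
  obtain ⟨b, hb⟩ := same 2 r1 hr1 r2 hr2 (a1.trans a2.symm)
  obtain ⟨c, hc⟩ := same 3 s1 hs1 s2 hs2 (b1.trans b2.symm)
  have hz : r1 * s1 ∈ Z := ⟨r1, hr1, s1, hs1, rfl⟩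
  have hz' : (r2 * s2)⁻¹ ∈ Z := inv_mem ⟨r2, hr2, s2, hs2, rfl⟩
  have zp : (r2 * s2)⁻¹ * (r1 * s1) = x 2 b * x 3 c := by
    rw [← hb, ← hc, mul_inv_rev, mul_assoc, ← mul_assoc r2⁻¹, ← mul_assoc,
      ← (c23 _ (mul_mem (inv_mem hr2) hr1) _ (inv_mem hs2)).eq, mul_assoc]
  have e1' := conj_of_cm' e1
  have e2' := conj_of_cm e2
  generalize r1 * s1 = z at *
  generalize (r2 * s2)⁻¹ = z' at *
  have rs : ⁅x 1 a, x 4 w⁆ = x 2 (a ^ 2 * w) * x 3 (a * w) := P.rs 1 sh1 a w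
  have lk : ⁅π, p⁆ * t * ⁅π, p⁆⁻¹ = t * (x 2 (a ^ 2 * w + b) * x 3 (a * w + c)) := by
    have d1 : π * p * t * (π * p)⁻¹ = t * x 1 a * (z * x 4 w) := by
      calc _ = π * (p * t * p⁻¹) * π⁻¹ := by group
        _ = π * t * π⁻¹ * (π * x 4 w * π⁻¹) := by rw [hw]; group
        _ = _ := by rw [ha, e1']
    have d2 : π * p * x 1 a * (π * p)⁻¹ = z' * x 1 a := by
      calc _ = π * (p * x 1 a * p⁻¹) * π⁻¹ := by group
        _ = π * z' * π⁻¹ * (π * x 1 a * π⁻¹) := by rw [e2']; group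
        _ = _ := by rw [fz1 z' hz', f1]
    have d3 : π * p * x 4 w * (π * p)⁻¹ = z * x 4 w := by
      calc _ = π * (p * x 4 w * p⁻¹) * π⁻¹ := by group
        _ = _ := by rw [f4, e1']
    have d4 := ((z1 π hπ z hz).mul_left (z4 p hp z hz)).mul_inv_cancel
    have hzz := mul_mem hz' hz
    have q1 : Commute z (x 4 w) := (z4 _ (H.le 4 w) z hz).symm
    have q2 : Commute (z' * z) (x 1 a * x 4 w) :=
      ((z1 _ (H.le 1 a) _ hzz).mul_left (z4 _ (H.le 4 w) _ hzz)).symm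
    have q3 : Commute (x 3 (a * w)) (x 2 b) := (P.c1 2 _ _).symm
    rw [hκ]
    calc _ = π * p * (π * p * t * (π * p)⁻¹) * (π * p)⁻¹ := by group
      _ = π * p * (t * x 1 a * (z * x 4 w)) * (π * p)⁻¹ := by rw [d1]
      _ = π * p * t * (π * p)⁻¹ * (π * p * x 1 a * (π * p)⁻¹) * (π * p * z * (π * p)⁻¹) *
          (π * p * x 4 w * (π * p)⁻¹) := by group
      _ = t * x 1 a * (z * x 4 w) * z' * x 1 a * (z * z) * x 4 w := by rw [d1, d2, d3, d4]; group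
      _ = t * x 1 a * x 4 w * (z * z') * (x 1 a * x 4 w) := by rw [q1.eq, zsq z hz]; group
      _ = t * (x 1 a * x 4 w * (x 1 a)⁻¹ * (x 4 w)⁻¹) * (z' * z) := by
          rw [(zz z hz z' hz').eq, mul_assoc _ (z' * z), q2.eq, xinv P, xinv P]; group
      _ = t * (x 2 (a ^ 2 * w) * (x 3 (a * w) * x 2 b) * x 3 c) := by
          rw [← commutatorElement_def, rs, zp]; group
      _ = _ := by rw [q3.eq, P.add, P.add]; group
  obtain ⟨r, hr, lr⟩ := H.surj 2 (a ^ 2 * w + b)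
  obtain ⟨s, hs, ls⟩ := H.surj 3 (a * w + c)
  have hz0 : r * s ∈ Z := ⟨r, hr, s, hs, rfl⟩
  have l0 : r * s * t * (r * s)⁻¹ = t * (x 2 (a ^ 2 * w + b) * x 3 (a * w + c)) := by
    calc _ = r * (s * t * s⁻¹) * r⁻¹ := by group
      _ = r * t * r⁻¹ * (r * x 3 (a * w + c) * r⁻¹) := by rw [ls]; group
      _ = _ := by rw [lr, (c23 r hr _ (H.le 3 _)).mul_inv_cancel, mul_assoc]
  have πκ : π * ⁅π, p⁆ * π⁻¹ * ⁅π, p⁆ = 1 := by
    rw [hκ, πi]
    calc _ = (π * π) * p * π * p * (π * π) * p * π * p := by group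
      _ = p * π * (p * p) * π * p := by rw [ππ]; group
      _ = p * (π * π) * p := by rw [pp]; group
      _ = 1 := by rw [ππ, mul_one, pp]
  change ⁅π, p⁆ ∈ Z
  generalize ⁅π, p⁆ = κ at *
  generalize r * s = z0 at *
  have m1 : ∀ s, Commute (z0⁻¹ * κ) (x 1 s) := fun s =>
    (z1 _ (H.le 1 s) z0 hz0).symm.inv_left.mul_left (k1 s)
  have m4 : Commute (z0⁻¹ * κ) (x 4 1) := (z4 _ (H.le 4 1) z0 hz0).symm.inv_left.mul_left (k4 1)
  have mz : ∀ z ∈ Z, Commute (z0⁻¹ * κ) z := fun z hz => (zz z0 hz0 z hz).inv_left.mul_left (kz z hz)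
  obtain ⟨v, hv, o, ho, e⟩ := hC.kb.cA 2 (z0⁻¹ * κ) (by
    change _ = _
    calc _ = z0⁻¹ * (κ * t * κ⁻¹) * κ := by group
      _ = _ := by rw [lk, ← l0]; group) (fun v hv => by
    obtain ⟨c, d, e, rfl⟩ := (hC.kp.memA 2 v).1 hv
    exact (((m1 c).mul_right (mz _ (m2 _ (H.le 2 d)))).mul_right (mz _ (m3 _ (H.le 3 e)))).symm)
  have o4 : Commute o (x 4 1) := (ho.1 _ (hC.kb.xL 4 1)).symm
  have v4 : Commute v (x 4 1) := by
    rcases e with e | e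
    · have := m4.mul_left o4.inv_left
      rwa [e, mul_inv_cancel_right] at this
    · have := ((tx hC 4 1).inv_left.mul_left m4).mul_left o4.inv_left
      rwa [e, show t⁻¹ * (t * v * o) * o⁻¹ = v by group] at this
  obtain ⟨v1, v2, v3, rfl⟩ := (hC.kp.memA 2 v).1 hv
  have hv' : x 2 v2 * x 3 v3 ∈ Z := ⟨_, H.le 2 v2, _, H.le 3 v3, rfl⟩
  have v10 : v1 = 0 := by
    have h1 : Commute (x 1 v1) (x 4 1) := by
      have := v4.mul_left (z4 _ (H.le 4 1) _ hv').symm.inv_left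
      change Commute (x 1 v1 * x 2 v2 * x 3 v3 * _) _ at this
      rwa [mul_assoc (x 1 v1), mul_inv_cancel_right] at this
    have h2 : ⁅x 1 v1, x 4 1⁆ = x 2 (v1 ^ 2 * 1) * x 3 (v1 * 1) := P.rs 1 sh1 v1 1
    rw [commutatorElement_eq_one_iff_commute.2 h1] at h2
    simpa using (u23 hC h2.symm).2
  subst v10
  rw [x0 P, one_mul] at e
  change z0⁻¹ * κ = x 2 v2 * x 3 v3 * o ∨ z0⁻¹ * κ = t * (x 2 v2 * x 3 v3) * o at e
  generalize x 2 v2 * x 3 v3 = v at *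
  have oc : ∀ i, ∀ q ∈ Xh i, Commute o q := fun i q hq => H.odd i o ho.1 ho.2.1 ho.2.2 q hq
  have oz : ∀ z ∈ Z, Commute o z := by
    rintro _ ⟨a, ha, b, hb, rfl⟩
    exact (oc 2 a ha).mul_right (oc 3 b hb)
  rcases e with e | e
  · have e1 : κ = z0 * v * o := by rw [mul_assoc, ← e]; group
    have hz1 := mul_mem hz0 hv'
    generalize z0 * v = z at *
    subst e1
    rw [((z1 π hπ z hz1).mul_right (oc 1 π hπ).symm).mul_inv_cancel, ← pow_two,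
      (oz z hz1).symm.mul_pow, pow_two, pow_two, zsq z hz1, one_mul] at πκ
    rw [odd_sq ho.2.2 πκ, mul_one]
    exact hz1
  · exfalso
    obtain ⟨q, hq, lq⟩ := H.surj 3 1
    have := ((mz q (m3 q hq)).mul_left (oc 3 q hq).inv_left).mul_left (zz v hv' q (m3 q hq)).inv_left
    rw [e, show t * v * o * o⁻¹ * v⁻¹ = t by group] at this
    rw [this.symm.mul_inv_cancel] at lq
    exact one_ne_zero (P.inj 3 _ (mul_eq_left.1 lq.symm))

end Cfsg.Agent.H54.S4Su
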