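import Cfsg.Agent.H35.S4Defs

/-! # Standard subgroups of type `Sp₄(q)`: the coordinates on the doubled short root group -/

set_option autoImplicit false

namespace Cfsg.Agent.H54.S4Su

open Cfsg Cfsg.Agent.H63 Cfsg.Agent.H63.SL Cfsg.Agent.H35.S4 Subgroup
open scoped commutatorElement

universe u v

section Ring

variable {A : Type v} [CommRing A] {G : Type u} [Group G] {x : ZMod 8 → A → G}

theorem x0 (P : Pin2 x) (i : ZMod 8) : x i 0 = 1 := by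
  have := P.add i 0 0
  rw [add_zero] at this
  exact mul_eq_left.1 this.symm

theorem xsq (P : Pin2 x) (i : ZMod 8) (a : A) : x i a * x i a = 1 := by
  rw [← P.add, ← two_mul, P.two, zero_mul, x0 P]

theorem xinv (P : Pin2 x) (i : ZMod 8) (a : A) : (x i a)⁻¹ = x i a :=
  inv_eq_of_mul_eq_one_right (xsq P i a)

theorem xinj (P : Pin2 x) {i : ZMod 8} {a b : A} (h : x i a = x i b) : a = b := by
  have := P.inj i (a + b) (by rw [P.add, h, xsq P])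
  linear_combination this - b * P.two

omit [CommRing A] in
theorem xX (i : ZMod 8) (a : A) : x i a ∈ XR x i := subset_closure ⟨a, rfl⟩

omit [CommRing A] in
theorem xA (i : ZMod 8) (a : A) :
    x (i - 1) a ∈ A3 x i ∧ x i a ∈ A3 x i ∧ x (i + 1) a ∈ A3 x i :=
  ⟨mem_sup_left (mem_sup_left (xX _ a)), mem_sup_left (mem_sup_right (xX _ a)),
    mem_sup_right (xX _ a)⟩

end Ring

variable {F : Type v} [Field F] {G : Type u} [Group G] {L : Subgroup G} {x : ZMod 8 → F → G} {t : G}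

theorem hcA {c : F} {i : ZMod 8} {p : G} (hp : p ∈ HatS L x t c i) (a : F) :
    Commute p (x (i - 1) a) ∧ Commute p (x i a) ∧ Commute p (x (i + 1) a) :=
  ⟨(hp.1 _ (xA i a).1).symm, (hp.1 _ (xA i a).2.1).symm, (hp.1 _ (xA i a).2.2).symm⟩

theorem sh1 : sh 1 := by decide
theorem sh3 : sh 3 := by decide

theorem wt1 (α β : Fˣ) : wt α β 1 = α := rfl
theorem wt2 (α β : Fˣ) : wt α β 2 = α ^ 2 * β := rfl
theorem wt3 (α β : Fˣ) : wt α β 3 = α * β := rfl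
theorem wt4 (α β : Fˣ) : wt α β 4 = β := rfl

theorem tsq (hC : Ctx L x t) : t * t = 1 := by
  rw [← pow_two, ← hC.tc.t2, pow_orderOf_eq_one]

theorem tx (hC : Ctx L x t) (i : ZMod 8) (a : F) : Commute t (x i a) := hC.kb.tL _ (hC.kb.xL i a)

variable {l : F} {Xh : ZMod 8 → Subgroup G}

theorem hsq (hC : Ctx L x t) (H : HatP L x t 0 l Xh) {i : ZMod 8} (hi : sh i) {p : G}
    (hp : p ∈ Xh i) : p * p = 1 := by
  obtain ⟨a, -, h⟩ := ((H.mem i hi p).1 hp).2.2.1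
  rw [h, zero_mul, x0 hC.mod.pin]

theorem lam {c : F} (H : HatP L x t c l Xh) {i : ZMod 8} (hi : sh i) {p : G}
    (hp : p ∈ Xh i) : ∃ a, p * t * p⁻¹ = t * x i a :=
  let ⟨a, h, _⟩ := ((H.mem i hi p).1 hp).2.2.1
  ⟨a, h⟩

theorem c12 {c : F} (H : HatP L x t c l Xh) {p : G} (hp : p ∈ Xh 1) (a : F) :
    Commute p (x 0 a) ∧ Commute p (x 1 a) ∧ Commute p (x 2 a) := hcA ((H.mem 1 sh1 p).1 hp) a

theorem c32 {c : F} (H : HatP L x t c l Xh) {p : G} (hp : p ∈ Xh 3) (a : F) :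
    Commute p (x 2 a) ∧ Commute p (x 3 a) ∧ Commute p (x 4 a) := hcA ((H.mem 3 sh3 p).1 hp) a

theorem n13 {c : F} (hC : Ctx L x t) (H : HatP L x t c l Xh) {p : G} (hp : p ∈ Xh 1) :
    n2 x 4 * p * (n2 x 4)⁻¹ ∈ Xh 3 :=
  (H.mem 3 sh3 _).2 (hC.kb.hatN 4 c 1 p ((H.mem 1 sh1 p).1 hp))

theorem n31 {c : F} (hC : Ctx L x t) (H : HatP L x t c l Xh) {p : G} (hp : p ∈ Xh 3) :
    n2 x 4 * p * (n2 x 4)⁻¹ ∈ Xh 1 :=
  (H.mem 1 sh1 _).2 (hC.kb.hatN 4 c 3 p ((H.mem 3 sh3 p).1 hp))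

/-- `X̂_3`, `X̂_1`, `X_2` are independent. -/
theorem ind (hC : Ctx L x t) (H : HatP L x t 0 l Xh) {q r : G} {c : F} (hq : q ∈ Xh 3)
    (hr : r ∈ Xh 1) (h : q * r * x 2 c = 1) : q = 1 ∧ r = 1 ∧ c = 0 := by
  have P := hC.mod.pin
  obtain ⟨a, ha⟩ := lam H sh3 hq
  obtain ⟨b, hb⟩ := lam H sh1 hr
  have e : q = r * x 2 c := by
    have := hsq hC H sh3 hq
    rw [mul_assoc] at h
    exact mul_left_cancel (this.trans h.symm)
  have e2 : q * t * q⁻¹ = r * t * r⁻¹ := by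
    rw [e, mul_assoc r, ← (tx hC 2 c).eq]; group
  rw [ha, hb] at e2
  have e3 : x 3 a = x 1 b := mul_left_cancel e2
  obtain ⟨rfl, -, rfl, -⟩ := hC.kp.uniq 1 b 0 a 0 (by
    rw [x0 P, x0 P, mul_one, mul_one]
    change x 1 b * x 3 a = 1
    rw [e3, xsq P])
  rw [x0 P, mul_one, mul_inv_eq_iff_eq_mul] at ha hb
  obtain ⟨d, rfl⟩ := H.fix 3 sh3 q hq ha
  obtain ⟨d', rfl⟩ := H.fix 1 sh1 r hr hb
  obtain ⟨rfl, rfl, rfl, -⟩ := hC.kp.uniq 1 d' c d 0 (by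
    rw [x0 P, mul_one]
    change x 1 d' * x 2 c * x 3 d = 1
    rw [← e, xsq P])
  exact ⟨x0 P _, x0 P _, rfl⟩

variable {c' : F} {Y : Subgroup G}

theorem theta (hC : Ctx L x t) (H : HatP L x t 0 1 Xh) (H2 : Hat2 L x t c' 0 Y)
    (R : Rad x t 0 1 c' 0 Xh Y) {p : G} (hp : p ∈ Xh 1) (u : F) :
    ∃ q ∈ Xh 3, ∃ ν, x 4 u * p * (x 4 u)⁻¹ = q * p * x 2 ν := by
  have P := hC.mod.pin
  obtain ⟨a, ha⟩ := lam H sh1 hp
  obtain ⟨q, hq, y, hy, -, h2, h3⟩ := R.r4 p hp a ha u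
  obtain ⟨w, h4, -, h5, -⟩ := H2.mov y hy
  have hw : w ^ 2 = (1 + 1) * a ^ 2 * u := xinj P (mul_left_cancel (h4.symm.trans h2))
  rw [one_add_one_eq_two, P.two, zero_mul, zero_mul] at hw
  obtain ⟨ν, rfl⟩ := (hC.kp.memX 2 y).1 (h5 (pow_eq_zero_iff two_ne_zero |>.1 hw))
  exact ⟨q, hq, ν, h3⟩

theorem com13 (hC : Ctx L x t) (H : HatP L x t 0 l Xh) {p q g : G} {ν : F} (hp : p ∈ Xh 1)
    (hq : q ∈ Xh 3) (h : g * p * g⁻¹ = q * p * x 2 ν) : Commute q p := by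
  have P := hC.mod.pin
  have h1 := hsq hC H sh1 hp
  have h3 := hsq hC H sh3 hq
  have z : Commute (q * p) (x 2 ν) := ((c32 H hq ν).1).mul_left (c12 H hp ν).2.2
  have e : q * p * (q * p) = 1 := by
    calc q * p * (q * p) = q * p * (q * p) * (x 2 ν * x 2 ν) := by rw [xsq P, mul_one]
      _ = q * p * (q * p * x 2 ν) * x 2 ν := by group
      _ = q * p * (x 2 ν * (q * p)) * x 2 ν := by rw [z.eq]
      _ = (q * p * x 2 ν) * (q * p * x 2 ν) := by group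
      _ = g * (p * p) * g⁻¹ := by rw [← h]; group
      _ = 1 := by rw [h1]; group
  calc q * p = q * p * (q * p) * (p⁻¹ * q⁻¹) := by group
    _ = p * q := by rw [e, one_mul, inv_eq_of_mul_eq_one_right h1, inv_eq_of_mul_eq_one_right h3]

theorem key (hC : Ctx L x t) (H : HatP L x t 0 1 Xh) (H2 : Hat2 L x t c' 0 Y)
    (R : Rad x t 0 1 c' 0 Xh Y) {p : G} (hp : p ∈ Xh 1) :
    ∃ ν, x 4 1 * p * (x 4 1)⁻¹ = n2 x 4 * p * (n2 x 4)⁻¹ * p * x 2 ν := by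
  have P := hC.mod.pin
  obtain ⟨q, hq, ν, e1⟩ := theta hC H H2 R hp 1
  obtain ⟨q', hq', ν', e2⟩ := theta hC H H2 R (n31 hC H hq) 1
  have hr := mul_mem (n31 hC H hq') hp
  obtain ⟨q'', hq'', ν'', e3⟩ := theta hC H H2 R hr 1
  have nn := hC.kb.nsq 4
  have n4 : n2 x 4 * x 4 1 * (n2 x 4)⁻¹ = x 0 1 := hC.kp.nn 4 4 1
  have n2' : n2 x 4 * x 2 ν' * (n2 x 4)⁻¹ = x 2 ν' := hC.kp.nn 4 2 ν'
  have nd : n2 x 4 = x 4 1 * x 0 1 * x 4 1 := rfl
  obtain ⟨B, hB⟩ := (hC.kp.memX 2 _).1 (R.r13 _ hr q hq)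
  have cqp := com13 hC H hp hq e1
  have hn := n13 hC H hp
  generalize n2 x 4 = n at *
  have e4 : x 0 1 * q * (x 0 1)⁻¹ = n * q' * n⁻¹ * q * x 2 ν' := by
    calc x 0 1 * q * (x 0 1)⁻¹ = n * x 4 1 * (n * n)⁻¹ * (n * q * n⁻¹) * (n * n) * (x 4 1)⁻¹ * n⁻¹ := by
          rw [← n4]; group
      _ = n * (x 4 1 * (n * q * n⁻¹) * (x 4 1)⁻¹) * n⁻¹ := by rw [nn]; group
      _ = n * q' * n⁻¹ * ((n * n) * q * (n * n)⁻¹) * (n * x 2 ν' * n⁻¹) := by rw [e2]; group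
      _ = _ := by rw [nn, n2']; group
  set r := n * q' * n⁻¹ * p with hr'
  have c0 : Commute (x 0 1) (p * x 2 ν) := (c12 H hp 1).1.symm.mul_right (P.c2 0 1 ν)
  have c4 : Commute (x 4 1) (q * x 2 (ν' + ν)) :=
    (c32 H hq 1).2.2.symm.mul_right (P.c2 2 _ 1).symm
  have e5 : n * p * n⁻¹ = q'' * q * r * x 2 (B + ν'' + (ν' + ν)) := by
    calc n * p * n⁻¹ = x 4 1 * (x 0 1 * (x 4 1 * p * (x 4 1)⁻¹) * (x 0 1)⁻¹) * (x 4 1)⁻¹ := by
          rw [nd]; group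
      _ = x 4 1 * (x 0 1 * q * (x 0 1)⁻¹ * (x 0 1 * (p * x 2 ν) * (x 0 1)⁻¹)) * (x 4 1)⁻¹ := by
          rw [e1]; group
      _ = x 4 1 * (n * q' * n⁻¹ * (q * (x 2 ν' * p)) * x 2 ν) * (x 4 1)⁻¹ := by
          rw [e4, c0.mul_inv_cancel]; group
      _ = x 4 1 * r * (x 4 1)⁻¹ * (x 4 1 * (q * x 2 (ν' + ν)) * (x 4 1)⁻¹) := by
          rw [← (c12 H hp ν').2.2.eq, ← mul_assoc q p, cqp.eq, hr', P.add]; group
      _ = q'' * (r * (x 2 ν'' * q)) * x 2 (ν' + ν) := by rw [e3, c4.mul_inv_cancel]; group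
      _ = q'' * (⁅r, q⁆ * (q * r)) * x 2 ν'' * x 2 (ν' + ν) := by
          rw [← (c32 H hq ν'').1.eq, commutatorElement_def]; group
      _ = _ := by
          rw [hB, ← (((c32 H hq B).1).mul_left (c12 H hr B).2.2).eq, P.add 2 (B + ν''), P.add 2 B]; group
  obtain ⟨h1, h2, -⟩ := ind hC H (mul_mem (inv_mem hn) (mul_mem hq'' hq)) hr
    (c := B + ν'' + (ν' + ν)) (by rw [e5]; group)
  rw [h2] at e3
  obtain ⟨h3, -, -⟩ := ind hC H hq'' (one_mem _) (c := ν'') (by rw [← e3]; group)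
  rw [h3, one_mul, inv_mul_eq_one] at h1
  exact ⟨ν, by rw [h1, e1]⟩

variable {p : F → G}

theorem p0 (hp : Par L x t 1 p) : p 0 = 1 := by
  have := hp.add 0 0
  rw [add_zero] at this
  exact mul_eq_left.1 this.symm

theorem scaled (hC : Ctx L x t) (H : HatP L x t 0 1 Xh) (H2 : Hat2 L x t c' 0 Y)
    (R : Rad x t 0 1 c' 0 Xh Y) (hp : Par L x t 1 p) : ∃ ν, ∀ b u,
    x 4 u * p b * (x 4 u)⁻¹ = n2 x 4 * p (b * u) * (n2 x 4)⁻¹ * p b * x 2 (b ^ 2 * u * ν) := by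
  have P := hC.mod.pin
  obtain ⟨ν, e⟩ := key hC H H2 R ((H.mem 1 sh1 _).2 (hp.mem 1))
  refine ⟨ν, fun b u => ?_⟩
  rcases eq_or_ne b 0 with rfl | hb
  · simp [p0 hp, x0 P]
  rcases eq_or_ne u 0 with rfl | hu
  · simp [p0 hp, x0 P]
  obtain ⟨h, hh, T⟩ := hC.kp.tor (Units.mk0 b hb) (Units.mk0 u hu)
  obtain ⟨α, β, T'⟩ := hC.kp.memH _ (hC.kb.nH 4 h hh)
  have nn := hC.kb.nsq 4
  have ni : (n2 x 4)⁻¹ = n2 x 4 := inv_eq_of_mul_eq_one_right nn
  have a1 : n2 x 4 * x 1 1 * (n2 x 4)⁻¹ = x 3 1 := hC.kp.nn 4 1 1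
  have a3 : n2 x 4 * x 3 (b * u) * (n2 x 4)⁻¹ = x 1 (b * u) := hC.kp.nn 4 3 _
  have t3 : h * x 3 1 * h⁻¹ = x 3 (b * u) := by rw [T 3 1, wt3]; simp
  have t4 : h * x 4 1 * h⁻¹ = x 4 u := by rw [T 4 1, wt4]; simp
  have t2 : h * x 2 ν * h⁻¹ = x 2 (b ^ 2 * u * ν) := by rw [T 2 ν, wt2]; simp
  have q1 : h * p 1 * h⁻¹ = p b := by rw [hp.tor h hh.1 _ _ T, wt1]; simp
  have hα : (α : F) = b * u := by
    have := T' 1 1
    rw [wt1, mul_one] at this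
    refine xinj P (i := 1) ?_
    rw [← this, ← a3, ← t3, ← a1]
    simp only [mul_inv_rev, ni, mul_assoc]
  have q3 : n2 x 4 * h * (n2 x 4)⁻¹ * p 1 * (n2 x 4 * h * (n2 x 4)⁻¹)⁻¹ = p (b * u) := by
    rw [hp.tor _ (hC.kb.nH 4 h hh).1 _ _ T', wt1, hα, mul_one]
  rw [← t4, ← t2, ← q1, ← q3]
  generalize n2 x 4 = n at *
  calc _ = h * (x 4 1 * p 1 * (x 4 1)⁻¹) * h⁻¹ := by group
    _ = (n * n) * h * (n * n)⁻¹ * (n * p 1 * n⁻¹) * (n * n) * h⁻¹ * (n * n)⁻¹ * (h * p 1 * h⁻¹) *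
        (h * x 2 ν * h⁻¹) := by rw [e, nn]; group
    _ = _ := by group

theorem quad [Finite F] (h2 : (2 : F) = 0) (n : F) :
    Quad (algebraMap F (QuadraticAlgebra F n 1)) (starRingAut : RingAut (QuadraticAlgebra F n 1)) where
  two := QuadraticAlgebra.ext h2 rfl
  sq a := star_star a
  fix a := by
    constructor
    · intro h
      have : a.re + 1 * a.im = a.re := congrArg QuadraticAlgebra.re h
      exact ⟨a.re, QuadraticAlgebra.ext rfl (by change a.im = 0; linear_combination this)⟩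
    · rintro ⟨b, rfl⟩
      change star _ = _
      ext <;> simp
  tr := ⟨⟨0, 1⟩, by
    change star _ = _
    ext
    · simp [QuadraticAlgebra.re_one]
    · simp only [QuadraticAlgebra.im_star, QuadraticAlgebra.im_add, QuadraticAlgebra.im_one]
      linear_combination -h2⟩
  card := by rw [Nat.card_congr (QuadraticAlgebra.equivProd n 1), Nat.card_prod, sq]

/-- **SU1** -/
theorem su1 : Su1Stmt.{u, v} := by
  intro F _ _ G _ _ L x t hC c' Xh Y p H H2 R hp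
  have P := hC.mod.pin
  have h2 := P.two
  have ng : ∀ a : F, -a = a := fun a => by linear_combination -a * h2
  obtain ⟨ν, hν⟩ := scaled hC H H2 R hp
  have pX : ∀ b, p b ∈ Xh 1 := fun b => (H.mem 1 sh1 _).2 (hp.mem b)
  have yX : ∀ a b, x 1 a * p b ∈ Xh 1 := fun a b => mul_mem (H.le 1 sh1 a) (pX b)
  have nn := hC.kb.nsq 4
  have tt := tsq hC
  have a1 : ∀ a, n2 x 4 * x 1 a * (n2 x 4)⁻¹ = x 3 a := hC.kp.nn 4 1
  have nt : Commute t (n2 x 4) := hC.kb.tL _ (hC.kb.nL 4)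
  have q3 : ∀ b, n2 x 4 * p b * (n2 x 4)⁻¹ ∈ Xh 3 := fun b => n13 hC H (pX b)
  have sp : ∀ a b, n2 x 4 * (x 1 a * p b) * (n2 x 4)⁻¹ = x 3 a * (n2 x 4 * p b * (n2 x 4)⁻¹) :=
    fun a b => by rw [← a1]; group
  have l3 : ∀ b, n2 x 4 * p b * (n2 x 4)⁻¹ * t * (n2 x 4 * p b * (n2 x 4)⁻¹)⁻¹ = t * x 3 b := fun b => by
    calc _ = n2 x 4 * (p b * ((n2 x 4)⁻¹ * t * n2 x 4) * (p b)⁻¹) * (n2 x 4)⁻¹ := by group
      _ = n2 x 4 * t * (n2 x 4)⁻¹ * (n2 x 4 * x 1 b * (n2 x 4)⁻¹) := by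
        rw [nt.symm.inv_mul_cancel, hp.mov]; group
      _ = _ := by rw [a1, nt.symm.mul_inv_cancel]
  have k1 : ∀ b s, p b * x 3 s * (p b)⁻¹ = x 2 (b * s) * x 3 s := fun b s => by
    have : ⁅p b, x 3 s⁆ = x 2 (1 * b * s) := (H.act 1 sh1 _ (pX b) b (hp.mov b) s).2
    rw [one_mul] at this
    rw [← this, commutatorElement_def]; group
  have k3 : ∀ b s, x 1 s * (n2 x 4 * p b * (n2 x 4)⁻¹) * (x 1 s)⁻¹ =
      x 2 (b * s) * (n2 x 4 * p b * (n2 x 4)⁻¹) := fun b s => by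
    have : ⁅n2 x 4 * p b * (n2 x 4)⁻¹, x 1 s⁆ = x 2 (1 * b * s) := (H.act 3 sh3 _ (q3 b) b (l3 b) s).1
    rw [one_mul] at this
    rw [← xinv P 2, ← this, commutatorElement_def]; group
  have k13 : ∀ b b', Commute (n2 x 4 * p b' * (n2 x 4)⁻¹) (p b) := fun b b' => by
    rcases eq_or_ne b 0 with rfl | hb
    · rw [p0 hp]; exact Commute.one_right _
    · have := hν b (b' / b)
      rw [mul_div_cancel₀ _ hb] at this
      exact com13 hC H (pX b) (q3 b') this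
  have cj : ∀ a b a' b', x 1 a * p b * (x 3 a' * (n2 x 4 * p b' * (n2 x 4)⁻¹)) * (x 1 a * p b)⁻¹ =
      x 2 (b * a' + b' * a) * (x 3 a' * (n2 x 4 * p b' * (n2 x 4)⁻¹)) := fun a b a' b' => by
    have c1 : Commute (x 1 a) (x 2 (b * a') * x 3 a') := (P.c1 1 _ _).mul_right (P.c2 1 _ _)
    have c2 : Commute (x 2 (b' * a)) (x 3 a') := P.c1 2 _ _
    have := k3 b' a
    have k := (k13 b b').symm.mul_inv_cancel
    generalize n2 x 4 * p b' * (n2 x 4)⁻¹ = q at *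
    calc _ = x 1 a * (p b * x 3 a' * (p b)⁻¹) * (x 1 a)⁻¹ * (x 1 a * (p b * q * (p b)⁻¹) * (x 1 a)⁻¹) := by
          group
      _ = x 2 (b * a') * (x 3 a' * x 2 (b' * a)) * q := by rw [k1, k, this, c1.mul_inv_cancel]; group
      _ = _ := by rw [← c2.eq, P.add]; group
  refine ⟨QuadraticAlgebra F ν 1, inferInstance, algebraMap F _, starRingAut,
    fun a => x 1 a.re * p a.im, quad h2 ν, fun a b => ?_, fun a h => ?_, fun a => ?_, fun a => ?_,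
    fun a => ?_, fun a b n hn => ?_, fun a n hn u => ?_, fun h hh α β T a => ?_, fun g => ?_,
    fun k hk h1 h3 g hg => ?_⟩
  · rw [QuadraticAlgebra.re_add, QuadraticAlgebra.im_add, P.add, hp.add, mul_assoc, mul_assoc,
      ← mul_assoc (x 1 b.re), ← (c12 H (pX a.im) b.re).2.1.eq, mul_assoc]
  · have e : p a.im = x 1 a.re := by rw [← xinv P]; exact (eq_inv_of_mul_eq_one_right h)
    have := hp.mov a.im
    rw [e, (tx hC 1 _).symm.mul_inv_cancel] at this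
    have hb : a.im = 0 := P.inj 1 _ (mul_eq_left.1 this.symm)
    rw [hb, p0 hp] at e
    exact QuadraticAlgebra.ext (P.inj 1 _ e.symm) hb
  · change x 1 a * p 0 = _
    rw [p0 hp, mul_one]
  · change _ = x 1 (a.re + 1 * a.im) * p (-a.im)
    rw [ng, one_mul, P.add]
    calc _ = t * x 1 a.re * t⁻¹ * ((t * t) * t⁻¹ * (p a.im * t * (p a.im)⁻¹) * p a.im * (t * t)⁻¹) := by
          group
      _ = _ := by rw [tt, hp.mov, (tx hC 1 _).mul_inv_cancel]; group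
  · change _ = x 1 (a.re + 1 * a.im) * p (-a.im)
    have r1 : n2 x 3 * p a.im * (n2 x 3)⁻¹ = p a.im * x 1 (1 * a.im) :=
      H.ref 1 sh1 _ (pX _) _ (hp.mov _)
    have r2 : n2 x 3 * x 1 a.re * (n2 x 3)⁻¹ = x 1 a.re := hC.kp.nn 3 1 _
    rw [ng, P.add, mul_assoc (x 1 a.re), ← (c12 H (pX a.im) (1 * a.im)).2.1.eq, ← r1]
    conv_rhs => rw [← r2]
    group
  · change ⁅x 1 a.re * p a.im, n2 x 4 * (x 1 (b.re + 1 * b.im) * p (-b.im)) * (n2 x 4)⁻¹⁆ = _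
    have e : n = (a * b).re + ((a * b).re + 1 * (a * b).im) := congrArg QuadraticAlgebra.re hn
    rw [QuadraticAlgebra.im_mul] at e
    rw [sp, commutatorElement_def, cj, mul_inv_cancel_right]
    congr 1
    linear_combination -e - ((a * b).re + a.re * b.im) * h2
  · change ⁅x 1 a.re * p a.im, x 4 u⁆ = x 2 (n * u) * (n2 x 4 *
      (x 1 (a * algebraMap F _ u).re * p (a * algebraMap F _ u).im) * (n2 x 4)⁻¹)
    have e : n = a.re * (a.re + 1 * a.im) + ν * a.im * (-a.im) := congrArg QuadraticAlgebra.re hn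
    have e1 : (a * algebraMap F _ u).re = a.re * u := by simp
    have e2 : (a * algebraMap F _ u).im = a.im * u := by simp
    have r : x 4 u * x 1 a.re * (x 4 u)⁻¹ = x 1 a.re * (x 2 (a.re ^ 2 * u) * x 3 (a.re * u)) := by
      have : ⁅x 1 a.re, x 4 u⁆ = x 2 (a.re ^ 2 * u) * x 3 (a.re * u) := P.rs 1 sh1 _ _
      rw [← this, commutatorElement_def, xinv P 1, ← mul_assoc, ← mul_assoc, ← mul_assoc, xsq P,
        one_mul]
    have yy := hsq hC H sh1 (yX a.re a.im)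
    have cc := cj a.re a.im (a.re * u) (a.im * u)
    have z1 := fun c => (c12 H (yX a.re a.im) c).2.2
    have z3 := fun c => (c32 H (mul_mem (H.le 3 sh3 (a.re * u)) (q3 (a.im * u))) c).1
    have k := k3 (a.im * u) a.re
    have c13 : Commute (x 1 a.re) (x 3 (a.re * u)) := P.c2 1 _ _
    have c12' : Commute (x 1 a.re) (x 2 (a.re ^ 2 * u)) := P.c1 1 _ _
    have c23 : Commute (x 2 (a.im * u * a.re)) (x 3 (a.re * u)) := P.c1 2 _ _
    rw [e1, e2, sp]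
    have hν' := hν a.im u
    generalize n2 x 4 * p (a.im * u) * (n2 x 4)⁻¹ = q at *
    set y := x 1 a.re * p a.im with hy
    set w := x 3 (a.re * u) * q with hw
    have f : x 4 u * y * (x 4 u)⁻¹ =
        x 2 (a.re ^ 2 * u + a.im * u * a.re) * w * y * x 2 (a.im ^ 2 * u * ν) := by
      calc _ = x 4 u * x 1 a.re * (x 4 u)⁻¹ * (x 4 u * p a.im * (x 4 u)⁻¹) := by rw [hy]; group
        _ = (x 1 a.re * (x 2 (a.re ^ 2 * u) * x 3 (a.re * u)) * (x 1 a.re)⁻¹) *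
            (x 1 a.re * q * (x 1 a.re)⁻¹) * y * x 2 (a.im ^ 2 * u * ν) := by rw [r, hν', hy]; group
        _ = x 2 (a.re ^ 2 * u) * (x 3 (a.re * u) * x 2 (a.im * u * a.re)) * q * y *
            x 2 (a.im ^ 2 * u * ν) := by rw [(c12'.mul_right c13).mul_inv_cancel, k]; group
        _ = _ := by rw [← c23.eq, P.add, hw]; group
    calc ⁅y, x 4 u⁆ = y * (x 4 u * y * (x 4 u)⁻¹) := by
          rw [commutatorElement_def, inv_eq_of_mul_eq_one_right yy]; group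
      _ = (y * x 2 (a.re ^ 2 * u + a.im * u * a.re) * y⁻¹) * (y * w * y⁻¹) * (y * y) *
          x 2 (a.im ^ 2 * u * ν) := by rw [f]; group
      _ = x 2 (a.re ^ 2 * u + a.im * u * a.re) * x 2 (a.im * (a.re * u) + a.im * u * a.re) *
          (w * x 2 (a.im ^ 2 * u * ν)) := by rw [(z1 _).mul_inv_cancel, cc, yy]; group
      _ = _ := by
          rw [(z3 _).eq, ← mul_assoc, ← P.add, ← P.add]
          congr 2
          linear_combination -u * e + (a.im * u * a.re + a.im ^ 2 * u * ν) * h2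
  · have e1 : (algebraMap F _ (α : F) * a).re = α * a.re := by simp
    have e2 : (algebraMap F _ (α : F) * a).im = α * a.im := by simp
    have := hp.tor h hh α β T a.im
    rw [wt1] at this
    rw [e1, e2, ← this, ← wt1 α β, ← T 1]
    group
  · rw [← H.mem 1 sh1]
    refine ⟨fun hg => ?_, by rintro ⟨a, rfl⟩; exact yX _ _⟩
    obtain ⟨b, hb⟩ := lam H sh1 hg
    obtain ⟨a, ha⟩ := H.fix 1 sh1 _ (mul_mem (inv_mem (pX b)) hg) (by
      change _ = _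
      calc _ = (p b)⁻¹ * (g * t * g⁻¹) * g := by group
        _ = _ := by rw [hb, ← hp.mov]; group)
    refine ⟨⟨a, b⟩, ?_⟩
    change g = x 1 a * p b
    rw [← (c12 H (pX b) a).2.1.eq, ← ha]; group
  · obtain ⟨a, rfl⟩ := hg
    exact H.odd 1 sh1 k hk h1 h3 _ (yX _ _)

end Cfsg.Agent.H54.S4Su
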