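import Mathlib
import Cfsg.Agent.H73.BdDefs
import Cfsg.Agent.H54.K0Tri
import Cfsg.Agent.H47.K0R
import Cfsg.Agent.H49.K0Gal
import Cfsg.Agent.H26.K0Ineq

/-! The lattice inequality for the whole principal block. -/

set_option autoImplicit false

namespace Cfsg.Agent.H54.BdCh

open Cfsg Cfsg.Agent.H76.K0 Cfsg.Agent.H73.Bd
open scoped ComplexConjugate

universe u

theorem gen (ineq : IneqStmt.{u}) (G : Type u) [Group G] [Finite G] {ι : Type*} [Fintype ι]
    (χ : ι → IrrCharacter G) (hinj : Function.Injective χ) (i0 : ι)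
    (h0 : (χ i0 : G → ℂ) = fun _ => 1) (v : ι → ℤ) (n : ℕ) (hn : 0 < n)
    (hint : ∀ g, IsIntegral ℤ ((∑ i, (v i : ℂ) * (χ i : G → ℂ) g) / n)) :
    (n : ℤ) * v i0 ≤ ∑ i, v i ^ 2 ∧ ((n : ℤ) * v i0 = ∑ i, v i ^ 2 →
      ∑ i, v i * charDegree (χ i : G → ℂ) = 0 ∨ ∑ i, v i * charDegree (χ i : G → ℂ) = n) := by
  classical
  have := Fintype.ofFinite G
  let θ : G → ℂ := ∑ i, (v i : ℂ) • (χ i : G → ℂ)
  have hθ : IsGeneralizedCharacter G θ :=
    Finset.sum_induction _ (IsGeneralizedCharacter G) (fun _ _ => H11.isGen_add) H11.isGen_zero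
      (fun i _ => H11.isGen_intCast_smul (H11.isGen_of_irr (χ i).2) (v i))
  have happ : ∀ g, θ g = ∑ i, (v i : ℂ) * (χ i : G → ℂ) g := fun g => by
    simp [θ, Finset.sum_apply]
  have horth : ∀ i j, classInner (χ i : G → ℂ) (χ j) = if i = j then 1 else 0 := fun i j => by
    rw [H13.classInner_irr' (χ i) (χ j)]
    simp [hinj.eq_iff]
  have hj : ∀ j, classInner θ (χ j) = v j := fun j => by
    simp only [θ, H13.inner_sum_left, H13.inner_smul_left, horth]
    simp
  refine K0Tri.core ineq G θ hθ n hn (fun g => by rw [happ]; exact hint g) (v i0) _ _ ?_ ?_ ?_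
  · rw [← h0]; exact hj i0
  · conv_lhs => arg 2; simp only [θ]
    rw [H13.inner_sum_right]
    push_cast
    refine Finset.sum_congr rfl fun j _ => ?_
    rw [H13.inner_smul_right, hj, map_intCast]
    ring
  · rw [happ]
    push_cast
    exact Finset.sum_congr rfl fun i _ => by rw [H21.cast_deg]

/-- lattice form: `χ` enumerates the principal block -/
theorem lattice (r : RStmt.{u}) (ineq : IneqStmt.{u}) (G : Type u) [Group G] [Finite G] (p : ℕ)
    [Fact p.Prime] (M : Ideal AlgInt) (hM : IsPModular p M) (P : Sylow p G) {ι : Type*} [Fintype ι]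
    (χ : ι → IrrCharacter G) (hinj : Function.Injective χ)
    (hr : Set.range χ = principalBlock M G) (i0 : ι)
    (h0 : (χ i0 : G → ℂ) = fun _ => 1) (u : ℤ) (v : ι → ℤ)
    (hv : ∀ i, ((Nat.card P : ℕ) : ℤ) ∣ v i - u * (charDegree (χ i : G → ℂ) : ℤ)) :
    ((Nat.card P : ℕ) : ℤ) * v i0 ≤ ∑ i, v i ^ 2 ∧ (((Nat.card P : ℕ) : ℤ) * v i0 = ∑ i, v i ^ 2 →
      ∑ i, v i * charDegree (χ i : G → ℂ) = 0 ∨
        ∑ i, v i * charDegree (χ i : G → ℂ) = (Nat.card P : ℕ)) := by
  refine gen ineq G χ hinj i0 h0 v (Nat.card P) Nat.card_pos fun g => ?_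
  obtain ⟨α, hα, hsum⟩ := r G p M hM P g
  rw [← hr, finsum_mem_range hinj, finsum_eq_sum_of_fintype] at hsum
  choose w hw using hv
  have hq : ((Nat.card P : ℕ) : ℂ) ≠ 0 := by exact_mod_cast Nat.card_pos.ne'
  have hvi : ∀ i, (v i : ℂ) = u * (charDegree (χ i : G → ℂ) : ℂ) + (Nat.card P : ℕ) * w i :=
    fun i => by
      have h : (((v i - u * (charDegree (χ i : G → ℂ) : ℤ) : ℤ)) : ℂ) =
          ((((Nat.card P : ℕ) : ℤ) * w i : ℤ) : ℂ) := by rw [hw i]
      push_cast at h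
      linear_combination h
  have heq : (∑ i, (v i : ℂ) * (χ i : G → ℂ) g) / (Nat.card P : ℕ) =
      u * α + ∑ i, (w i : ℂ) * (χ i : G → ℂ) g := by
    rw [div_eq_iff hq]
    have : ∑ i, (v i : ℂ) * (χ i : G → ℂ) g =
        u * (∑ i, (charDegree (χ i : G → ℂ) : ℂ) * (χ i : G → ℂ) g) +
          (Nat.card P : ℕ) * ∑ i, (w i : ℂ) * (χ i : G → ℂ) g := by
      rw [Finset.mul_sum, Finset.mul_sum, ← Finset.sum_add_distrib]
      exact Finset.sum_congr rfl fun i _ => by rw [hvi]; ring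
    rw [this, hsum]
    ring
  rw [heq]
  refine ((isIntegral_algebraMap (x := u)).mul hα).add (IsIntegral.sum _ fun i _ => ?_)
  exact (isIntegral_algebraMap (x := w i)).mul
    (H12.IsCharacter_isIntegral (H11.irr_isCharacter (χ i)) g)

theorem ch (r : RStmt.{u}) (ineq : IneqStmt.{u}) : ChStmt.{u} := by
  intro G _ _ p _ M hM P
  have : Finite (IrrCharacter G) := H13.finite_irrCharacter
  refine ⟨inferInstance, ⟨H21.triv G, H21.triv_mem_principal hM.2.1⟩, H21.charDegree_one, ?_⟩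
  intro _ u n hn
  exact (lattice r ineq G p M hM P (fun i : principalBlock M G => i.1) Subtype.val_injective
    Subtype.range_coe ⟨H21.triv G, H21.triv_mem_principal hM.2.1⟩ rfl u n hn).1

theorem ineq0 : IneqStmt.{u} := H26.K0Ineq.ineq H49.K0Gal.gal

theorem ch0 : ChStmt.{u} := ch H47.K0R.r ineq0

end Cfsg.Agent.H54.BdCh
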