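import Cfsg.Agent.H98.GbH

/-! Project GB, piece DER1. -/

set_option autoImplicit false
open Cfsg Finset Cfsg.Agent.H98.GB
open scoped ComplexConjugate MatrixGroups

namespace Cfsg.Agent.H54.GbDer1

universe u

section cnt

open Classical in
theorem cP {H : Type*} [Group H] [Fintype H] (Q : Subgroup H) (t : ℂ) :
    ∑ z : H, (if z ∈ Q then t else 0) = (Nat.card Q : ℂ) * t := by
  rw [← Finset.sum_filter, Finset.sum_const, nsmul_eq_mul, Nat.card_eq_fintype_card,
    Fintype.card_subtype]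

open Classical in
theorem count {G K : Type*} [Group G] [Group K] [Fintype G] [Fintype K] (ι : K →* G)
    (P : Subgroup G) (S : G → Prop) (hS : ∀ x, S x ↔ ∃ y, (ι y)⁻¹ * x ∈ P) (T : G → ℂ)
    (hT : ∀ x, ∀ q ∈ P, T (x * q) = T x) :
    (Nat.card P : ℂ) * ∑ y, T (ι y) =
      (Nat.card (P.comap ι) : ℂ) * ∑ x, if S x then T x else 0 := by
  have h1 : ∀ y, ∑ x, (if (ι y)⁻¹ * x ∈ P then T x else 0) = (Nat.card P : ℂ) * T (ι y) := by
    intro y
    rw [← cP P, ← Equiv.sum_comp (Equiv.mulLeft (ι y))]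
    refine Finset.sum_congr rfl fun q _ => ?_
    simp only [Equiv.coe_mulLeft, inv_mul_cancel_left]
    split_ifs with h
    · exact hT _ _ h
    · rfl
  have h2 : ∀ x, ∑ y, (if (ι y)⁻¹ * x ∈ P then T x else 0) =
      (Nat.card (P.comap ι) : ℂ) * if S x then T x else 0 := by
    intro x
    by_cases hx : S x
    · obtain ⟨y0, hy0⟩ := (hS x).1 hx
      rw [if_pos hx, ← cP (P.comap ι), ← Equiv.sum_comp (Equiv.mulLeft y0)]
      refine Finset.sum_congr rfl fun z _ => ?_
      simp only [Equiv.coe_mulLeft, map_mul, mul_inv_rev, Subgroup.mem_comap, mul_assoc]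
      rw [if_congr ((P.mul_mem_cancel_right hy0).trans P.inv_mem_iff) rfl rfl]
    · rw [if_neg hx, mul_zero]
      exact Finset.sum_eq_zero fun y _ => if_neg fun h => hx ((hS x).2 ⟨y, h⟩)
  rw [Finset.mul_sum, Finset.mul_sum, ← Finset.sum_congr rfl fun y _ => h1 y, Finset.sum_comm]
  exact Finset.sum_congr rfl fun x _ => h2 x

end cnt

variable {F : Type u} [Field F]

theorem val_l {a b n : ℕ} (h : a + b = n) (i : Fin a) : (eqv h (Sum.inl i)).val = i.val := by
  simp [eqv]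

theorem val_r {a b n : ℕ} (h : a + b = n) (i : Fin b) : (eqv h (Sum.inr i)).val = a + i.val := by
  simp [eqv]

theorem tri_ap {a b n : ℕ} (h : a + b = n) (u : GL (Fin a) F) (c : Matrix (Fin a) (Fin b) F)
    (v : GL (Fin b) F) (i j : Fin a ⊕ Fin b) :
    (tri h u c v).1 (eqv h i) (eqv h j) = Matrix.fromBlocks u.1 c 0 v.1 i j := by
  simp [coe_tri]

theorem tri_inv {a b n : ℕ} (h : a + b = n) (u : GL (Fin a) F) (c : Matrix (Fin a) (Fin b) F)
    (v : GL (Fin b) F) : (tri h u c v)⁻¹ = tri h u⁻¹ (-((u⁻¹).1 * c * (v⁻¹).1)) v⁻¹ := by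
  rw [inv_eq_iff_mul_eq_one, tri_mul, mul_inv_cancel, mul_inv_cancel, ← tri_one h]
  congr 1
  rw [Matrix.mul_neg, ← Matrix.mul_assoc, ← Matrix.mul_assoc, ← Units.val_mul, mul_inv_cancel,
    Units.val_one, Matrix.one_mul, neg_add_cancel]

/-- the parabolic subgroup -/
def Par (F : Type u) [Field F] {a b n : ℕ} (h : a + b = n) : Subgroup (GL (Fin n) F) where
  carrier := {g | ∃ u c v, g = tri h u c v}
  one_mem' := ⟨1, 0, 1, (tri_one h).symm⟩
  mul_mem' := by
    rintro _ _ ⟨u, c, v, rfl⟩ ⟨u', c', v', rfl⟩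
    exact ⟨_, _, _, tri_mul h u u' c c' v v'⟩
  inv_mem' := by
    rintro _ ⟨u, c, v, rfl⟩
    exact ⟨_, _, _, tri_inv h u c v⟩

theorem mem_Par {a b n : ℕ} (h : a + b = n) (g : GL (Fin n) F) :
    g ∈ Par F h ↔ ∀ i j, g.1 (eqv h (Sum.inr i)) (eqv h (Sum.inl j)) = 0 := by
  constructor
  · rintro ⟨u, c, v, rfl⟩ i j
    rw [tri_ap]; rfl
  · intro hg
    set M : Matrix (Fin a ⊕ Fin b) (Fin a ⊕ Fin b) F := g.1.submatrix (eqv h) (eqv h) with hM
    have e : M = Matrix.fromBlocks M.toBlocks₁₁ M.toBlocks₁₂ 0 M.toBlocks₂₂ := by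
      conv_lhs => rw [← Matrix.fromBlocks_toBlocks M]
      congr 1
      ext i j
      exact hg i j
    have hd : M.det ≠ 0 := by
      rw [hM, Matrix.det_submatrix_equiv_self]; exact g.det_ne_zero
    rw [e, Matrix.det_fromBlocks_zero₂₁] at hd
    refine ⟨Matrix.GeneralLinearGroup.mkOfDetNeZero _ (left_ne_zero_of_mul hd), M.toBlocks₁₂,
      Matrix.GeneralLinearGroup.mkOfDetNeZero _ (right_ne_zero_of_mul hd), Units.ext ?_⟩
    ext i j
    obtain ⟨i, rfl⟩ := (eqv h).surjective i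
    obtain ⟨j, rfl⟩ := (eqv h).surjective j
    rw [tri_ap]
    exact congrFun (congrFun e i) j

omit [Field F] in
theorem card_mat [Fintype F] [DecidableEq F] (a b : ℕ) :
    Fintype.card (Matrix (Fin a) (Fin b) F) = Fintype.card F ^ (a * b) := by
  have : Fintype.card (Matrix (Fin a) (Fin b) F) = Fintype.card (Fin a → Fin b → F) :=
    Fintype.card_congr (Equiv.refl _)
  rw [this, Fintype.card_fun, Fintype.card_fun, Fintype.card_fin, Fintype.card_fin, ← pow_mul,
    mul_comm]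

theorem card_Par [Fintype F] [DecidableEq F] {a b n : ℕ} (h : a + b = n) :
    Nat.card (Par F h) =
      Fintype.card (GL (Fin a) F) * Fintype.card (GL (Fin b) F) * Fintype.card F ^ (a * b) := by
  let φ : GL (Fin a) F × GL (Fin b) F × Matrix (Fin a) (Fin b) F → Par F h :=
    fun p => ⟨tri h p.1 p.2.2 p.2.1, _, _, _, rfl⟩
  have hφ : Function.Bijective φ := by
    refine ⟨fun p p' e => ?_, ?_⟩
    · obtain ⟨e1, e2, e3⟩ := tri_inj (congrArg Subtype.val e)
      exact Prod.ext e1 (Prod.ext e3 e2)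
    · rintro ⟨_, u, c, v, rfl⟩
      exact ⟨(u, v, c), rfl⟩
  rw [← Nat.card_eq_of_bijective φ hφ, Nat.card_eq_fintype_card, Fintype.card_prod,
    Fintype.card_prod, mul_assoc]
  congr 2
  exact card_mat a b

/-- `stdS` as a coordinate space -/
noncomputable def stdE {n a : ℕ} (h : a ≤ n) : stdS F n a ≃ₗ[F] (Fin a → F) where
  toFun w i := w.1 (Fin.castLE h i)
  map_add' _ _ := rfl
  map_smul' _ _ := rfl
  invFun z := ⟨fun i => if hi : i.val < a then z ⟨i, hi⟩ else 0, fun i hi => dif_neg (by omega)⟩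
  left_inv w := by
    ext i
    by_cases hi : i.val < a
    · simp [hi]
    · simp only [hi, dif_neg, not_false_eq_true]; exact (w.2 i (by omega)).symm
  right_inv z := by
    ext i; simp

theorem finrank_stdS {n a : ℕ} (h : a ≤ n) : Module.finrank F (stdS F n a) = a := by
  rw [(stdE h).finrank_eq]; simp

theorem le_imS {n m a : ℕ} (x : GL (Fin n) F) : stdS F n m ≤ imS a x ↔
    ∀ i j : Fin n, a ≤ i.val → j.val < m → (x⁻¹).1 i j = 0 := by
  constructor
  · intro h i j hi hj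
    have hs : (Pi.single j 1 : Fin n → F) ∈ stdS F n m := fun l hl => by
      rw [Pi.single_eq_of_ne]; rintro rfl; omega
    obtain ⟨w, hw, e⟩ := h hs
    rw [H22.Cusp.natRep_apply] at e
    have : (x⁻¹).1.mulVec (Pi.single j 1) = w := by
      rw [← e, Matrix.mulVec_mulVec, ← Units.val_mul, inv_mul_cancel, Units.val_one,
        Matrix.one_mulVec]
    have h2 := hw i hi
    rw [← this, Matrix.mulVec_single_one] at h2
    exact h2
  · intro h w hw
    refine ⟨(x⁻¹).1.mulVec w, fun i hi => ?_, ?_⟩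
    · show ∑ j, (x⁻¹).1 i j * w j = 0
      refine Finset.sum_eq_zero fun j _ => ?_
      by_cases hj : j.val < m
      · rw [h i j hi hj, zero_mul]
      · rw [hw j (by omega), mul_zero]
    · rw [H22.Cusp.natRep_apply, Matrix.mulVec_mulVec, ← Units.val_mul, mul_inv_cancel,
        Units.val_one, Matrix.one_mulVec]

/-- the embedding of the second diagonal block -/
noncomputable def io {m k n : ℕ} (h : m + k = n) : GL (Fin k) F →* GL (Fin n) F where
  toFun y := tri h 1 0 y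
  map_one' := tri_one h
  map_mul' y z := by rw [tri_mul]; simp

section idx
variable {a b m k n a' : ℕ} (h1 : a + b = n) (h2 : m + k = n) (h3 : m + a' = a) (h4 : a' + b = k)

theorem i1 (i : Fin m) : eqv h1 (Sum.inl (eqv h3 (Sum.inl i))) = eqv h2 (Sum.inl i) :=
  Fin.ext (by simp only [val_l])

theorem i2 (i : Fin a') :
    eqv h1 (Sum.inl (eqv h3 (Sum.inr i))) = eqv h2 (Sum.inr (eqv h4 (Sum.inl i))) :=
  Fin.ext (by simp only [val_l, val_r])

include h3 in
theorem i3 (i : Fin b) : eqv h1 (Sum.inr i) = eqv h2 (Sum.inr (eqv h4 (Sum.inr i))) :=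
  Fin.ext (by simp only [val_r]; omega)

include h3 in
theorem tri_mem (u : GL (Fin m) F) (c : Matrix (Fin m) (Fin k) F) (w : GL (Fin k) F) :
    tri h2 u c w ∈ Par F h1 ↔ w ∈ Par F h4 := by
  rw [mem_Par, mem_Par]
  constructor
  · intro h i j
    have := h i (eqv h3 (Sum.inr j))
    rwa [i2 h1 h2 h3 h4, i3 h1 h2 h3 h4, tri_ap] at this
  · intro h i j
    obtain ⟨j | j, rfl⟩ := (eqv h3).surjective j
    · rw [i1 h1 h2 h3, i3 h1 h2 h3 h4, tri_ap]; rfl
    · rw [i2 h1 h2 h3 h4, i3 h1 h2 h3 h4, tri_ap]; exact h i j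

theorem three (u : GL (Fin m) F) (c : Matrix (Fin m) (Fin k) F) (u2 : GL (Fin a') F)
    (c23 : Matrix (Fin a') (Fin b) F) (v2 : GL (Fin b) F) :
    ∃ C, tri h2 u c (tri h4 u2 c23 v2) =
      tri h1 (tri h3 u (c.submatrix id fun j => eqv h4 (Sum.inl j)) u2) C v2 := by
  refine ⟨Matrix.of fun i j =>
    (tri h2 u c (tri h4 u2 c23 v2)).1 (eqv h1 (Sum.inl i)) (eqv h1 (Sum.inr j)), Units.ext ?_⟩
  ext i j
  obtain ⟨i, rfl⟩ := (eqv h1).surjective i
  obtain ⟨j, rfl⟩ := (eqv h1).surjective j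
  rw [tri_ap h1]
  rcases i with i | i <;> rcases j with j | j
  · obtain ⟨i, rfl⟩ := (eqv h3).surjective i
    obtain ⟨j, rfl⟩ := (eqv h3).surjective j
    rw [Matrix.fromBlocks_apply₁₁, tri_ap h3]
    rcases i with i | i <;> rcases j with j | j
    · rw [i1 h1 h2 h3, i1 h1 h2 h3, tri_ap]; rfl
    · rw [i1 h1 h2 h3, i2 h1 h2 h3 h4, tri_ap]; rfl
    · rw [i1 h1 h2 h3, i2 h1 h2 h3 h4, tri_ap]; rfl
    · rw [i2 h1 h2 h3 h4, i2 h1 h2 h3 h4, tri_ap, Matrix.fromBlocks_apply₂₂, tri_ap]; rfl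
  · rfl
  · exact (mem_Par h1 _).1 ((tri_mem h1 h2 h3 h4 u c _).2 ⟨_, _, _, rfl⟩) i j
  · rw [i3 h1 h2 h3 h4, i3 h1 h2 h3 h4, tri_ap, Matrix.fromBlocks_apply₂₂, tri_ap]; rfl

include h3 h4 in
theorem S_iff (x : GL (Fin n) F) :
    stdS F n m ≤ imS a x ↔ ∃ y, (io h2 y)⁻¹ * x ∈ Par F h1 := by
  rw [le_imS]
  constructor
  · intro hx
    let R : Matrix (Fin b) (Fin k) F :=
      Matrix.of fun i j => (x⁻¹).1 (eqv h1 (Sum.inr i)) (eqv h2 (Sum.inr j))
    have hk : Module.finrank F (stdS F k a') ≤ Module.finrank F (LinearMap.ker R.mulVecLin) := by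
      have e1 := R.mulVecLin.finrank_range_add_finrank_ker
      have e2 : Module.finrank F (LinearMap.range R.mulVecLin) ≤ b := by
        simpa using Submodule.finrank_le (LinearMap.range R.mulVecLin)
      rw [finrank_stdS (by omega)]
      simp only [Module.finrank_fintype_fun_eq_card, Fintype.card_fin] at e1
      omega
    obtain ⟨f, hf⟩ := finrank_le_iff_exists_linearMap.1 hk
    obtain ⟨g, hg⟩ := Submodule.exists_linearEquiv_restrict_eq
      (LinearEquiv.ofInjective ((LinearMap.ker R.mulVecLin).subtype ∘ₗ f)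
        ((Submodule.injective_subtype _).comp hf))
    let y : GL (Fin k) F := Matrix.GeneralLinearGroup.mkOfDetNeZero
      (LinearMap.toMatrix' (g : (Fin k → F) →ₗ[F] (Fin k → F))) (by
        rw [LinearMap.det_toMatrix']; exact g.isUnit_det'.ne_zero)
    have hy : ∀ w ∈ stdS F k a', R.mulVec (y.1.mulVec w) = 0 := by
      intro w hw
      have e : y.1.mulVec w = g w := by
        show (LinearMap.toMatrix' (g : (Fin k → F) →ₗ[F] (Fin k → F))).mulVec w = _
        rw [LinearMap.toMatrix'_mulVec]; rfl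
      rw [e, ← hg ⟨w, hw⟩]
      exact (f ⟨w, hw⟩).2
    refine ⟨y, ?_⟩
    rw [← Subgroup.inv_mem_iff, mul_inv_rev, inv_inv, mem_Par]
    intro i j
    have hz : ∀ l : Fin m, (x⁻¹).1 (eqv h1 (Sum.inr i)) (eqv h2 (Sum.inl l)) = 0 := fun l =>
      hx _ _ (by rw [val_r]; omega) (by rw [val_l]; exact l.2)
    rw [Units.val_mul, Matrix.mul_apply, ← Equiv.sum_comp (eqv h2), Fintype.sum_sum_type]
    simp only [hz, zero_mul, Finset.sum_const_zero, zero_add]
    obtain ⟨j | j, rfl⟩ := (eqv h3).surjective j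
    · rw [i1 h1 h2 h3]
      refine Finset.sum_eq_zero fun l _ => ?_
      have : (io h2 y).1 (eqv h2 (Sum.inr l)) (eqv h2 (Sum.inl j)) = 0 := tri_ap h2 _ _ _ _ _
      rw [this, mul_zero]
    · rw [i2 h1 h2 h3 h4]
      have hs : (Pi.single (eqv h4 (Sum.inl j)) 1 : Fin k → F) ∈ stdS F k a' := fun l hl => by
        rw [Pi.single_eq_of_ne]; rintro rfl; rw [val_l] at hl; omega
      have h0 := congrFun (hy _ hs) i
      rw [Matrix.mulVec_single_one] at h0
      rw [← show _ = (0 : F) from h0]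
      refine Finset.sum_congr rfl fun l _ => ?_
      have : (io h2 y).1 (eqv h2 (Sum.inr l)) (eqv h2 (Sum.inr (eqv h4 (Sum.inl j)))) =
        y.1 l (eqv h4 (Sum.inl j)) := tri_ap h2 _ _ _ _ _
      rw [this]; rfl
  · rintro ⟨y, hy⟩ i j hi hj
    have hq := (mem_Par h1 _).1 ((Par F h1).inv_mem hy)
    have e : x⁻¹ = ((io h2 y)⁻¹ * x)⁻¹ * io h2 y⁻¹ := by rw [map_inv]; group
    obtain ⟨i | i, rfl⟩ := (eqv h1).surjective i
    · rw [val_l] at hi; omega
    obtain ⟨j | j, rfl⟩ := (eqv h2).surjective j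
    swap
    · rw [val_r] at hj; omega
    rw [e, Units.val_mul, Matrix.mul_apply, ← Equiv.sum_comp (eqv h2), Fintype.sum_sum_type]
    rw [Finset.sum_eq_zero, Finset.sum_eq_zero, add_zero]
    · intro l _
      have : (io h2 y⁻¹).1 (eqv h2 (Sum.inr l)) (eqv h2 (Sum.inl j)) = 0 := tri_ap h2 _ _ _ _ _
      rw [this, mul_zero]
    · intro l _
      rw [← i1 h1 h2 h3 l, hq, zero_mul]

end idx

variable [Fintype F] [DecidableEq F]

open Classical in
/-- inflation to the parabolic subgroup, extended by zero -/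
noncomputable def inf {a b n : ℕ} (h : a + b = n) (f : GL (Fin a) F → ℂ) (f' : GL (Fin b) F → ℂ) :
    GL (Fin n) F → ℂ := fun g =>
  ∑ u : GL (Fin a) F, ∑ c : Matrix (Fin a) (Fin b) F, ∑ v : GL (Fin b) F,
    if g = tri h u c v then f u * f' v else 0

theorem inf_off {a b n : ℕ} (h : a + b = n) (f : GL (Fin a) F → ℂ) (f' : GL (Fin b) F → ℂ)
    {g : GL (Fin n) F} (hg : g ∉ Par F h) : inf h f f' g = 0 :=
  Finset.sum_eq_zero fun u _ => Finset.sum_eq_zero fun c _ => Finset.sum_eq_zero fun v _ =>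
    if_neg fun e => hg ⟨u, c, v, e⟩

theorem inf_tri {a b n : ℕ} (h : a + b = n) (f : GL (Fin a) F → ℂ) (f' : GL (Fin b) F → ℂ)
    (u : GL (Fin a) F) (c : Matrix (Fin a) (Fin b) F) (v : GL (Fin b) F) :
    inf h f f' (tri h u c v) = f u * f' v := by
  unfold inf
  rw [Finset.sum_eq_single u, Finset.sum_eq_single c, Finset.sum_eq_single v, if_pos rfl]
  · exact fun v' _ hv => if_neg fun e => hv (tri_inj e).2.2.symm
  · simp
  · exact fun c' _ hc => Finset.sum_eq_zero fun v' _ => if_neg fun e => hc (tri_inj e).2.1.symm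
  · simp
  · exact fun u' _ hu => Finset.sum_eq_zero fun c' _ => Finset.sum_eq_zero fun v' _ =>
      if_neg fun e => hu (tri_inj e).1.symm
  · simp

open Classical in
theorem cmpS_eq {a b n : ℕ} (S : GL (Fin n) F → Prop) (η : Fˣ →* ℂˣ) (h : a + b = n)
    (f : GL (Fin a) F → ℂ) (f' : GL (Fin b) F → ℂ) (g : GL (Fin n) F) :
    cmpS S η h f f' g = (Nat.card (Par F h) : ℂ)⁻¹ *
      ∑ x, if S x then (dl η n x : ℂ) * inf h f f' (x⁻¹ * g * x) else 0 := by
  unfold cmpS
  rw [card_Par]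
  congr 1
  refine Finset.sum_congr rfl fun x _ => ?_
  by_cases hx : S x
  · rw [if_pos hx]
    unfold inf
    simp only [Finset.mul_sum]
    refine Finset.sum_congr rfl fun u _ => Finset.sum_congr rfl fun c _ =>
      Finset.sum_congr rfl fun v _ => ?_
    have : (S x ∧ g = x * tri h u c v * x⁻¹) ↔ x⁻¹ * g * x = tri h u c v := by
      constructor
      · rintro ⟨-, rfl⟩; group
      · intro e; exact ⟨hx, by rw [← e]; group⟩
    by_cases e : x⁻¹ * g * x = tri h u c v
    · rw [if_pos (this.2 e), if_pos e, mul_assoc]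
    · rw [if_neg (fun e' => e (this.1 e')), if_neg e, mul_zero]
  · rw [if_neg hx]
    exact Finset.sum_eq_zero fun u _ => Finset.sum_eq_zero fun c _ =>
      Finset.sum_eq_zero fun v _ => if_neg fun e => hx e.1

theorem inf_tw (η : Fˣ →* ℂˣ) {a b n : ℕ} (h : a + b = n) {f : GL (Fin a) F → ℂ}
    {f' : GL (Fin b) F → ℂ} (hf : Tw (dl η a) f) (hf' : Tw (dl η b) f') {q : GL (Fin n) F}
    (hq : q ∈ Par F h) (g : GL (Fin n) F) :
    (dl η n q : ℂ) * inf h f f' (q⁻¹ * g * q) = inf h f f' g := by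
  by_cases hg : g ∈ Par F h
  · obtain ⟨s, t, w, rfl⟩ := hq
    obtain ⟨u, c, v, rfl⟩ := hg
    rw [tri_inv, tri_mul, tri_mul, inf_tri, inf_tri, dl_tri, Units.val_mul]
    have e1 := hf s (s⁻¹ * u * s)
    have e2 := hf' w (w⁻¹ * v * w)
    rw [show s * (s⁻¹ * u * s) * s⁻¹ = u by group] at e1
    rw [show w * (w⁻¹ * v * w) * w⁻¹ = v by group] at e2
    rw [e1, e2]; ring
  · rw [inf_off h f f' hg, inf_off, mul_zero]
    intro e
    apply hg
    have := (Par F h).mul_mem ((Par F h).mul_mem hq e) ((Par F h).inv_mem hq)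
    rwa [show q * (q⁻¹ * g * q) * q⁻¹ = g by group] at this

theorem perp1_eq {m k n : ℕ} (h : m + k = n) (P : GL (Fin m) F → ℂ) (ψ : GL (Fin n) F → ℂ)
    (v : GL (Fin k) F) : perp1 h P ψ v =
      ((Nat.card (GL (Fin m) F) : ℂ)⁻¹ * ((Fintype.card F ^ (m * k) : ℕ) : ℂ)⁻¹) *
        ∑ p : GL (Fin m) F × Matrix (Fin m) (Fin k) F, ψ (tri h p.1 p.2 v) * conj (P p.1) := by
  unfold perp1 classInner res
  rw [Fintype.sum_prod_type, mul_assoc]
  congr 1
  rw [Finset.mul_sum]
  refine Finset.sum_congr rfl fun u _ => ?_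
  dsimp only
  rw [mul_assoc, Finset.sum_mul]

/-- splitting the columns of a matrix -/
def colE {m a' b k : ℕ} (h4 : a' + b = k) :
    Matrix (Fin m) (Fin k) F ≃ Matrix (Fin m) (Fin a') F × Matrix (Fin m) (Fin b) F where
  toFun c := (c.submatrix id fun j => eqv h4 (Sum.inl j), c.submatrix id fun j => eqv h4 (Sum.inr j))
  invFun p := Matrix.of fun i j => Sum.elim (p.1 i) (p.2 i) ((eqv h4).symm j)
  left_inv c := by
    ext i j
    obtain ⟨j | j, rfl⟩ := (eqv h4).surjective j <;> simp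
  right_inv p := by
    refine Prod.ext ?_ ?_ <;> ext i j <;> simp

theorem perp_inf {a b m k n a' : ℕ} (h1 : a + b = n) (h2 : m + k = n) (h3 : m + a' = a)
    (h4 : a' + b = k) (P : GL (Fin m) F → ℂ) (f : GL (Fin a) F → ℂ) (f' : GL (Fin b) F → ℂ)
    (w : GL (Fin k) F) : perp1 h2 P (inf h1 f f') w = inf h4 (perp1 h3 P f) f' w := by
  by_cases hw : w ∈ Par F h4
  · obtain ⟨u2, c23, v2, rfl⟩ := hw
    rw [inf_tri, perp1_eq, perp1_eq, Fintype.sum_prod_type, Fintype.sum_prod_type]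
    have key : ∀ u : GL (Fin m) F,
        ∑ c : Matrix (Fin m) (Fin k) F, inf h1 f f' (tri h2 u c (tri h4 u2 c23 v2)) * conj (P u) =
        ((Fintype.card F ^ (m * b) : ℕ) : ℂ) *
          ((∑ c : Matrix (Fin m) (Fin a') F, f (tri h3 u c u2) * conj (P u)) * f' v2) := by
      intro u
      rw [Fintype.sum_equiv (colE h4) _ (fun p => f (tri h3 u p.1 u2) * conj (P u) * f' v2),
        Fintype.sum_prod_type]
      · simp only [Finset.sum_const, Finset.card_univ, card_mat, nsmul_eq_mul]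
        rw [← Finset.mul_sum, Finset.sum_mul]
      · intro c
        obtain ⟨C, e⟩ := three h1 h2 h3 h4 u c u2 c23 v2
        rw [e, inf_tri]
        show _ = f (tri h3 u (c.submatrix id fun j => eqv h4 (Sum.inl j)) u2) * conj (P u) * f' v2
        ring
    simp only [key]
    rw [← Finset.mul_sum, ← Finset.sum_mul]
    have hq : ((Fintype.card F : ℕ) : ℂ) ≠ 0 := Nat.cast_ne_zero.2 Fintype.card_ne_zero
    subst h4
    rw [Nat.mul_add, pow_add]
    push_cast
    field_simp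
  · rw [inf_off h4 _ _ hw, perp1_eq, Finset.sum_eq_zero, mul_zero]
    intro p _
    rw [inf_off h1 _ _ fun e => hw ((tri_mem h1 h2 h3 h4 _ _ _).1 e), zero_mul]

theorem perp_conj {m k n : ℕ} (h : m + k = n) (P : GL (Fin m) F → ℂ) (ψ : GL (Fin n) F → ℂ)
    (y v : GL (Fin k) F) :
    perp1 h P (fun g => ψ ((io h y)⁻¹ * g * io h y)) v = perp1 h P ψ (y⁻¹ * v * y) := by
  rw [perp1_eq, perp1_eq]
  congr 1
  let e : Matrix (Fin m) (Fin k) F ≃ Matrix (Fin m) (Fin k) F :=
    { toFun := fun c => c * y.1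
      invFun := fun c => c * (y⁻¹).1
      left_inv := fun c => by
        show c * y.1 * (y⁻¹).1 = c
        rw [Matrix.mul_assoc, ← Units.val_mul, mul_inv_cancel, Units.val_one, Matrix.mul_one]
      right_inv := fun c => by
        show c * (y⁻¹).1 * y.1 = c
        rw [Matrix.mul_assoc, ← Units.val_mul, inv_mul_cancel, Units.val_one, Matrix.mul_one] }
  refine Fintype.sum_equiv ((Equiv.refl _).prodCongr e) _ _ fun p => ?_
  have : (io h y)⁻¹ * tri h p.1 p.2 v * io h y = tri h p.1 (p.2 * y.1) (y⁻¹ * v * y) := by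
    rw [← map_inv]
    show tri h 1 0 y⁻¹ * _ * tri h 1 0 y = _
    rw [tri_mul, tri_mul]
    simp
  rw [this]; rfl

theorem der1 : DER1Stmt.{u} := by
  intro F _ _ _ η a b m k n h1 h2 P f f' _ hf hf'
  classical
  refine ⟨fun a' h3 h4 => ?_, fun ham => ?_⟩
  · funext v
    let T : GL (Fin n) F → ℂ :=
      fun x => perp1 h2 P (fun g => (dl η n x : ℂ) * inf h1 f f' (x⁻¹ * g * x)) v
    have hT : ∀ x, ∀ q ∈ Par F h1, T (x * q) = T x := by
      intro x q hq
      simp only [T]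
      congr 1
      funext g
      rw [← inf_tw η h1 hf hf' hq (x⁻¹ * g * x), map_mul, Units.val_mul, mul_assoc]
      congr 3
      group
    have hc := count (io h2) (Par F h1) _ (S_iff h1 h2 h3 h4) T hT
    have hcm : (Par F h1).comap (io h2) = Par F h4 :=
      Subgroup.ext fun y => tri_mem h1 h2 h3 h4 1 0 y
    rw [hcm] at hc
    have hL : perp1 h2 P (cmpS (fun x => stdS F n m ≤ imS a x) η h1 f f') v =
        (Nat.card (Par F h1) : ℂ)⁻¹ * ∑ x, if stdS F n m ≤ imS a x then T x else 0 := by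
      simp only [T, perp1_eq, cmpS_eq, Finset.mul_sum, Finset.sum_mul]
      rw [Finset.sum_comm]
      refine Finset.sum_congr rfl fun x _ => ?_
      split_ifs
      · rw [Finset.mul_sum]
        exact Finset.sum_congr rfl fun p _ => by ring
      · simp
    have hR : ∀ y, T (io h2 y) = (dl η k y : ℂ) * inf h4 (perp1 h3 P f) f' (y⁻¹ * v * y) := by
      intro y
      rw [← perp_inf h1 h2 h3 h4, ← perp_conj]
      have : dl η n (io h2 y) = dl η k y := by
        show dl η n (tri h2 1 0 y) = _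
        rw [dl_tri, map_one, one_mul]
      simp only [T, perp1_eq, this, Finset.mul_sum]
      exact Finset.sum_congr rfl fun p _ => by ring
    rw [hL, H98.GB.cmp, cmpS_eq]
    simp only [if_true, ← hR]
    have n1 : (Nat.card (Par F h1) : ℂ) ≠ 0 := Nat.cast_ne_zero.2 Nat.card_pos.ne'
    have n4 : (Nat.card (Par F h4) : ℂ) ≠ 0 := Nat.cast_ne_zero.2 Nat.card_pos.ne'
    field_simp
    convert hc.symm using 1 <;> ring
  · funext g
    rw [cmpS_eq, Finset.sum_eq_zero, mul_zero]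
    · rfl
    intro x _
    refine if_neg fun hx => ?_
    have e1 := Submodule.finrank_mono hx
    have e2 : Module.finrank F (imS a x) ≤ Module.finrank F (stdS F n a) :=
      Submodule.finrank_map_le _ _
    rw [finrank_stdS (by omega)] at e1 e2
    omega

end Cfsg.Agent.H54.GbDer1
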