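import Cfsg.Agent.H98.GbL

/-! Project GB, piece LAB. -/

set_option autoImplicit false
open Cfsg Finset Cfsg.Agent.H98.GB

namespace Cfsg.Agent.H54.GbLab

universe u

variable {F : Type u} [Field F] [Fintype F] [DecidableEq F] (C : Ctx F)

omit [DecidableEq F] in
theorem one_le (m : ℕ) : 1 ≤ Fintype.card F ^ m := Nat.one_le_pow _ _ Fintype.card_pos

theorem cast_sub (m : ℕ) : ((Fintype.card F ^ m - 1 : ℕ) : C.L) = C.qL ^ m - 1 := by
  rw [Nat.cast_sub (one_le m)]; simp [Ctx.qL]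

theorem q_pow : C.qL ^ C.n0.factorial = 1 := by
  have := cast_sub C C.n0.factorial
  rw [show Fintype.card F ^ C.n0.factorial - 1 = C.Q from rfl, ZMod.natCast_self] at this
  exact (sub_eq_zero.1 this.symm)

theorem mk_eq (a b : C.L) : C.mkΦ a = C.mkΦ b ↔ ∃ i : ℕ, b = C.qL ^ i * a := by
  constructor
  · intro h
    have := Quot.eqvGen_exact h
    clear h
    induction this with
    | rel x y h => exact ⟨1, by rw [h, pow_one]⟩
    | refl x => exact ⟨0, by simp⟩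
    | symm x y _ ih =>
      obtain ⟨i, rfl⟩ := ih
      refine ⟨i * (C.n0.factorial - 1), ?_⟩
      rw [← mul_assoc, ← pow_add, ← Nat.mul_succ, Nat.succ_eq_add_one,
        Nat.sub_add_cancel C.n0.factorial_pos, mul_comm i, pow_mul, q_pow, one_pow, one_mul]
    | trans x y z _ _ ih1 ih2 =>
      obtain ⟨i, rfl⟩ := ih1
      obtain ⟨j, rfl⟩ := ih2
      exact ⟨j + i, by rw [pow_add, mul_assoc]⟩
  · rintro ⟨i, rfl⟩
    induction i with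
    | zero => simp
    | succ i ih => exact ih.trans (Quot.sound (by rw [pow_succ', mul_assoc]))

theorem mk_out (φ : C.Φ) : C.mkΦ (C.out φ) = φ := Quot.out_eq φ

theorem surj (φ : C.Φ) : ∃ a, C.mkΦ a = φ := ⟨_, mk_out C φ⟩

theorem out_mk (a : C.L) : ∃ i : ℕ, C.out (C.mkΦ a) = C.qL ^ i * a :=
  (mk_eq C _ _).1 (mk_out C _).symm

theorem dg_out (φ : C.Φ) (m : ℕ) : C.qL ^ m * C.out φ = C.out φ ↔ C.dg φ ∣ m := by
  rw [Ctx.dg, ← Function.isPeriodicPt_iff_minimalPeriod_dvd, Function.IsPeriodicPt,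
    Function.IsFixedPt, mul_left_iterate]

theorem dg_iff (a : C.L) (m : ℕ) : C.qL ^ m * a = a ↔ C.dg (C.mkΦ a) ∣ m := by
  rw [← dg_out]
  constructor
  · intro h
    obtain ⟨i, hi⟩ := out_mk C a
    rw [hi, mul_left_comm, h]
  · intro h
    obtain ⟨i, hi⟩ := (mk_eq C _ _).1 (mk_out C (C.mkΦ a))
    conv_lhs => rw [hi, mul_left_comm, h, ← hi]

theorem dg_dvd (φ : C.Φ) : C.dg φ ∣ C.n0.factorial := (dg_out C φ _).1 (by rw [q_pow, one_mul])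

theorem dg_pos (φ : C.Φ) : 0 < C.dg φ := Nat.pos_of_dvd_of_pos (dg_dvd C φ) C.n0.factorial_pos

theorem fix_pow {c : C.L} (hc : C.qL * c = c) (i : ℕ) : C.qL ^ i * c = c := by
  induction i with
  | zero => simp
  | succ i ih => rw [pow_succ, mul_assoc, hc, ih]

theorem tw_mk (c a : C.L) (hc : C.qL * c = c) : C.tw c (C.mkΦ a) = C.mkΦ (a + c) := by
  obtain ⟨i, hi⟩ := out_mk C a
  rw [Ctx.tw, hi]
  exact ((mk_eq C _ _).2 ⟨i, by rw [mul_add, fix_pow C hc]⟩).symm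

theorem dg_tw (c : C.L) (φ : C.Φ) (hc : C.qL * c = c) : C.dg (C.tw c φ) = C.dg φ := by
  obtain ⟨a, rfl⟩ := surj C φ
  rw [tw_mk C c a hc]
  have : ∀ m, C.dg (C.mkΦ (a + c)) ∣ m ↔ C.dg (C.mkΦ a) ∣ m := fun m => by
    rw [← dg_iff, ← dg_iff, mul_add, fix_pow C hc, add_left_inj]
  exact Nat.dvd_antisymm ((this _).2 dvd_rfl) ((this _).1 dvd_rfl)

theorem tw_tw (c c' : C.L) (φ : C.Φ) (hc : C.qL * c = c) (hc' : C.qL * c' = c') :
    C.tw c (C.tw c' φ) = C.tw (c + c') φ := by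
  obtain ⟨a, rfl⟩ := surj C φ
  rw [tw_mk C c' a hc', tw_mk C c _ hc, tw_mk C _ a (by rw [mul_add, hc, hc']), add_assoc,
    add_comm c']

theorem tw_zero (φ : C.Φ) : C.tw 0 φ = φ := by rw [Ctx.tw, add_zero, mk_out]

theorem lp_mk (a : C.L) : C.lp (C.mkΦ a) = C.mkΦ (C.uu * a) := by
  obtain ⟨i, hi⟩ := out_mk C a
  rw [Ctx.lp, hi]
  exact ((mk_eq C _ _).2 ⟨i, by rw [mul_left_comm]⟩).symm

theorem lp_tw (c : C.L) (φ : C.Φ) (hc : C.qL * c = c) :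
    C.lp (C.tw c φ) = C.tw (C.uu * c) (C.lp φ) := by
  obtain ⟨a, rfl⟩ := surj C φ
  rw [tw_mk C c a hc, lp_mk, lp_mk, tw_mk C _ _ (by rw [mul_left_comm, hc]), mul_add]

theorem Q_eq : C.p ^ C.Q.factorization C.p * (C.Q / C.p ^ C.Q.factorization C.p) = C.Q :=
  Nat.ordProj_mul_ordCompl_eq_self _ _

theorem tot_pos : 0 < C.Q.totient := Nat.totient_pos.2 (Nat.pos_of_ne_zero (NeZero.ne _))

theorem Q'_uu : ((C.Q / C.p ^ C.Q.factorization C.p : ℕ) : C.L) * C.uu = 0 := by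
  rw [Ctx.uu, ← Nat.cast_mul, ZMod.natCast_eq_zero_iff]
  conv_lhs => rw [← Q_eq C]
  rw [mul_comm]
  exact Nat.mul_dvd_mul_left _ (dvd_pow_self _ (tot_pos C).ne')

theorem pv_uu : ((C.p ^ C.Q.factorization C.p : ℕ) : C.L) * C.uu =
    ((C.p ^ C.Q.factorization C.p : ℕ) : C.L) := by
  have hco : (C.p ^ C.Q.factorization C.p).Coprime (C.Q / C.p ^ C.Q.factorization C.p) :=
    Nat.Coprime.pow_left _ (Nat.coprime_ordCompl C.hp (NeZero.ne _))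
  have h1 := Nat.ModEq.pow_totient hco
  obtain ⟨k, hk⟩ := Nat.totient_dvd_of_dvd (Nat.ordCompl_dvd C.Q C.p)
  have h2 := (h1.pow k).mul_left' (C.p ^ C.Q.factorization C.p)
  rw [← pow_mul, ← hk, one_pow, mul_one, Q_eq] at h2
  rw [Ctx.uu, ← Nat.cast_mul]
  exact (ZMod.natCast_eq_natCast_iff _ _ _).2 h2

theorem uu_idem : C.uu * C.uu = C.uu := by
  have e : C.uu = ((C.p ^ C.Q.factorization C.p : ℕ) : C.L) ^ (C.Q.totient - 1) *
      ((C.p ^ C.Q.factorization C.p : ℕ) : C.L) := by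
    rw [← pow_succ, Nat.sub_add_cancel (tot_pos C), Ctx.uu, Nat.cast_pow]
  calc C.uu * C.uu = ((C.p ^ C.Q.factorization C.p : ℕ) : C.L) ^ (C.Q.totient - 1) *
      (((C.p ^ C.Q.factorization C.p : ℕ) : C.L) * C.uu) := by rw [← mul_assoc, ← e]
    _ = C.uu := by rw [pv_uu, ← e]

theorem reg_iff (a : C.L) : C.Reg (C.mkΦ a) ↔ C.uu * a = a := by
  rw [Ctx.Reg, lp_mk]
  constructor
  · intro h
    obtain ⟨i, hi⟩ := (mk_eq C _ _).1 h
    conv_lhs => rw [hi, mul_left_comm, ← mul_assoc C.uu, uu_idem, ← hi]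
  · intro h; rw [h]

theorem reg_lp (φ : C.Φ) : C.Reg (C.lp φ) := by
  obtain ⟨a, rfl⟩ := surj C φ
  rw [lp_mk, reg_iff, ← mul_assoc, uu_idem]

theorem dg_lp (φ : C.Φ) : C.dg (C.lp φ) ∣ C.dg φ := by
  obtain ⟨a, rfl⟩ := surj C φ
  rw [lp_mk, ← dg_iff, mul_left_comm, (dg_iff C a _).2 dvd_rfl]

theorem q_ne : ((Fintype.card F : ℕ) : ZMod C.p) ≠ 0 := by
  intro h
  rw [ZMod.natCast_eq_zero_iff] at h
  obtain ⟨n, hp, hn⟩ := FiniteField.card F (ringChar F)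
  rw [hn] at h
  exact C.hpF ((Nat.prime_dvd_prime_iff_eq C.hp hp).1 (C.hp.dvd_of_dvd_pow h))

theorem eG_dvd' (φ : C.Φ) : C.eG φ ∣ C.p - 1 :=
  orderOf_dvd_of_pow_eq_one (ZMod.pow_card_sub_one_eq_one (pow_ne_zero _ (q_ne C)))

theorem eG_pos (φ : C.Φ) : 0 < C.eG φ :=
  Nat.pos_of_dvd_of_pos (eG_dvd' C φ) (by have := C.hp.two_le; omega)

theorem eG_le (φ : C.Φ) : C.eG φ ≤ C.p - 1 :=
  Nat.le_of_dvd (by have := C.hp.two_le; omega) (eG_dvd' C φ)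

theorem eG_iff (φ : C.Φ) (k : ℕ) : C.p ∣ Fintype.card F ^ (C.dg φ * k) - 1 ↔ C.eG φ ∣ k := by
  rw [Ctx.eG, orderOf_dvd_iff_pow_eq_one, ← ZMod.natCast_eq_zero_iff, Nat.cast_sub (one_le _),
    sub_eq_zero, ← pow_mul]
  simp

theorem ord_beta (c : C.L) : addOrderOf (c - C.uu * c) ∣ C.p ^ C.Q.factorization C.p := by
  rw [addOrderOf_dvd_iff_nsmul_eq_zero, nsmul_eq_mul, mul_sub, ← mul_assoc, pv_uu, sub_self]

theorem beta_zero (c : C.L) (r : ℕ) (hr : ¬ C.p ∣ r) (h : (r : C.L) * c = 0) : C.uu * c = c := by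
  have h1 : addOrderOf (c - C.uu * c) ∣ r := by
    rw [addOrderOf_dvd_iff_nsmul_eq_zero, nsmul_eq_mul, mul_sub, mul_left_comm, h, mul_zero,
      sub_self]
  have h2 : (C.p ^ C.Q.factorization C.p).Coprime r :=
    Nat.Coprime.pow_left _ ((Nat.Prime.coprime_iff_not_dvd C.hp).2 hr)
  have h3 := Nat.eq_one_of_dvd_coprimes h2 (ord_beta C c) h1
  exact (sub_eq_zero.1 (AddMonoid.addOrderOf_eq_one_iff.1 h3)).symm

theorem eG_dvd (φ : C.Φ) (h : ¬ C.Reg φ) : C.eG (C.lp φ) * C.dg (C.lp φ) ∣ C.dg φ := by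
  obtain ⟨k, hk⟩ := dg_lp C φ
  rw [hk, mul_comm]
  refine Nat.mul_dvd_mul_left _ ((eG_iff C _ _).1 ?_)
  rw [← hk]
  by_contra hp
  obtain ⟨a, rfl⟩ := surj C φ
  refine h ((reg_iff C a).2 (beta_zero C a _ hp ?_))
  rw [cast_sub, sub_mul, (dg_iff C a _).2 dvd_rfl, one_mul, sub_self]

theorem ex_mul (a : C.L) (m : ℕ) (h : C.qL ^ m * a = a) :
    C.ex a m * C.Q = a.val * (Fintype.card F ^ m - 1) := by
  refine Nat.div_mul_cancel ((ZMod.natCast_eq_zero_iff _ _).1 ?_)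
  rw [Nat.cast_mul, ZMod.natCast_zmod_val, cast_sub, mul_sub, mul_comm, h, mul_one, sub_self]

theorem modEq_of {Q R x y s t : ℕ} (hQ : Q ≠ 0) (h1 : x * Q = s * R) (h2 : y * Q = t * R)
    (h : s ≡ t [MOD Q]) : x ≡ y [MOD R] := by
  refine Nat.ModEq.mul_right_cancel' hQ ?_
  rw [h1, h2, mul_comm R]
  exact h.mul_right' R

theorem ex_q (a : C.L) (m : ℕ) (h : C.qL ^ m * a = a) :
    C.ex (C.qL * a) m ≡ C.ex a m * Fintype.card F [MOD Fintype.card F ^ m - 1] := by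
  refine modEq_of (NeZero.ne C.Q) (ex_mul C _ m (by rw [mul_left_comm, h]))
    (t := Fintype.card F * a.val) (by rw [mul_right_comm, ex_mul C a m h]; ring) ?_
  rw [← ZMod.natCast_eq_natCast_iff, Nat.cast_mul, ZMod.natCast_zmod_val, ZMod.natCast_zmod_val]
  rfl

theorem ex_add (a b : C.L) (m : ℕ) (ha : C.qL ^ m * a = a) (hb : C.qL ^ m * b = b) :
    C.ex (a + b) m ≡ C.ex a m + C.ex b m [MOD Fintype.card F ^ m - 1] := by
  refine modEq_of (NeZero.ne C.Q) (ex_mul C _ m (by rw [mul_add, ha, hb]))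
    (t := a.val + b.val) (by rw [add_mul, add_mul, ex_mul C a m ha, ex_mul C b m hb]) ?_
  rw [← ZMod.natCast_eq_natCast_iff, Nat.cast_add, ZMod.natCast_zmod_val, ZMod.natCast_zmod_val,
    ZMod.natCast_zmod_val]

theorem ex_lift (a : C.L) (d i : ℕ) (h : C.qL ^ d * a = a) :
    C.ex a (d * i) = C.ex a d * ∑ t ∈ range i, Fintype.card F ^ (d * t) := by
  have h' : C.qL ^ (d * i) * a = a :=
    (dg_iff C a _).2 (((dg_iff C a _).1 h).mul_right _)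
  refine Nat.eq_of_mul_eq_mul_right (Nat.pos_of_ne_zero (NeZero.ne C.Q)) ?_
  rw [ex_mul C a _ h', mul_right_comm, ex_mul C a d h, mul_assoc]
  congr 1
  have := geom_sum_mul_add (Fintype.card F ^ d - 1) i
  rw [Nat.sub_add_cancel (one_le d)] at this
  simp only [pow_mul]
  rw [← this, Nat.add_sub_cancel, mul_comm]

theorem ex_inj (a b : C.L) (m : ℕ) (hm : 0 < m) (ha : C.qL ^ m * a = a) (hb : C.qL ^ m * b = b)
    (h : C.ex a m ≡ C.ex b m [MOD Fintype.card F ^ m - 1]) : a = b := by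
  have hR : Fintype.card F ^ m - 1 ≠ 0 := by
    have := Nat.one_lt_pow hm.ne' (Fintype.one_lt_card (α := F))
    omega
  have := modEq_of hR (ex_mul C a m ha).symm (ex_mul C b m hb).symm h
  rwa [← ZMod.natCast_eq_natCast_iff, ZMod.natCast_zmod_val, ZMod.natCast_zmod_val] at this

theorem ex_ord (a : C.L) (m r : ℕ) (h : C.qL ^ m * a = a) (hr : r • a = 0) :
    Fintype.card F ^ m - 1 ∣ r * C.ex a m := by
  refine (Nat.modEq_zero_iff_dvd).1 (modEq_of (NeZero.ne C.Q) (s := r * a.val) (t := 0)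
    (by rw [mul_assoc, ex_mul C a m h, mul_assoc]) (by simp) ?_)
  rw [← ZMod.natCast_eq_natCast_iff, Nat.cast_mul, ZMod.natCast_zmod_val, ← nsmul_eq_mul, hr,
    Nat.cast_zero]

theorem uu_iff (c : C.L) : C.uu * c = c ↔ ¬ C.p ∣ addOrderOf c := by
  constructor
  · intro h hp
    have : addOrderOf c ∣ C.Q / C.p ^ C.Q.factorization C.p := by
      rw [addOrderOf_dvd_iff_nsmul_eq_zero, nsmul_eq_mul, ← h, ← mul_assoc, Q'_uu, zero_mul]
    exact Nat.not_dvd_ordCompl C.hp (NeZero.ne _) (hp.trans this)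
  · intro hp
    exact beta_zero C c _ hp (by rw [← nsmul_eq_mul, addOrderOf_nsmul_eq_zero])

theorem uu_p (c : C.L) : ∃ i, addOrderOf (c - C.uu * c) = C.p ^ i := by
  obtain ⟨i, -, hi⟩ := (Nat.dvd_prime_pow C.hp).1 (ord_beta C c)
  exact ⟨i, hi⟩

theorem fin (n : ℕ) : {Λ | C.IsLab n Λ}.Finite := by
  refine (Set.Finite.pi' (t := fun _ : C.Φ => (↑((range (n + 1)).biUnion (H19.Lam C.N)) :
    Set (Finset ℕ))) fun _ => Finset.finite_toSet _).subset fun Λ hΛ φ => ?_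
  refine Finset.mem_coe.2 (mem_biUnion.2 ⟨H19.wtS (Λ φ), mem_range.2 ?_,
    H19.mem_Lam'.2 ⟨hΛ.1 φ, rfl⟩⟩)
  have h1 : C.dg φ * H19.wtS (Λ φ) ≤ wt C.dg Λ :=
    Finset.single_le_sum (f := fun φ => C.dg φ * H19.wtS (Λ φ)) (fun _ _ => Nat.zero_le _)
      (mem_univ φ)
  have h2 := Nat.le_mul_of_pos_left (H19.wtS (Λ φ)) (dg_pos C φ)
  have := hΛ.2
  omega

theorem fix_neg {c : C.L} (hc : C.qL * c = c) : C.qL * -c = -c := by rw [mul_neg, hc]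

/-- twisting as a permutation -/
noncomputable def twE (c : C.L) (hc : C.qL * c = c) : C.Φ ≃ C.Φ where
  toFun := C.tw c
  invFun := C.tw (-c)
  left_inv φ := by rw [tw_tw C _ _ _ (fix_neg C hc) hc, neg_add_cancel, tw_zero]
  right_inv φ := by rw [tw_tw C _ _ _ hc (fix_neg C hc), add_neg_cancel, tw_zero]

theorem lab_tw (c : C.L) (n : ℕ) (Λ : C.Lb) (hc : C.qL * c = c) (h : C.IsLab n Λ) :
    C.IsLab n (C.twL c Λ) := by
  refine ⟨fun φ => h.1 _, Eq.trans ?_ h.2⟩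
  unfold wt
  rw [← Equiv.sum_comp (twE C (-c) (fix_neg C hc)) fun φ => C.dg φ * H19.wtS (Λ φ)]
  refine Finset.sum_congr rfl fun φ _ => ?_
  show _ = C.dg (C.tw (-c) φ) * _
  rw [dg_tw C _ _ (fix_neg C hc)]
  rfl

theorem reg_tw (c : C.L) (φ : C.Φ) (hc : C.qL * c = c) (hu : C.uu * c = c) :
    C.Reg (C.tw c φ) ↔ C.Reg φ := by
  obtain ⟨a, rfl⟩ := surj C φ
  rw [tw_mk C c a hc, reg_iff, reg_iff, mul_add, hu, add_left_inj]

theorem bas_tw (c : C.L) (Λ : C.Lb) (hc : C.qL * c = c) (hu : C.uu * c = c) (h : C.Bas Λ) :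
    C.Bas (C.twL c Λ) := fun φ hφ =>
  h _ fun e => hφ ((reg_tw C _ φ (fix_neg C hc) (by rw [mul_neg, hu])).1 e)

theorem sm_tw (c : C.L) (Λ : C.Lb) (hc : C.qL * c = c) (hu : C.uu * c = c) (Γ : C.Φ) :
    C.sm (C.twL c Λ) Γ = C.sm Λ (C.tw (-c) Γ) := by
  unfold Ctx.sm
  refine Finset.sum_equiv (twE C (-c) (fix_neg C hc)) (fun φ => ?_) fun φ _ => ?_
  · simp only [mem_filter, mem_univ, true_and]
    show _ ↔ C.lp (C.tw (-c) φ) = _
    rw [lp_tw C _ _ (fix_neg C hc), mul_neg, hu]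
    exact (twE C (-c) (fix_neg C hc)).injective.eq_iff.symm
  · show _ = C.dg (C.tw (-c) φ) * _
    rw [dg_tw C _ _ (fix_neg C hc)]
    rfl

theorem cl_tw (c : C.L) (Λ Λ' : C.Lb) (hc : C.qL * c = c) (hu : C.uu * c = c) (h : C.Cl Λ Λ') :
    C.Cl (C.twL c Λ) (C.twL c Λ') := by
  intro Γ hΓ
  obtain ⟨h1, h2⟩ := h _ ((reg_tw C _ Γ (fix_neg C hc) (by rw [mul_neg, hu])).2 hΓ)
  refine ⟨by rw [sm_tw C c Λ hc hu, sm_tw C c Λ' hc hu, h1], ?_⟩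
  have e : C.eG (C.tw (-c) Γ) = C.eG Γ := by
    unfold Ctx.eG; rw [dg_tw C _ _ (fix_neg C hc)]
  have : ∀ (e e' : ℕ) (S S' : Finset ℕ), e = e' → H19.cnt e S = H19.cnt e S' →
      H19.cnt e' S = H19.cnt e' S' := by
    rintro _ _ _ _ rfl h; exact h
  exact this _ _ _ _ e h2

theorem twL_twL (c c' : C.L) (Λ : C.Lb) (hc : C.qL * c = c) (hc' : C.qL * c' = c') :
    C.twL c (C.twL c' Λ) = C.twL (c + c') Λ := by
  funext φ
  show Λ (C.tw (-c') (C.tw (-c) φ)) = Λ (C.tw (-(c + c')) φ)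
  rw [tw_tw C _ _ _ (fix_neg C hc') (fix_neg C hc), neg_add_rev]

theorem sum_sm (Λ : C.Lb) : ∑ Γ, C.sm Λ Γ = wt C.dg Λ :=
  Finset.sum_fiberwise univ C.lp fun φ => C.dg φ * H19.wtS (Λ φ)

theorem sm_bas (Λ : C.Lb) (Γ : C.Φ) (h : C.Bas Λ) (hΓ : C.Reg Γ) :
    C.sm Λ Γ = C.dg Γ * H19.wtS (Λ Γ) := by
  refine Finset.sum_eq_single_of_mem Γ (mem_filter.2 ⟨mem_univ _, hΓ⟩) fun φ hφ hne => ?_
  rw [h φ fun e => hne (e.symm.trans (mem_filter.1 hφ).2), H19.wtS_range, mul_zero]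

theorem eq_range {Λ : C.Lb} (hN : ∀ φ, #(Λ φ) = C.N) {φ : C.Φ}
    (h : C.dg φ * H19.wtS (Λ φ) = 0) : Λ φ = range C.N := by
  rw [← hN φ]
  exact H19.eq_range_of_wtS ((Nat.mul_eq_zero.1 h).resolve_left (dg_pos C φ).ne')

theorem sup_iff (Λ : C.Lb) (Γ : C.Φ) (hN : ∀ φ, #(Λ φ) = C.N) :
    Λ ∈ C.Sup Γ ↔ ∀ Γ', Γ' ≠ Γ → C.sm Λ Γ' = 0 := by
  constructor
  · intro h Γ' hne
    refine Finset.sum_eq_zero fun φ hφ => ?_
    rw [h φ (by rw [(mem_filter.1 hφ).2]; exact hne), H19.wtS_range, mul_zero]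
  · intro h φ hφ
    exact eq_range C hN (Finset.sum_eq_zero_iff.1 (h _ hφ) φ (mem_filter.2 ⟨mem_univ _, rfl⟩))

theorem out_eq (Λ0 Λ : C.Lb) (h0 : ∀ φ, #(Λ0 φ) = C.N) (hN : ∀ φ, #(Λ φ) = C.N) (hB : C.Bas Λ0)
    (hC : C.Cl Λ0 Λ) (φ : C.Φ) (hI : ¬ C.II Λ0 (C.lp φ)) : Λ φ = Λ0 φ := by
  have hΓ := reg_lp C φ
  generalize hg : C.lp φ = Γ at hI hΓ
  have hw : H19.wgt (C.eG Γ) (Λ0 Γ) = 0 := by_contra fun e => hI ⟨hΓ, e⟩
  obtain ⟨h1, h2⟩ := hC Γ hΓ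
  have he := eG_pos C Γ
  have s1 := H19.sum_eq_baseS he (Λ0 Γ)
  have s2 := H19.sum_eq_baseS he (Λ Γ)
  rw [H19.sum_eq_wtS, h0, hw, h2] at s1
  rw [H19.sum_eq_wtS, hN] at s2
  have s3 : H19.wtS (Λ Γ) = H19.wtS (Λ0 Γ) + C.eG Γ * H19.wgt (C.eG Γ) (Λ Γ) := by omega
  have hm : Γ ∈ univ.filter fun φ => C.lp φ = Γ := mem_filter.2 ⟨mem_univ Γ, hΓ⟩
  rw [sm_bas C Λ0 Γ hB hΓ, Ctx.sm, ← Finset.add_sum_erase _ _ hm, s3, mul_add, add_assoc] at h1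
  have s4 := Nat.add_eq_zero_iff.1 (Nat.left_eq_add.1 h1)
  by_cases e : φ = Γ
  · subst e
    have hw' : H19.wgt (C.eG φ) (Λ φ) = 0 :=
      (Nat.mul_eq_zero.1 ((Nat.mul_eq_zero.1 s4.1).resolve_left (dg_pos C φ).ne')).resolve_left
        he.ne'
    rw [H19.eq_coreS_of_wgt he hw', H19.eq_coreS_of_wgt he hw, h2]
  · rw [hB φ fun r => e (r.symm.trans hg)]
    exact eq_range C hN (Finset.sum_eq_zero_iff.1 s4.2 φ
      (mem_erase.2 ⟨e, mem_filter.2 ⟨mem_univ _, hg⟩⟩))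

theorem lab : LABStmt.{u} := fun _ _ _ _ C =>
  { mk_eq := mk_eq C, mk_out := mk_out C, dg_pos := dg_pos C, dg_dvd := dg_dvd C
    dg_iff := dg_iff C, tw_mk := tw_mk C, dg_tw := dg_tw C, tw_tw := tw_tw C
    tw_zero := tw_zero C, lp_tw := lp_tw C, uu_idem := uu_idem C, lp_mk := lp_mk C
    reg_lp := reg_lp C, reg_iff := reg_iff C, dg_lp := dg_lp C, eG_dvd := eG_dvd C
    eG_pos := eG_pos C, eG_le := eG_le C, eG_iff := eG_iff C, ex_mul := ex_mul C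
    ex_q := ex_q C, ex_add := ex_add C, ex_lift := ex_lift C, ex_inj := ex_inj C
    ex_ord := ex_ord C, uu_iff := uu_iff C, uu_p := uu_p C, fin := fin C
    lab_tw := lab_tw C, bas_tw := bas_tw C, cl_tw := cl_tw C, twL_twL := twL_twL C
    sum_sm := sum_sm C, sm_bas := sm_bas C, sup_iff := sup_iff C, out_eq := out_eq C }

end Cfsg.Agent.H54.GbLab
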