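import Mathlib
import Cfsg.Agent.H50.L81Defs

/-! The piece **G1** of the project on `L₂(81)` in `E₈(3)`. -/

set_option autoImplicit false

namespace Cfsg.Agent.H54.L81G1

open Cfsg.Agent.H50.L81 Cfsg.Agent.H50.E83 Cfsg.Agent.H50.SL2S Module Finset H82

theorem g1 (hA : AopStmt) : G1Stmt := by
  intro p W _ _ _ ρ hρ hB U hU hdim i hi v hv
  obtain ⟨-, hmul, hwt, -, -, -, hinv, hUU, hBB, -⟩ := hA p W ρ hρ
  have h80 : ∀ j < 4, 3 ^ j ≤ 27 := fun j hj => by interval_cases j <;> norm_num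
  let d : (U ⊓ Wt ρ p 0 : Submodule K W) →ₗ[K]
      (∀ j : Fin 4, (U ⊓ Wt ρ p (3 ^ (j : ℕ)) : Submodule K W)) :=
    LinearMap.pi fun j => LinearMap.codRestrict _
      ((Aop ρ p (3 ^ (j : ℕ))).comp (U ⊓ Wt ρ p 0 : Submodule K W).subtype) fun a =>
        ⟨(hinv U hU _ _ a.2.1).1, by
          have := hwt (3 ^ (j : ℕ)) ((h80 j j.2).trans (by norm_num)) 0 a a.2.2
          rwa [zero_add] at this⟩
  have hd : ∀ a (j : Fin 4), ((d a j : (U ⊓ Wt ρ p (3 ^ (j : ℕ)) : Submodule K W)) : W) =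
      Aop ρ p (3 ^ (j : ℕ)) a := fun a j => rfl
  have hinj : Function.Injective d := by
    rw [injective_iff_map_eq_zero]
    intro a ha
    have h1 : (a : W) ∈ Fx ρ (UU F) := (hUU a).1 fun j hj => by
      have := hd a ⟨j, hj⟩
      rw [ha] at this
      exact this.symm
    have h2 : (a : W) ∈ Fx ρ (BB F) := (hBB a).2 ⟨h1, a.2.2⟩
    rw [hB, Submodule.mem_bot] at h2
    exact Subtype.ext h2
  have hfin : finrank K (U ⊓ Wt ρ p 0 : Submodule K W) =
      finrank K (∀ j : Fin 4, (U ⊓ Wt ρ p (3 ^ (j : ℕ)) : Submodule K W)) := by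
    apply le_antisymm (LinearMap.finrank_le_finrank_of_injective hinj)
    rw [Module.finrank_pi_fintype,
      Fin.sum_univ_eq_sum_range (fun j => finrank K (U ⊓ Wt ρ p (3 ^ j) : Submodule K W)) 4]
    exact hdim
  have hsurj : Function.Surjective d :=
    (LinearMap.injective_iff_surjective_of_finrank_eq_finrank hfin).1 hinj
  obtain ⟨a, ha⟩ := hsurj (Pi.single (⟨i, hi⟩ : Fin 4) ⟨v, hv⟩)
  have hai : Aop ρ p (3 ^ i) a = v := by
    have := hd a ⟨i, hi⟩
    rw [ha, Pi.single_eq_same] at this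
    exact this.symm
  have haj : ∀ j < 4, j ≠ i → Aop ρ p (3 ^ j) a = 0 := by
    intro j hj hji
    have := hd a ⟨j, hj⟩
    rw [ha, Pi.single_eq_of_ne (fun h => hji (congrArg Fin.val h))] at this
    exact this.symm
  refine ⟨?_, fun j hj hji => ?_⟩
  · have e1 := hmul (3 ^ i) ((h80 i hi).trans (by norm_num)) (3 ^ i)
      ((h80 i hi).trans (by norm_num))
    have h2 : 3 ^ i + 3 ^ i ≤ 80 := by have := h80 i hi; omega
    rw [if_pos h2] at e1
    have e2 := hmul (3 ^ i + 3 ^ i) h2 (3 ^ i) ((h80 i hi).trans (by norm_num))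
    have e3 : Aop ρ p (3 ^ i + 3 ^ i) * Aop ρ p (3 ^ i) = 0 := by
      rw [e2]
      split_ifs with h
      · have : (((3 ^ i + 3 ^ i + 3 ^ i).choose (3 ^ i + 3 ^ i) : ℕ) : K) = 0 := by
          rw [CharP.cast_eq_zero_iff K 3]
          interval_cases i
          · decide
          · decide
          · rw [Nat.choose_eq_factorial_div_factorial (by norm_num)]; decide
          · exact absurd h (by norm_num)
        rw [this, zero_smul]
      · rfl
    rw [← hai, ← Module.End.mul_apply, e1, LinearMap.smul_apply, ← Module.End.mul_apply, e3]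
    simp
  · have e1 := hmul (3 ^ i) ((h80 i hi).trans (by norm_num)) (3 ^ j)
      ((h80 j hj).trans (by norm_num))
    have e2 := hmul (3 ^ j) ((h80 j hj).trans (by norm_num)) (3 ^ i)
      ((h80 i hi).trans (by norm_num))
    have hc : Aop ρ p (3 ^ j) * Aop ρ p (3 ^ i) = Aop ρ p (3 ^ i) * Aop ρ p (3 ^ j) := by
      rw [e1, e2, add_comm (3 ^ j) (3 ^ i), Nat.choose_symm_add]
    rw [← hai, ← Module.End.mul_apply, hc, Module.End.mul_apply, haj j hj hji, map_zero]

end Cfsg.Agent.H54.L81G1
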