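import Cfsg.Agent.H78.McDefs
import Cfsg.Agent.S0662
import Cfsg.Agent.H3.Frattini

/-! Project MC: normal subgroups of index at least `p ^ 2` in a group of maximal class. -/

set_option autoImplicit false

namespace Cfsg.Agent.H54.McFra

open Subgroup Cfsg.Agent.H78.Mc

universe u

theorem fra : FraStmt.{u} := by
  intro P _ _ p n _ hP hn hc K hK ht hi
  have hp : IsPGroup p P := IsPGroup.of_card hP
  obtain ⟨r, hr⟩ := hp.index K
  have h2 : 2 ≤ r := by
    rcases r with _ | _ | r
    · exact absurd (index_eq_one.1 (by simpa using hr)) ht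
    · exact absurd (by simpa using hr) hi
    · omega
  rw [(S0662.result n hP hc hn).1 K r h2 hr]
  exact ((⊤ : Subgroup P).lowerCentralSeries_antitone (show 1 ≤ r - 1 by omega)).trans
    (H3.commutator_le_frattini hp)

end Cfsg.Agent.H54.McFra
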