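import Cfsg.Agent.H54.O84Defs

/-! Assembly of S3384 from the pieces. -/

set_option autoImplicit false

namespace Cfsg.Agent.H54.O84

universe u

theorem asm (hSetup : SetupStmt) (hGeo : GeoStmt) (hIso : IsoStmt.{u}) (hXf : XfStmt.{u})
    (hOm : OmStmt.{u}) (hConj : ConjStmt.{u}) (hIdx : IdxStmt) (hCen : Cen1Stmt) (hFin : FinStmt.{u})
    (F : Type u) [Field F] [Fintype F] (hF : Fintype.card F = 4) :
    Cls (fun H : Subgroup G0 => Nonempty (H ≃* Om F)) 2 ∧ Cls (Ext (Γ := G0) (Om F) 3) 1 ∧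
      Cls (Ext (Γ := G0) (Om F) 4) 2 ∧ Cls (Ext (Γ := G0) (Om F) 12) 1 := by
  obtain ⟨E⟩ := hSetup
  obtain ⟨G, hG⟩ := hGeo E
  obtain ⟨b, hb⟩ := hXf F hF
  obtain ⟨⟨hfin, h6⟩, hO⟩ := hOm
  obtain ⟨hs, hz, h5, -⟩ := hO F hF
  have hi : ∀ i, Nonempty (G.Y (Ψ i) ≃* Om F) := fun i => hG ▸ hIso F hF E i
  refine hFin G0 (Om F) (fun i => G.Y (Ψ i)) ⟨hs, hi, fun i => hCen G0 G i ?_, fun i => hIdx G0 G i ?_,
    hConj G0 G h6 (Om F) b hb hi⟩
  · obtain ⟨e⟩ := hi i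
    refine eq_bot_iff.2 fun z hz' => ?_
    have : e z ∈ Subgroup.center (Om F) := Subgroup.mem_center_iff.2 fun y => by
      obtain ⟨y, rfl⟩ := e.surjective y
      rw [← map_mul, ← map_mul, Subgroup.mem_center_iff.1 hz' y]
    rw [hz, Subgroup.mem_bot, map_eq_one_iff _ e.injective] at this
    exact Subgroup.mem_bot.2 this
  · obtain ⟨e⟩ := hi i
    rwa [Nat.card_congr e.toEquiv]

end Cfsg.Agent.H54.O84
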