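import Cfsg.Agent.H54.O84Defs

/-! S3384: the local data and the isomorphism. -/

set_option autoImplicit false

namespace Cfsg.Agent.H54.O84

open Equiv Cfsg.Lie H37 H40 H34 H29 Cert

universe u

theorem geoStmt (h1 : Tor1Stmt) (h2 : Tor2Stmt) (h3 : Nu1Stmt) (h4 : Nu2Stmt) (h5 : NmStmt)
    (h6 : CenStmt) : GeoStmt := fun F => by
  obtain ⟨ζ, a, hζ, ha, hl⟩ := h1 F
  have T : Tor F ζ a := ⟨hζ, ha, hl, h2 F ζ a hζ hl⟩
  have hN := h3 F ζ a T
  refine ⟨{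
    a := a
    ν := F.ν
    Y := F.Y
    inj := ha
    ν_mul := fun g hg g' hg' => ?_
    ν_mem := fun g hg => (hN g hg).2.1
    ν_surj := h4 F ζ a T
    ν_ker := fun g hg => (hN g hg).2.2.1
    act := fun g hg => (hN g hg).2.2.2
    Y_conj := fun g hg S => ?_
    mem_Y := fun i g hg => h5.2 (v i) (v_mem i) _ (hN g hg).1
    cen := h6 F ζ a T }, rfl⟩
  · unfold Frm.ν
    rw [map_mul, P8.ν_mul _ (hN g hg).1 _ (hN g' hg').1]
  · ext y
    have e := h5.1 _ (hN g hg).1 S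
    unfold Frm.Y Frm.ν
    rw [Subgroup.mem_comap, ← e, Subgroup.mem_map, Subgroup.mem_map]
    constructor
    · rintro ⟨x, hx, rfl⟩
      exact ⟨F.j x, hx, by simp⟩
    · rintro ⟨x, hx, hy⟩
      refine ⟨g⁻¹ * y * g, ?_, by simp [mul_assoc]⟩
      rw [Subgroup.mem_comap, map_mul, map_mul, ← hy]
      simpa [mul_assoc] using hx

theorem isoStmt (h1 : MoveStmt) (h2 : E2Stmt) (h3 : E3Stmt) (h4 : E4Stmt.{u}) (h5 : E5Stmt.{u})
    (h6 : E6Stmt.{u}) (h7 : OmStmt.{u}) : IsoStmt.{u} := fun F _ _ hF E i => by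
  obtain ⟨E', e⟩ := h1 E i
  obtain ⟨e2⟩ := h2 i E'
  obtain ⟨e3⟩ := h3 (E'.σ.comp E'.σ) fun r t => by
    rw [MonoidHom.comp_apply, E'.map, E'.map, π_π, ← pow_mul]
  have hc : CharP F 2 := by
    obtain ⟨p, hp, n, hn, h⟩ := FiniteField.card' F
    rw [hF] at h
    have : p ∣ 2 ^ 2 := by rw [show 2 ^ 2 = 4 from rfl, h]; exact dvd_pow_self p n.ne_zero
    obtain rfl := (Nat.prime_dvd_prime_iff_eq hn Nat.prime_two).1 (hn.dvd_of_dvd_pow this)
    exact hp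
  let _ : Algebra (ZMod 2) F := ZMod.algebra F 2
  let ι : F →+* K := (IsAlgClosed.lift : F →ₐ[ZMod 2] K).toRingHom
  obtain ⟨e5⟩ := h5 F ι
  obtain ⟨e7⟩ := (h7.2 F hF).2.2.2
  have e6 : D4g ι ⧸ Subgroup.center (D4g ι) ≃* D4g ι :=
    (QuotientGroup.quotientMulEquivOfEq (h6 F hF ι)).trans QuotientGroup.quotientBot
  exact ⟨(MulEquiv.subgroupCongr e.symm).trans (e2.trans (e3.trans
    ((MulEquiv.subgroupCongr (h4 F hF ι)).trans (e6.symm.trans (e5.symm.trans e7)))))⟩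

end Cfsg.Agent.H54.O84
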