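import Cfsg.Agent.H54.O84Defs
import Cfsg.Agent.H34.Lang2
import Cfsg.Agent.H34.Tori2

/-! S3384: the frames. -/

set_option autoImplicit false

namespace Cfsg.Agent.H54.O84

open Equiv Cfsg.Lie H37 H40 H34 H29 Cert

theorem exists_can' {u : Perm Rt} (hu : u ∈ C8.S.W) :
    ∃ n ∈ P8.N, P8.ν n = u ∧ C8.Can n u := by
  obtain ⟨n, h1, h2, h3, -⟩ := exists_can (C := C8) (k := K) (C8.S.WJ_univ.symm ▸ hu)
  exact ⟨n, h1, h2, h3⟩

theorem setupStmt : SetupStmt := by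
  let φ : K →+* K := frobenius K 2
  have hφ : ∀ t, φ t = t ^ 2 := fun t => frobenius_def _ _
  let ι : ZMod 2 →+* K := algebraMap (ZMod 2) K
  have hι : ∀ x, φ x = x ↔ ∃ y, ι y = x := fun x => by
    rw [hφ]
    simpa using mem_range_of_pow_card ι x
  obtain ⟨n, hn, -, hc⟩ := exists_can' w_mem
  obtain ⟨h, e⟩ := C8.lang_field le_rfl hφ n
  refine ⟨{
    σ := (MulAut.conj n).toMonoidHom.comp (C8.V.fieldHom φ)
    map := fun r t => ?_
    mapH := fun g hg => Split.conj_mem_H hn ((C8.fieldTw φ).mapH g hg)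
    j := (MulAut.conj h⁻¹).toMonoidHom.comp (C8.V.fieldHom ι)
    inj := (MulAut.conj h⁻¹).injective.comp (C8.V.fieldHom_injective ι)
    fix := fun g => ?_ }⟩
  · show n * C8.V.fieldHom φ (C8.V.xE K r t) * n⁻¹ = _
    rw [C8.V.fieldHom_xE, hφ]
    exact hc r _
  · refine (fix_conj_iff (C8.V.fieldHom φ) e g).symm.trans ⟨fun hg => ?_, ?_⟩
    · have := C8.pow_mem_range hι (q := 2) one_le_two hφ (e := 0) (fun c _ => pow_zero c) hg
      obtain ⟨y, hy⟩ := this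
      exact ⟨y, by simp [hy, mul_assoc]⟩
    · rintro ⟨y, rfl⟩
      have := C8.range_le_fix hι ⟨y, rfl⟩
      have h2 : C8.V.fieldHom φ (C8.V.fieldHom ι y) = C8.V.fieldHom ι y := this
      simpa [mul_assoc] using h2

theorem moveStmt : MoveStmt := fun F i => by
  obtain ⟨n, hn, hν, hc⟩ := exists_can' (v_mem i)
  refine ⟨{
    σ := ((MulAut.conj n⁻¹).toMonoidHom.comp F.σ).comp (MulAut.conj n).toMonoidHom
    map := fun r t => ?_
    mapH := fun g hg => Split.conj_mem_H (inv_mem hn) (F.mapH _ (Split.conj_mem_H hn hg))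
    j := (MulAut.conj n⁻¹).toMonoidHom.comp F.j
    inj := (MulAut.conj n⁻¹).injective.comp F.inj
    fix := fun g => ?_ }, ?_⟩
  · show n⁻¹ * F.σ (n * C8.xg K r t * n⁻¹) * n⁻¹⁻¹ = _
    rw [hc, F.map, hc.inv, π, Perm.mul_apply, Perm.mul_apply]
  · show n⁻¹ * F.σ (n * g * n⁻¹) * n⁻¹⁻¹ = g ↔ _
    constructor
    · intro hg
      obtain ⟨y, hy⟩ := (F.fix (n * g * n⁻¹)).1 (by
        calc _ = n * (n⁻¹ * F.σ (n * g * n⁻¹) * n⁻¹⁻¹) * n⁻¹ := by group
          _ = _ := by rw [hg])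
      exact ⟨y, by simp [hy, mul_assoc]⟩
    · rintro ⟨y, rfl⟩
      simp [mul_assoc, F.σ_j]
  · ext g
    show n⁻¹ * F.j g * n⁻¹⁻¹ ∈ P8.U Ψ0 ↔ F.j g ∈ P8.U (v i '' Ψ0)
    rw [inv_inv]
    constructor
    · intro hg
      have := Split.conj_U (A' := v i '' Ψ0) hn (fun r hr => ⟨r, hr, by rw [hν]⟩) hg
      simpa [mul_assoc] using this
    · intro hg
      refine Split.conj_U' hn (fun r hr => ?_) hg
      obtain ⟨s, hs, rfl⟩ := hr
      rw [hν]; simpa using hs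

end Cfsg.Agent.H54.O84
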