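import Cfsg.Agent.H54.Qd
import Cfsg.Agent.H51.Thompson
import Cfsg.Agent.H82.Involves
import Cfsg.Agent.S2759
import Cfsg.Prelude.Def_ConjugacyFunctors

/-! The functors `Z` and `J_e`; no family of characteristic functors controls fusion in `Qd(p)`. -/

set_option autoImplicit false

namespace Cfsg.Agent.H54

open Subgroup

universe u

variable {p : ℕ}

/-- the centre as a functor -/
def zFun (Q : Type u) [Group Q] : Subgroup Q := center Q

theorem isCharPFunctor_zFun [Fact p.Prime] : IsCharPFunctor.{u} p zFun := by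
  refine ⟨fun Q _ _ hQ _ => (nontrivial_iff_ne_bot _).1 hQ.center_nontrivial,
    fun Q R _ _ _ _ φ => ?_⟩
  ext y
  obtain ⟨x, rfl⟩ := φ.surjective y
  rw [zFun, zFun, show φ x = φ.toMonoidHom x from rfl, mem_map_iff_mem φ.injective, mem_center_iff,
    mem_center_iff, φ.surjective.forall]
  refine forall_congr' fun g => ?_
  rw [show φ.toMonoidHom x = φ x from rfl, ← map_mul, ← map_mul, φ.injective.eq_iff]

theorem inducedFunctor_zFun {G : Type u} [Group G] :
    inducedFunctor (G := G) zFun = fun P => P ⊓ centralizer (P : Set G) := by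
  funext P
  ext x
  constructor
  · rintro ⟨y, hy, rfl⟩
    exact ⟨y.2, fun z hz => congrArg Subtype.val (mem_center_iff.1 hy ⟨z, hz⟩)⟩
  · rintro ⟨h1, h2⟩
    exact ⟨⟨x, h1⟩, mem_center_iff.2 fun z => Subtype.ext (h2 z z.2), rfl⟩

theorem isCharPFunctor_thompson [Fact p.Prime] {e : ℕ} (he : p ∣ e) :
    IsCharPFunctor.{u} p (thompsonSubgroup e) := by
  refine ⟨fun Q _ _ hQ _ h => ?_, fun Q R _ _ _ _ φ => H51.map_thompsonSubgroup_equiv e φ⟩
  rw [← H51.thompsonSubgroupOf_top] at h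
  obtain ⟨A, hA⟩ := H51.maxEA_nonempty e (⊤ : Subgroup Q)
  exact H51.sInf_maxEA_ne_bot (hQ.to_subgroup ⊤) top_ne_bot he
    (le_bot_iff.1 (((H51.sInf_maxEA_le hA).trans (H51.le_thompsonSubgroupOf hA)).trans h.le))

theorem not_familyControls_qd [Fact p.Prime] {X : Type u} [Group X] (φ : X ≃* qd p)
    {𝓦 : Set (∀ (Q : Type u) [Group Q], Subgroup Q)} (h𝓦 : ∀ W ∈ 𝓦, IsCharPFunctor.{u} p W) :
    ¬ FamilyControlsStrongFusionIn p ((fun W => inducedFunctor (G := X) W) '' 𝓦) ⊤ := by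
  have : Finite X := Finite.of_equiv _ φ.symm.toEquiv
  rintro ⟨T, -, hT, hi, h⟩
  rw [relIndex_top_right] at hi
  let S : Sylow p X := hT.toSylow hi
  have hS : (S : Subgroup X) = T := rfl
  obtain ⟨W, hWn, hWp, hWc⟩ := Aff.exists_selfCentralizing (p := p) φ
  have hWS : W ≤ T := hWp.le_sylow_of_normal S
  have hnt : Nontrivial T := (nontrivial_iff_ne_bot _).2 (Aff.sylow_ne_bot φ S)
  have key : ∀ V ∈ 𝓦, normalizer ((inducedFunctor (G := X) V T : Subgroup X) : Set X) =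
      normalizer (T : Set X) ∧ normalizer (T : Set X) ≠ ⊤ := fun V hV => by
    exact Aff.normalizer_characteristic φ S (V T) ((h𝓦 V hV).1 T hT hnt)
      (hTc := characteristic_iff_map_eq.2 fun ψ => (h𝓦 V hV).2 T T hT ψ)
  refine (Aff.normalizer_characteristic φ S ⊤ (top_ne_bot (α := Subgroup T))).2
    (eq_top_iff.2 fun g _ => ?_)
  obtain ⟨n, c, h0, h1, -, h3⟩ := h W g trivial hWS (by
    rintro _ ⟨w, hw, rfl⟩
    exact hWS (hWn.conj_mem w hw g))
  have hc : ∀ i, c i ∈ normalizer (T : Set X) := by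
    intro i
    induction i using Fin.induction with
    | zero => rw [h0]; exact one_mem _
    | succ i ih =>
      obtain ⟨_, ⟨V, hV, rfl⟩, h4⟩ := h1 i
      have := mul_mem ((key V hV).1 ▸ h4.2) ih
      rwa [inv_mul_cancel_right] at this
  have h5 : (c (Fin.last n))⁻¹ * g ∈ W := hWc (mem_centralizer_iff.mpr fun w hw => by
    calc w * ((c (Fin.last n))⁻¹ * g)
        = (c (Fin.last n))⁻¹ * (c (Fin.last n) * w * (c (Fin.last n))⁻¹) * g := by group
      _ = (c (Fin.last n))⁻¹ * (g * w * g⁻¹) * g := by rw [h3 w hw]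
      _ = _ := by group)
  have h6 := mul_mem (hc (Fin.last n)) (le_normalizer (hWS h5))
  rwa [mul_inv_cancel_left] at h6

/-- an `S₄`-free group of characteristic 2 is `S₃`-free -/
theorem perm_three_free {X : Type*} [Group X] [Finite X] {Q : Subgroup X} [Q.Normal]
    (hQ : IsPGroup 2 Q) (hc : centralizer (Q : Set X) ≤ Q)
    (h4 : ¬ Involves (Equiv.Perm (Fin 4)) X) : ¬ Involves (Equiv.Perm (Fin 3)) X := by
  intro h3
  obtain ⟨K, f, hf⟩ := H82.involves_iff.1 h3
  refine h4 (S2759.result.2 ⟨Q, hQ, ?_⟩)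
  have hK : K ≤ normalizer (Q : Set X) := by rw [normalizer_eq_top]; exact le_top
  refine H82.involves_of_ker_le ((QuotientGroup.mk' _).comp (inclusion hK)) f hf fun x hx => ?_
  have hxQ : (x : X) ∈ Q := hc (mem_subgroupOf.1 ((QuotientGroup.eq_one_iff (inclusion hK x)).1 hx))
  have key : ∀ σ : Equiv.Perm (Fin 3), σ ≠ 1 →
      ∃ τ, σ * τ * σ⁻¹ * τ⁻¹ ≠ 1 ∧ (σ * τ * σ⁻¹ * τ⁻¹) ^ 3 = 1 := by
    set_option maxRecDepth 10000 in decide
  by_contra hne
  obtain ⟨τ, h1, h2⟩ := key (f x) hne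
  obtain ⟨t, rfl⟩ := hf τ
  have h5 : ((x * t * x⁻¹ * t⁻¹ : K) : X) ∈ Q := by
    have := Q.mul_mem hxQ (‹Q.Normal›.conj_mem _ (Q.inv_mem hxQ) t)
    simpa [mul_assoc] using this
  obtain ⟨k, hk⟩ := hQ ⟨_, h5⟩
  have h6 : (x * t * x⁻¹ * t⁻¹ : K) ^ 2 ^ k = 1 := 
    Subtype.ext (congrArg (fun y : Q => (y : X)) hk)
  have h7 := congrArg f h6
  simp only [map_pow, map_mul, map_inv, map_one] at h7
  exact h1 (orderOf_eq_one_iff.1 (Nat.eq_one_of_dvd_coprimes (Nat.Coprime.pow_right k (by decide))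
    (orderOf_dvd_of_pow_eq_one h2) (orderOf_dvd_of_pow_eq_one h7)))

end Cfsg.Agent.H54
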