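import Cfsg.Agent.H54.FFOne
import Cfsg.Agent.H54.PairCtl
import Cfsg.Agent.H54.AbRes
import Cfsg.Agent.H56.Short

/-! For odd `p` the centre and the join of the minimal centrally large subgroups of the Baumann
subgroup together control transfer. -/

set_option autoImplicit false

open scoped commutatorElement
open Subgroup Cfsg.Agent.H85

namespace Cfsg.Agent.H54

universe u

variable {G : Type*} [Group G] {p : ℕ}

section map

variable {G' : Type*} [Group G'] {f : G →* G'} (hf : Function.Injective f) {P X : Subgroup G}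
include hf

theorem cd_map_iff : CD (P.map f) (X.map f) ↔ CD P X := by
  have key : ∀ Y : Subgroup G, Nat.card (Y.map f) * Nat.card (cen (P.map f) (Y.map f)) =
      Nat.card Y * Nat.card (cen P Y) := fun Y => by
    rw [cen, ← H51.map_inf_centralizer hf, card_map_of_injective hf, card_map_of_injective hf]
  constructor
  · exact fun h => ⟨(map_le_map_iff_of_injective hf).1 h.le, fun Y hY => by
      rw [← key, ← key]; exact h.max _ (map_mono hY)⟩
  · refine fun h => ⟨map_mono h.le, fun Y hY => ?_⟩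
    rw [← map_comap_eq_self (hY.trans (map_le_range f P)), key, key]
    exact h.max _ (by rwa [← map_le_map_iff_of_injective hf,
      map_comap_eq_self (hY.trans (map_le_range f P))])

theorem mcl_map_iff : MCL (P.map f) (X.map f) ↔ MCL P X := by
  have key : ∀ Y : Subgroup G, cen (P.map f) (Y.map f) ≤ Y.map f ↔ cen P Y ≤ Y := fun Y => by
    rw [cen, ← H51.map_inf_centralizer hf, map_le_map_iff_of_injective hf]
  constructor
  · exact fun h => ⟨(cd_map_iff hf).1 h.cd, (key X).1 h.cen_le, fun Y h1 h2 h3 =>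
      map_injective hf (h.min _ (map_mono h1) ((cd_map_iff hf).2 h2) ((key Y).2 h3))⟩
  · refine fun h => ⟨(cd_map_iff hf).2 h.cd, (key X).2 h.cen_le, fun Y h1 h2 h3 => ?_⟩
    obtain ⟨Y, rfl⟩ : ∃ Y' : Subgroup G, Y'.map f = Y :=
      ⟨_, map_comap_eq_self (h1.trans (map_le_range f X))⟩
    rw [h.min Y ((map_le_map_iff_of_injective hf).1 h1) ((cd_map_iff hf).1 h2) ((key Y).1 h3)]

theorem map_sSup_mcl : (sSup {R | MCL P R}).map f = sSup {R | MCL (P.map f) R} := by
  rw [H51.map_sSup']
  congr 1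
  ext R
  constructor
  · rintro ⟨R, hR, rfl⟩
    exact (mcl_map_iff hf).2 hR
  · intro hR
    have e := map_comap_eq_self ((MCL.cd hR).le.trans (map_le_range f P))
    exact ⟨R.comap f, (mcl_map_iff hf).1 (e.symm ▸ hR), e⟩

end map

/-- the join of the minimal centrally large subgroups of the Baumann subgroup -/
def kFun (p : ℕ) (Q : Type u) [Group Q] : Subgroup Q :=
  sSup {R | MCL (baumannSubgroupOf p (⊤ : Subgroup Q)) R}

theorem isCharPFunctor_kFun [Fact p.Prime] : IsCharPFunctor.{u} p (kFun p) := by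
  refine ⟨fun Q _ _ hQ _ h => ?_, fun Q R _ _ _ _ φ => ?_⟩
  · obtain ⟨R, hR⟩ := exists_mcl (baumannSubgroupOf p (⊤ : Subgroup Q))
    have h1 : R = ⊥ := le_bot_iff.1 ((le_sSup hR).trans h.le)
    obtain ⟨A, hA⟩ := H51.maxEA_nonempty p (⊤ : Subgroup Q)
    refine H51.sInf_maxEA_ne_bot (hQ.to_subgroup ⊤) top_ne_bot dvd_rfl (le_bot_iff.1
      (((sInf_le hA).trans (le_baumann_of_mem hA)).trans (le_trans ?_ (hR.cen_le.trans h1.le))))
    rw [h1]
    exact le_inf le_rfl (le_centralizer_iff.1 bot_le)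
  · rw [kFun, map_sSup_mcl φ.injective, map_baumann φ.injective,
      map_top_of_surjective _ φ.surjective, kFun]

theorem inducedFunctor_kFun {G : Type u} [Group G] (P : Subgroup G) :
    inducedFunctor (kFun p) P = sSup {R | MCL (baumannSubgroupOf p P) R} := by
  rw [inducedFunctor, kFun, map_sSup_mcl P.subtype_injective, map_baumann P.subtype_injective,
    ← MonoidHom.range_eq_map, range_subtype]

variable [Finite G] [Fact p.Prime]

theorem inf_resOf_le {S N : Subgroup G} [N.Normal] (hS : IsPGroup p S) :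
    S ⊓ resOf p N ≤ ⁅N, N⁆ := by
  set π := QuotientGroup.mk' ⁅N, N⁆
  have h1 : (Nat.card (resOf p (N.map π))).Coprime p := by
    rw [card_map_of_injective (subtype_injective _)]
    refine pResidual_coprime ?_
    rintro ⟨_, x, hx, rfl⟩ ⟨_, y, hy, rfl⟩ - -
    refine Subtype.ext (commutatorElement_eq_one_iff_mul_comm.1 ?_)
    exact (map_commutatorElement π x y).symm.trans
      ((QuotientGroup.eq_one_iff _).2 (commutator_mem_commutator hx hy))
  rw [← QuotientGroup.ker_mk' ⁅N, N⁆, ← Subgroup.map_eq_bot_iff, eq_bot_iff,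
    ← H56.inf_eq_bot_of_coprime h1 (hS.map π)]
  exact (map_inf_le _ _ _).trans (inf_le_inf_left _ (map_resOf_le _ _))

theorem inf_commutator_le_of_sup_top {S N K : Subgroup G} [N.Normal] (hS : IsSyl p S ⊤)
    (hSK : S ≤ K) (h : N ⊔ K = ⊤) :
    S ⊓ ⁅(⊤ : Subgroup G), ⊤⁆ ≤ S ⊓ ⁅N, N⁆ ⊔ S ⊓ ⁅K, K⁆ := by
  have := resOf_normal p N
  set π := QuotientGroup.mk' (resOf p N)
  have h1 : K.map π = ⊤ := by
    have h0 : resOf p N ⊔ K = ⊤ := by
      rw [← sup_eq_right.2 ((inf_le_left : S ⊓ N ≤ S).trans hSK), ← sup_assoc,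
        (hS.inf_of_le_normalizer (N := N) le_top le_normalizer_of_normal).resOf_sup, h]
    rw [← map_top_of_surjective _ (QuotientGroup.mk'_surjective (resOf p N)), ← h0,
      Subgroup.map_sup (resOf p N), (Subgroup.map_eq_bot_iff (resOf p N)).2
      (QuotientGroup.ker_mk' _).ge, bot_sup_eq]
  intro x hx
  have h2 : π x ∈ (S ⊓ ⁅K, K⁆).map π := by
    rw [H56.map_inf_commutator_of_isSyl π (hS.of_le hSK le_top), h1,
      ← map_top_of_surjective _ (QuotientGroup.mk'_surjective (resOf p N)),
      ← H56.map_inf_commutator_of_isSyl π hS]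
    exact mem_map_of_mem π hx
  obtain ⟨y, hy, e⟩ := h2
  have h3 : x * y⁻¹ ∈ S ⊓ resOf p N := ⟨S.mul_mem hx.1 (S.inv_mem hy.1),
    (QuotientGroup.eq_one_iff _).1 (show π _ = 1 by rw [map_mul, map_inv, e, mul_inv_cancel])⟩
  rw [← inv_mul_cancel_right x y]
  exact mul_mem_sup ⟨h3.1, inf_resOf_le hS.isPGroup h3⟩ hy

/-- the focal subgroup of a product of a normal subgroup and an overgroup of a Sylow subgroup -/
theorem inf_commutator_le_of_sup {S N K H : Subgroup G} (hS : IsSyl p S H)
    (hn : H ≤ normalizer (N : Set G)) (hSK : S ≤ K) (h : N ⊔ K = H) :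
    S ⊓ ⁅H, H⁆ ≤ S ⊓ ⁅N, N⁆ ⊔ S ⊓ ⁅K, K⁆ := by
  have hN : N ≤ H := le_sup_left.trans h.le
  have hK : K ≤ H := le_sup_right.trans h.le
  have := (normal_subgroupOf_iff_le_normalizer hN).2 hn
  have h1 := map_mono (f := H.subtype) (inf_commutator_le_of_sup_top (N := N.subgroupOf H)
    (K := K.subgroupOf H) (isSyl_top hS.toSylow) (comap_mono hSK)
    (by rw [← subgroupOf_sup hN hK, h, subgroupOf_self]))
  simp only [Subgroup.map_sup, map_inf _ _ _ H.subtype_injective, map_commutator,
    hS.map_toSylow, map_subgroupOf_eq_of_le hN, map_subgroupOf_eq_of_le hK] at h1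
  rwa [← MonoidHom.range_eq_map, range_subtype] at h1

theorem pair_char : ∀ W ∈ ({@zFun, @kFun p} : Set (∀ (Q : Type u) [Group Q], Subgroup Q)),
    IsCharPFunctor.{u} p W := by
  rintro _ (rfl | rfl)
  exacts [isCharPFunctor_zFun, isCharPFunctor_kFun]

/-- The pair `Z`, `K` controls transfer for odd primes. -/
theorem trCtl_pair (hp : p ≠ 2) (X : Type u) [Group X] [Finite X] :
    H56.TrCtl p {@zFun, @kFun p} X := by
  induction hn : Nat.card X using Nat.strong_induction_on generalizing X with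
  | _ n ih0 =>
  have ih : ∀ (Y : Type u) [Group Y], H56.IsSec Y X → Nat.card Y < Nat.card X →
      H56.TrCtl p {@zFun, @kFun p} Y := fun Y _ hY hlt =>
    have := hY.finite
    ih0 _ (hn ▸ hlt) Y rfl
  by_contra hX
  obtain ⟨S, hS⟩ := exists_isSyl p (⊤ : Subgroup X)
  obtain ⟨hC, -, hnn, ⟨hM, hM'⟩, -, hsh⟩ :=
    H56.minimal_failure pair_char ⟨_, Or.inl rfl⟩ ih hX hS rfl rfl
  generalize (normalizer _ : Subgroup X) = M at hM hM'
  have hZ := hnn _ (Or.inl rfl)
  have hK := hnn _ (Or.inr rfl)
  rw [inducedFunctor_zFun] at hZ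
  rw [inducedFunctor_kFun] at hK
  have hSM : S ≤ M := hM' S le_rfl fun h => hZ (h ▸ inferInstance)
  have h : PMin p S M ⊤ := ⟨hS, fun h => hZ (H85.normal_of_top_le_normalizer
    (h.trans (H51.normalizer_le_normalizer_inf_centralizer S))), hSM, hM.lt_top,
    fun K h1 h2 => hM' K h1 h2.ne⟩
  have hQS : pCore p X ≤ S := pCore_le_sylow hS.toSylowTop
  set N := normalClosure (baumannSubgroupOf p S : Set X) ⊔ pCore p X with hN
  by_cases hgen : N = ⊤
  · obtain ⟨u, hu, huQ, hq⟩ := exists_quadratic_of_baumann hp h hC hZ hK hgen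
    refine hsh u hu huQ fun U V hUV hU => le_trans ?_ (hq U V hUV hU)
    have := hUV.2.1
    have h2 := (Fact.out : p.Prime).two_le
    exact iterCommutator_antitone le_normalizer_of_normal (show 2 ≤ p - 1 by omega)
  have hBN : baumannSubgroupOf p S ≤ S ⊓ N := le_inf inf_le_left (le_normalClosure.trans le_sup_left)
  have hB := baumann_eq_of_le hBN inf_le_left
  have hNQ : ¬ S ⊓ N ≤ pCore p X := fun h' => hK (by
    rw [← baumann_eq_of_le (hBN.trans h') hQS]
    exact H85.normal_of_top_le_normalizer ((le_normalizer_of_normal.trans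
      (normalizer_le_normalizer_baumann _)).trans (normalizer_le_normalizer_mcl _)))
  have hNS := (h.le_or_sup_eq (le_top : N ≤ ⊤)).resolve_left fun h' =>
    hNQ ((h.inf_le_pCoreOf h' le_normalizer_of_normal).trans (pCoreOf_top p).le)
  have hprop := H56.trCtl_proper pair_char ih hS
  have hSN := hS.inf_of_le_normalizer (N := N) le_top le_normalizer_of_normal
  refine hX ((H56.trCtl_iff pair_char hS).2 ((inf_commutator_le_of_sup_top hS le_rfl hNS).trans
    (sup_le ?_ (hprop S le_rfl fun h' => hM (top_le_iff.1 (h'.ge.trans hSM))))))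
  refine ((le_inf (inf_le_inf_left S (commutator_le_self N)) inf_le_right).trans
    ((ih N (H56.isSec_subgroup N) (H56.card_lt_of_ne_top hgen)).subgroup pair_char hSN)).trans ?_
  rw [H56.famTr_indFam]
  refine iSup₂_le fun W hW => le_trans (inf_le_inf inf_le_left (commutator_mono inf_le_right
    inf_le_right)) (hprop _ ((H85.le_normalizer_inf le_normalizer le_normalizer_of_normal).trans
      (H56.functor_normalizer (H56.isConjugacyFunctor_induced (pair_char W hW) X) hSN.isPGroup))
    fun h' => ?_)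
  have hWn := normalizer_eq_top_iff.1 h'
  rcases hW with rfl | rfl
  · rw [inducedFunctor_zFun] at hWn
    have h1 := (h.le_or_sup_eq (le_top : centralizer ((cen (S ⊓ N) (S ⊓ N) : Subgroup X) : Set X)
      ≤ ⊤)).resolve_left fun h'' => hNQ ((le_inf inf_le_left (le_centralizer_iff.1 inf_le_right)).trans
        ((h.inf_le_pCoreOf h'' le_normalizer_of_normal).trans (pCoreOf_top p).le))
    refine hZ (H85.normal_of_top_le_normalizer (h1.ge.trans (le_normalizer_of_cent (sup_le
      (H53.centralizer_anti (le_inf (le_inf inf_le_left ?_) (inf_le_right.trans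
        (H53.centralizer_anti inf_le_left)))) (le_centralizer_iff.1 inf_le_right)))))
    exact ((inf_le_right.trans (H53.centralizer_anti hQS)).trans hC).trans le_sup_right
  · rw [inducedFunctor_kFun, hB] at hWn
    exact hK hWn

/-- `S ∩ G' = (S ∩ C(Z(S))') (S ∩ N(K(S))')` -/
theorem inf_commutator_le_pair (hp : p ≠ 2) {X : Type u} [Group X] [Finite X] {S : Subgroup X}
    (hS : IsSyl p S ⊤) : S ⊓ ⁅(⊤ : Subgroup X), ⊤⁆ ≤
      S ⊓ ⁅centralizer ((cen S S : Subgroup X) : Set X), centralizer ((cen S S : Subgroup X) : Set X)⁆ ⊔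
      S ⊓ ⁅normalizer ((inducedFunctor (kFun p) S : Subgroup X) : Set X),
        normalizer ((inducedFunctor (kFun p) S : Subgroup X) : Set X)⁆ := by
  refine ((H56.trCtl_iff pair_char hS).1 (trCtl_pair hp X)).trans ?_
  rw [H56.famTr_indFam]
  refine iSup₂_le ?_
  rintro _ (rfl | rfl)
  · rw [inducedFunctor_zFun, top_inf_eq]
    have hSC : S ≤ centralizer ((cen S S : Subgroup X) : Set X) := le_centralizer_iff.1 inf_le_right
    have hn := H85.normalizer_le_normalizer_centralizer (cen S S)
    have h1 := (hS.of_le hSC le_top).frattini (centralizer_le_normalizer _) hn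
    have h2 := H56.functor_normalizer (H56.isConjugacyFunctor_induced
      (isCharPFunctor_kFun (p := p)) X) hS.isPGroup
    exact (inf_commutator_le_of_sup (hS.of_le (hSC.trans (centralizer_le_normalizer _)) le_top) hn
      (le_inf (hSC.trans (centralizer_le_normalizer _)) le_normalizer) h1).trans (sup_le_sup_left
        (inf_le_inf_left _ (commutator_mono (inf_le_right.trans h2) (inf_le_right.trans h2))) _)
  · rw [top_inf_eq]
    exact le_sup_right

end Cfsg.Agent.H54
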