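import Cfsg.Agent.H36.O8T2
import Cfsg.Agent.H15.O8H
import Cfsg.Agent.H92.UL3
import Cfsg.Prelude.Def_KGroupFacts
import Cfsg.Prelude.Def_Quasithin

/-!
# Standard subgroups of type `²F₄(q)`, `q ≥ 8`: definitions

Definitions and interface propositions only; the paper proofs are in `stubs/notes/h54_rf.md`.
`L = M.X` for a frame `M`, `K₄ = M.cf.C`; the rays are numbered mod `16`, `n1 : i ↦ 10 - i`,
`n8 : i ↦ 8 - i`.  `p`, `r` and their Weyl conjugates `Pᵢ` double the root elements `xᵢ`.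
-/

set_option autoImplicit false

namespace Cfsg.Agent.H54.RF

open Cfsg Cfsg.Agent.H15.O8 Cfsg.Agent.H39 Cfsg.Agent.H36.O8T Subgroup
open Cfsg.Agent.H83 (IsSylowIn)
open scoped commutatorElement

universe u v

section Defs

variable {K : Type v} [Field K] {T : Tits K} {G : Type u} [Group G] (M : FF T G) (t : G)

/-- Elements of odd order centralizing `L` and `t`. -/
def Od (k : G) : Prop := k ∈ centralizer (M.X : Set G) ∧ Commute k t ∧ Odd (orderOf k)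

/-- The setting. -/
structure Ctx : Prop where
  q8 : 8 ≤ Nat.card K
  aut : Odd (Nat.card (RingAut K))
  tt : t * t = 1
  t1 : t ≠ 1
  tL : t ∈ centralizer (M.X : Set G)
  ct : ∀ g, Commute g t → g ∈ normalizer (M.X : Set G)
  two : ∀ g ∈ normalizer (M.X : Set G), Two g → g ∈ M.X ⊔ centralizer (M.X : Set G)
  cyc : ∀ P : Subgroup G, P ≤ centralizer (M.X : Set G) → IsPGroup 2 P → IsCyclic P
  simple : IsSimpleGroup M.X
  zl : ∀ g ∈ M.X, g ∈ centralizer (M.X : Set G) → g = 1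
  syl : IsSylowIn 2 M.φ.range M.X

/-- The setting, with `⟨t⟩` a Sylow subgroup of `C(L)`. -/
structure Ctx2 : Prop extends Ctx M t where
  r2 : ∀ k ∈ centralizer (M.X : Set G), Commute k t → Two k → k = 1 ∨ k = t

/-- An element moving `t` inside `t Z`. -/
def S1 (g : G) : Prop := g ∈ normalizer (M.φ.range : Set G) ∧ g ∈ normalizer (M.cf.C : Set G) ∧
  ∃ a, a ≠ 0 ∧ g * t * g⁻¹ = t * M.φ (x4 T a)

/-- A `2`-element moving `t` inside `t Z`. -/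
structure S2 (g : G) : Prop where
  s1 : S1 M t g
  two : Two g
  odd : ∀ k, Od M t k → Commute g k
  tor : ∀ b, Commute g (M.h (1, b))
  cz : ∀ a, Commute g (M.φ (x4 T a))

/-- The family before the vanishing of the cocycle `c`. -/
structure Pre (p : K → G) (c : K) : Prop where
  zero : p 0 = 1
  mov : ∀ a, p a * t * (p a)⁻¹ = t * M.φ (x4 T a)
  cq : ∀ a, ∀ u ∈ Q T, u.b4 = 0 → Commute (p a) (M.φ u)
  y4 : ∀ a u, p (T.θ a) * M.φ (y4 T (T.θ u)) * (p (T.θ a))⁻¹ =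
    M.φ (y4 T (T.θ u) * x4 T (c * a * u))
  x8 : ∀ a u, p (T.θ a) * M.φ (x8 T (T.θ u)) * (p (T.θ a))⁻¹ =
    M.φ (x8 T (T.θ u) * x6 T (c * a * u))
  nK : ∀ a, p a ∈ normalizer (M.cf.C : Set G)
  odd : ∀ a k, Od M t k → Commute (p a) k
  tor : ∀ (d : Kˣ × Kˣ) a, M.h d * p a * (M.h d)⁻¹ = p (d.1 * T.θ d.1 * a)
  c46 : ∀ a b, Commute (p a) (M.n1 * p b * M.n1)
  add : ∀ a b, ∃ z, p a * p b = p (a + b) * M.φ (x4 T z)
  n8 : ∀ a, ∃ z, M.n8 * p a * M.n8 = p a * M.φ (x4 T z)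

variable (p r : K → G)

def P6 (a : K) : G := M.n1 * p a * M.n1
def P2 (a : K) : G := M.n8 * P6 M p a * M.n8
def P8 (a : K) : G := M.n1 * P2 M p a * M.n1
def P3 (a : K) : G := M.n8 * r a * M.n8
def P7 (a : K) : G := M.n1 * P3 M r a * M.n1
def P1 (a : K) : G := M.n8 * P7 M r a * M.n8

/-- The doubled centre. -/
structure H4 : Prop where
  add : ∀ a b, p (a + b) = p a * p b
  mov : ∀ a, p a * t * (p a)⁻¹ = t * M.φ (x4 T a)
  cen : ∀ a, ∀ k ∈ M.cf.C, Commute (p a) k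
  odd : ∀ a k, Od M t k → Commute (p a) k
  tor : ∀ (d : Kˣ × Kˣ) a, M.h d * p a * (M.h d)⁻¹ = p (d.1 * T.θ d.1 * a)
  c46 : ∀ a b, Commute (p a) (P6 M p b)
  line : ∀ a u, M.φ (x1 T a) * P6 M p u * (M.φ (x1 T a))⁻¹ = P6 M p u * p (a * u)

/-- The doubled group `V`. -/
def Vh : Subgroup G :=
  closure {g | ∃ k ∈ M.cf.C, ∃ a, g = k * P6 M p a * k⁻¹} ⊔ (V T).map M.φ

/-- Facts on the doubled group `V`. -/
structure VH : Prop where
  sq : ∀ g ∈ Vh M p, g * g = 1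
  fix : ∀ g ∈ Vh M p, Commute g t → ∃ v ∈ V T, g = M.φ v
  mov : ∀ g ∈ Vh M p, ∃ v ∈ V T, g * t * g⁻¹ = t * M.φ v
  sur : ∀ v ∈ V T, ∃ g ∈ Vh M p, g * t * g⁻¹ = t * M.φ v
  cD : ∀ g ∈ Vh M p, ∀ d ∈ D T, Commute g (M.φ d)
  odd : ∀ g ∈ Vh M p, ∀ k, Od M t k → Commute g k
  nK : ∀ k ∈ M.cf.C, ∀ g ∈ Vh M p, k * g * k⁻¹ ∈ Vh M p
  nH : ∀ d, ∀ g ∈ Vh M p, M.h d * g * (M.h d)⁻¹ ∈ Vh M p
  pm : ∀ a, p a ∈ Vh M p
  qz : ∀ u ∈ Q T, ∀ g ∈ Vh M p, ∃ a b, M.φ u * g * (M.φ u)⁻¹ = g * p a * M.φ (x4 T b)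

/-- Both kinds of doubled root elements. -/
structure HR : Prop extends H4 M t p where
  radd : ∀ a b, r (a + b) = r a * r b
  rmov : ∀ a, r a * t * (r a)⁻¹ = t * M.φ (x5 T a)
  rcen : ∀ a, ∀ u ∈ Tc T, Commute (r a) (M.φ u)
  rn1 : ∀ a, Commute (r a) M.n1
  rodd : ∀ a k, Od M t k → Commute (r a) k
  rtor : ∀ (d : Kˣ × Kˣ) a, M.h d * r a * (M.h d)⁻¹ = r (d.1 * d.2 * a)
  ry2 : ∀ w a, M.φ (y2 T w) * r a * (M.φ (y2 T w))⁻¹ = r a * p (w * a)
  c45 : ∀ a b, Commute (p a) (r b)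
  c25 : ∀ a b, Commute (P2 M p a) (r b)
  c26 : ∀ a b, Commute (P2 M p a) (P6 M p b)
  c35 : ∀ a b, Commute (P3 M r a) (r b)

/-- The action of `U₈` on the doubled group `V`. -/
structure A1 (e : K) : Prop where
  x8P2 : ∀ u a, M.φ (x8 T u) * P2 M p a * (M.φ (x8 T u))⁻¹ =
    P2 M p a * p (T.θ a * u) * M.φ (x4 T (e * T.θ a * u)) * r (a * u) * P6 M p (a * T.θ u)
  x8P3 : ∀ u a, M.φ (x8 T u) * P3 M r a * (M.φ (x8 T u))⁻¹ = P3 M r a * P6 M p (a * u)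
  y8P3 : ∀ u a, M.φ (y8 T u) * P3 M r a * (M.φ (y8 T u))⁻¹ =
    P3 M r a * p (T.θ a * u) * M.φ (x4 T (e * T.θ a * u)) * r (a * T.θ u)
  y8P2 : ∀ u a, M.φ (y8 T u) * P2 M p a * (M.φ (y8 T u))⁻¹ =
    P2 M p a * P3 M r (a * u) * r (a * (u * T.θ u)) * P6 M p (a * u * (u * T.θ u))

/-- Commutators of doubled root elements. -/
structure Gm (e c ε : K) : Prop where
  g28 : ∀ a b, ⁅P2 M p a, P8 M p b⁆ = p ((1 + e) * T.θ a * b) * M.φ (x4 T (ε * T.θ a * b)) *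
    r (a * b) * M.φ (x5 T (c * a * b)) * P6 M p ((1 + e) * a * T.θ b) *
    M.φ (x6 T (ε * a * T.θ b))
  g27 : ∀ a b, ⁅P2 M p a, P7 M r b⁆ = p (a * b) * M.φ (x4 T (c * a * b))
  g37 : ∀ a b, Commute (P3 M r a) (P7 M r b)

/-- The action of `U₁` on `P₇`. -/
def A2 (e : K) : Prop := ∀ c b, M.φ (x1 T c) * P7 M r b * (M.φ (x1 T c))⁻¹ =
  P7 M r b * P3 M r (T.θ c * b) * r (c * T.θ b) * M.φ (x5 T (e * c * T.θ b))

/-- The commutator of `P₁` and `P₇`. -/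
def G17 (e δ : K) : Prop := ∀ a b, ⁅P1 M r a, P7 M r b⁆ = P3 M r ((1 + e) * T.θ a * b) *
  M.φ (x3 T (δ * T.θ a * b)) * r ((1 + e) * a * T.θ b) * M.φ (x5 T (δ * a * T.θ b))

/-- The doubled root element of the ray `1` with parameter `m + n s`, `s ^ 2 = s + c`. -/
def xh1 (m n : K) : G := M.φ (x1 T m) * P1 M r n

/-- The doubled root element of the ray `9`. -/
def xh9 (m n : K) : G := M.n1 * xh1 M r m n * M.n1

/-- The rank one relation for the unit `m + s`. -/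
def SL (c : K) : Prop := ∀ m d a, d * (m ^ 2 + m + c) = 1 →
  xh1 M r ((m + 1) * d) d * xh9 M r m 1 * xh1 M r ((m + 1) * d) d * M.φ (x1 T a) =
    xh9 M r (a * (m ^ 2 + c)) a * (xh1 M r ((m + 1) * d) d * xh9 M r m 1 * xh1 M r ((m + 1) * d) d)

/-- The doubled group. -/
def G0 : Subgroup G := M.X ⊔ closure (Set.range p)

/-- The centralizer of `t` and the doubled group. -/
structure Nrm : Prop where
  cn : ∀ g, Commute g t → g ∈ normalizer (G0 M p : Set G)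
  two : ∀ g, Commute g t → Two g → g ∈ M.X ⊔ zpowers t
  bound : ∀ P : Subgroup G, (∀ g ∈ P, Commute g t) → IsPGroup 2 P →
    Nat.card P ≤ 2 * Nat.card K ^ 12

end Defs

section Free

variable {K : Type v} [Field K] {G : Type u} [Group G]

/-- What the end needs. -/
structure End (N : Subgroup G) (t : G) : Prop where
  perf : ⁅N, N⁆ = N
  e2 : ∀ g, g * t * g⁻¹ ∉ N
  e3 : ∀ g, g * t * g⁻¹ * t ∈ N → ∃ x ∈ N, g * t * g⁻¹ = x * t * x⁻¹

/-- Root elements of `F₄` on the sixteen rays: `le k`, `se k` (long, short) on the ray `4 + 2 k`,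
`lo k`, `so k` on the ray `5 + 2 k`. -/
structure Oct (le lo se so : ZMod 8 → K → G) : Prop where
  two : (2 : K) = 0
  ne : le 0 1 ≠ 1
  ale : ∀ k a b, le k (a + b) = le k a * le k b
  alo : ∀ k a b, lo k (a + b) = lo k a * lo k b
  ase : ∀ k a b, se k (a + b) = se k a * se k b
  aso : ∀ k a b, so k (a + b) = so k a * so k b
  ee : ∀ k j, j = 0 ∨ j = 1 ∨ j = 2 → ∀ a b, Commute (le k a) (le (k + j) b) ∧
    Commute (le k a) (se (k + j) b) ∧ Commute (se k a) (le (k + j) b) ∧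
    Commute (se k a) (se (k + j) b)
  eo : ∀ k j, j = -2 ∨ j = 1 → ∀ a b, Commute (le k a) (lo (k + j) b) ∧
    Commute (le k a) (so (k + j) b) ∧ Commute (se k a) (lo (k + j) b) ∧
    Commute (se k a) (so (k + j) b)
  oo : ∀ k a b, Commute (lo k a) (so k b)
  mix : ∀ k j, j = 2 ∨ j = -3 → ∀ a b, Commute (le k a) (so (k + j) b) ∧
    Commute (se k a) (lo (k + j) b)
  l5u : ∀ k a b, ⁅le k a, lo (k + 2) b⁆ = le (k + 1) (a * b)
  l5d : ∀ k a b, ⁅le k a, lo (k - 3) b⁆ = le (k - 1) (a * b)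
  s5u : ∀ k a b, ⁅se k a, so (k + 2) b⁆ = se (k + 1) (a * b)
  s5d : ∀ k a b, ⁅se k a, so (k - 3) b⁆ = se (k - 1) (a * b)
  l6 : ∀ k a b, ⁅le k a, le (k + 3) b⁆ = lo (k + 1) (a * b)
  s6 : ∀ k a b, ⁅se k a, se (k + 3) b⁆ = so (k + 1) (a * b)
  lsu : ∀ k b a, ⁅le k b, se (k + 3) a⁆ = se (k + 1) (b * a) * le (k + 2) (b * a ^ 2)
  lsd : ∀ k b a, ⁅le k b, se (k - 3) a⁆ = se (k - 1) (b * a) * le (k - 2) (b * a ^ 2)

/-- The group generated by the root elements of the simple roots `lo 4, le 7, se 2, so 4` and of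
their negatives. -/
def Base (le lo se so : ZMod 8 → K → G) : Subgroup G :=
  closure (Set.range (lo 4) ∪ Set.range (lo 0) ∪ Set.range (le 7) ∪ Set.range (le 3) ∪
    Set.range (se 2) ∪ Set.range (se 6) ∪ Set.range (so 4) ∪ Set.range (so 0))

end Free

/-! ### Interfaces -/

/-- A statement about a frame in a finite group. -/
def FAll (P : ∀ {K : Type v} [Field K] {T : Tits K} {G : Type u} [Group G] (_ : FF T G) (_ : G),
    Prop) : Prop :=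
  ∀ {K : Type v} [Field K] [Finite K] {T : Tits K} {G : Type u} [Group G] [Finite G] (M : FF T G)
    (t : G), P M t

/-- **ST1** -/
def St1Stmt : Prop := FAll.{u, v} fun M t => Ctx M t →
  (∃ g, Commute (g * t * g⁻¹) t ∧ g * t * g⁻¹ ≠ t) → Ctx2 M t ∧ ∃ g, S1 M t g

/-- **ST2A** -/
def St2aStmt : Prop := FAll.{u, v} fun M t => Ctx2 M t → ∀ g, S1 M t g → ∃ g, S2 M t g

/-- **ST2B** (inside the unipotent group) -/
def St2bStmt : Prop :=
  ∀ {K : Type v} [Field K] [Finite K] (T : Tits K), 8 ≤ Nat.card K → ∀ β : MulAut (U T),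
    (∃ k : ℕ, β ^ 2 ^ k = 1) → (∀ b u, β (tor T (1, b) u) = tor T (1, b) (β u)) →
    (∀ a, β (x4 T a) = x4 T a) → ∃ ρ e, ∀ γ, γ = β * MulAut.conj (y4 T ρ) →
      (∀ u ∈ Q T, u.b4 = 0 → γ u = u) ∧
      (∀ u, γ (y4 T (T.θ u)) = y4 T (T.θ u) * x4 T (e * u)) ∧
      ∀ u, γ (x8 T (T.θ u)) = x8 T (T.θ u) * x6 T (e * u)

/-- **PRE** -/
def PreStmt : Prop := St2bStmt.{v} → FAll.{u, v} fun M t => Ctx2 M t → ∀ g, S2 M t g →
  ∃ p c, Pre M t p c

/-- **CZERO** -/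
def CzeroStmt : Prop := FAll.{u, v} fun M t => Ctx2 M t → ∀ p c, Pre M t p c → c = 0

/-- **HAT4** -/
def Hat4Stmt : Prop := FAll.{u, v} fun M t => Ctx2 M t → ∀ p, Pre M t p 0 → H4 M t p

/-- **VHAT** -/
def VhatStmt : Prop := FAll.{u, v} fun M t => Ctx2 M t → ∀ p, H4 M t p → VH M t p

/-- **P5** -/
def P5Stmt : Prop := FAll.{u, v} fun M t => Ctx2 M t → ∀ p, H4 M t p → VH M t p →
  ∃ r, HR M t p r ∧ ∀ a, r a ∈ Vh M p

/-- **ACT** -/
def ActStmt : Prop := FAll.{u, v} fun M t => Ctx2 M t → ∀ p r, HR M t p r → VH M t p →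
  (∀ a, r a ∈ Vh M p) → ∃ e, A1 M p r e

/-- **NORM** -/
def NormStmt : Prop := FAll.{u, v} fun M t => Ctx2 M t → ∀ p r e, HR M t p r → A1 M p r e →
  ∃ p' r' e', HR M t p' r' ∧ A1 M p' r' e' ∧ (e' = 0 ∨ e' = 1)

/-- A statement about the doubled root elements. -/
def HAll (P : ∀ {K : Type v} [Field K] {T : Tits K} {G : Type u} [Group G] (_ : FF T G) (_ : G)
    (_ _ : K → G) (_ : K), Prop) : Prop :=
  FAll.{u, v} fun M t => Ctx2 M t → ∀ p r e, HR M t p r → A1 M p r e → P M t p r e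

/-- **GAM** -/
def GamStmt : Prop := HAll.{u, v} fun M _ p r e => ∃ c ε, Gm M p r e c ε

/-- **ACT2** -/
def Act2Stmt : Prop := HAll.{u, v} fun M _ p r e => ∀ c ε, Gm M p r e c ε → A2 M r e

/-- **G17** -/
def G17Stmt : Prop := HAll.{u, v} fun M _ p r e => ∀ c ε, Gm M p r e c ε → A2 M r e →
  ∃ δ, G17 M r e δ

/-- **SL2** -/
def Sl2Stmt : Prop := HAll.{u, v} fun M _ p r e => ∀ c ε, Gm M p r e c ε → SL M r c

/-- **CZ** -/
def CzStmt : Prop := HAll.{u, v} fun {_} _ {T} _ _ M _ p r e => ∀ c ε δ, Gm M p r e c ε →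
  A2 M r e → G17 M r e δ → SL M r c → c = e + T.θ e

/-- **EPS** -/
def EpsStmt : Prop := HAll.{u, v} fun M _ p r e => e = 0 ∨ e = 1 → ∀ ε, Gm M p r e 0 ε →
  A2 M r e → ε = 0

/-- **NRM** -/
def NrmStmt : Prop := FAll.{u, v} fun M t => Ctx2 M t → ∀ p, H4 M t p → Nrm M t p

/-- **WRE**: the wreath case. -/
def WreStmt : Prop := HAll.{u, v} fun M t p r e => e = 0 → Gm M p r 0 0 0 → Nrm M t p →
  ∀ {S : Type v} [Group S], Nonempty (M.X ≃* S) → HasCyclicSchurMultiplier S 1 →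
    Nonempty (G0 M p ≃* S × S) ∧ End (G0 M p) t

/-- **OCT**: the case of `F₄`. -/
def OctStmt : Prop := HAll.{u, v} fun {K} _ _ {G} _ M _ p r e => e = 1 → Gm M p r 1 0 0 →
  ∃ le lo se so : ZMod 8 → K → G, Oct le lo se so ∧ Base le lo se so = G0 M p

/-- **END** (type free) -/
def EndStmt : Prop :=
  ∀ {G : Type u} [Group G] [Finite G] (N : Subgroup G) (t : G), t * t = 1 →
    (∀ g, Commute g t → g ∈ normalizer (N : Set G)) →
    (∀ g, Commute g t → Two g → g ∈ N ⊔ zpowers t) → End N t →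
    N ≤ oddGenerated (⊤ : Subgroup G) ∧ Odd (N.relIndex (oddGenerated (⊤ : Subgroup G)))

end Cfsg.Agent.H54.RF
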