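import Cfsg.Agent.H54.RfKitU

/-! # Standard subgroups of type `²F₄(q)`: basic facts on the centralizer of `t` -/

set_option autoImplicit false
set_option linter.unusedSimpArgs false
set_option linter.unnecessarySeqFocus false
set_option linter.unusedSectionVars false

namespace Cfsg.Agent.H54.RF

open Cfsg Cfsg.Agent.H15.O8 Cfsg.Agent.H39 Cfsg.Agent.H36.O8T Subgroup
open Cfsg.Agent.H83 (IsSylowIn cj)
open scoped commutatorElement

variable {K : Type*} [Field K] {T : Tits K} {G : Type*} [Group G]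

/-! ### Group theory -/

theorem two_odd [Finite G] (g : G) : ∃ a ∈ zpowers g, ∃ b ∈ zpowers g, Two a ∧ Odd (orderOf b) ∧
    g = a * b := by
  obtain ⟨k, m, hm, e⟩ := Nat.exists_eq_two_pow_mul_odd (orderOf_pos g).ne'
  obtain ⟨a, b, hab⟩ := Nat.isCoprime_iff_coprime.2
    (Nat.Coprime.pow_left k (Nat.coprime_two_left.2 hm))
  have h1 : g ^ ((2 ^ k * m : ℕ) : ℤ) = 1 := by rw [zpow_natCast, ← e, pow_orderOf_eq_one]
  refine ⟨g ^ (b * m), zpow_mem_zpowers _ _, g ^ (a * (2 ^ k : ℕ)), zpow_mem_zpowers _ _,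
    ⟨k, ?_⟩, hm.of_dvd_nat (orderOf_dvd_of_pow_eq_one ?_), ?_⟩
  · rw [← zpow_natCast, ← zpow_mul, show b * m * (2 ^ k : ℕ) = ((2 ^ k * m : ℕ) : ℤ) * b by
      push_cast; ring, zpow_mul, h1, one_zpow]
  · rw [← zpow_natCast, ← zpow_mul, show a * (2 ^ k : ℕ) * m = ((2 ^ k * m : ℕ) : ℤ) * a by
      push_cast; ring, zpow_mul, h1, one_zpow]
  · rw [← zpow_add, add_comm, hab, zpow_one]

theorem eq_one_of_odd {g : G} (h : Odd (orderOf g)) (h2 : Two g) : g = 1 := by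
  obtain ⟨k, e⟩ := h2
  exact orderOf_eq_one_iff.1 (Nat.eq_one_of_dvd_coprimes
    (Nat.Coprime.pow_right k (Nat.coprime_two_right.2 h)) dvd_rfl (orderOf_dvd_of_pow_eq_one e))

theorem eq_one_of_odd_sq {g : G} (h : Odd (orderOf g)) (h2 : g * g = 1) : g = 1 :=
  eq_one_of_odd h (two_of_sq h2)

theorem comm_of_zpowers {g a x : G} (h : a ∈ zpowers g) (hx : Commute g x) : Commute a x := by
  obtain ⟨k, rfl⟩ := h
  exact hx.zpow_left k

theorem conj_eq_iff {g a : G} : g * a * g⁻¹ = a ↔ Commute g a := mul_inv_eq_iff_eq_mul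

theorem comm_conj {a b : G} (h : Commute a b) (g : G) : Commute (g * a * g⁻¹) (g * b * g⁻¹) :=
  h.map (MulAut.conj g)

theorem comm_conj' {a b n : G} (hn : n * n = 1) (h : Commute a b) :
    Commute (n * a * n) (n * b * n) := by
  have := comm_conj h n
  rwa [inv_eq_of_mul_eq_one_right hn] at this

theorem conj_mul' {n : G} (hn : n * n = 1) (a b : G) :
    n * (a * b) * n = n * a * n * (n * b * n) := by
  calc _ = n * a * (n * n) * b * n := by rw [hn]; group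
    _ = _ := by group

theorem conj_inv' {n : G} (hn : n * n = 1) (a : G) : n * a⁻¹ * n = (n * a * n)⁻¹ := by
  rw [mul_inv_rev, mul_inv_rev, inv_eq_of_mul_eq_one_right hn, mul_assoc]

theorem conj_conj' {n : G} (hn : n * n = 1) (a : G) : n * (n * a * n) * n = a := by
  calc _ = n * n * a * (n * n) := by group
    _ = a := by rw [hn]; group

theorem conj_comm' {n : G} (hn : n * n = 1) (a b : G) :
    n * ⁅a, b⁆ * n = ⁅n * a * n, n * b * n⁆ := by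
  simp only [commutatorElement_def, conj_mul' hn, conj_inv' hn]

theorem conj_fix' {n a : G} (hn : n * n = 1) (h : Commute a n) : n * a * n = a := by
  rw [← h.eq, mul_assoc, hn, mul_one]

/-! ### The frame -/

section Frame

variable (M : FF T G)

theorem φX (u : U T) : M.φ u ∈ M.X := mem_X_φ M.toPF u
theorem hX (d : Kˣ × Kˣ) : M.h d ∈ M.X := mem_X_h M.toPF d
theorem n1X : M.n1 ∈ M.X := mem_X_n1 M.toPF
theorem n8X : M.n8 ∈ M.X := mem_X_n8 M.toPF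
theorem φK (u : U T) : M.φ u ∈ M.cf.C := M.cf.φ_mem u
theorem n8K : M.n8 ∈ M.cf.C := M.cf.n_mem
theorem hK (b : Kˣ) : M.h (1, b) ∈ M.cf.C := M.cf.d_mem b
theorem KX : M.cf.C ≤ M.X := C_le_X M.toPF

theorem φ_eq_one {u : U T} (h : M.φ u = 1) : u = 1 := M.inj (h.trans (map_one _).symm)

theorem φ_comm {u v : U T} : Commute (M.φ u) (M.φ v) ↔ u * v = v * u :=
  ⟨fun h => M.inj (by rw [map_mul, map_mul]; exact h), fun h => by
    rw [Commute, SemiconjBy, ← map_mul, h, map_mul]⟩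

theorem n1_y2 (a : K) : M.n1 * M.φ (y2 T a) * M.n1 = M.φ (y8 T a) := by rw [M.n1φ _ rfl, w1_y2]
theorem n1_x2 (a : K) : M.n1 * M.φ (x2 T a) * M.n1 = M.φ (x8 T a) := by rw [M.n1φ _ rfl, w1_x2]
theorem n1_x3 (a : K) : M.n1 * M.φ (x3 T a) * M.n1 = M.φ (x7 T a) := by rw [M.n1φ _ rfl, w1_x3]
theorem n1_y4 (a : K) : M.n1 * M.φ (y4 T a) * M.n1 = M.φ (y6 T a) := by rw [M.n1φ _ rfl, w1_y4]
theorem n1_x4 (a : K) : M.n1 * M.φ (x4 T a) * M.n1 = M.φ (x6 T a) := by rw [M.n1φ _ rfl, w1_x4]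
theorem n1_x5 (a : K) : M.n1 * M.φ (x5 T a) * M.n1 = M.φ (x5 T a) := by rw [M.n1φ _ rfl, w1_x5]
theorem n1_y6 (a : K) : M.n1 * M.φ (y6 T a) * M.n1 = M.φ (y4 T a) := by rw [M.n1φ _ rfl, w1_y6]
theorem n1_x6 (a : K) : M.n1 * M.φ (x6 T a) * M.n1 = M.φ (x4 T a) := by rw [M.n1φ _ rfl, w1_x6]
theorem n1_x7 (a : K) : M.n1 * M.φ (x7 T a) * M.n1 = M.φ (x3 T a) := by rw [M.n1φ _ rfl, w1_x7]
theorem n1_y8 (a : K) : M.n1 * M.φ (y8 T a) * M.n1 = M.φ (y2 T a) := by rw [M.n1φ _ rfl, w1_y8]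
theorem n1_x8 (a : K) : M.n1 * M.φ (x8 T a) * M.n1 = M.φ (x2 T a) := by rw [M.n1φ _ rfl, w1_x8]

theorem n8_x1 (a : K) : M.n8 * M.φ (x1 T a) * M.n8 = M.φ (x7 T a) := by
  rw [M.n8φ _ ⟨rfl, rfl⟩, w8_x1]
theorem n8_y2 (a : K) : M.n8 * M.φ (y2 T a) * M.n8 = M.φ (y6 T a) := by
  rw [M.n8φ _ ⟨rfl, rfl⟩, w8_y2]
theorem n8_x2 (a : K) : M.n8 * M.φ (x2 T a) * M.n8 = M.φ (x6 T a) := by
  rw [M.n8φ _ ⟨rfl, rfl⟩, w8_x2]
theorem n8_x3 (a : K) : M.n8 * M.φ (x3 T a) * M.n8 = M.φ (x5 T a) := by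
  rw [M.n8φ _ ⟨rfl, rfl⟩, w8_x3]
theorem n8_y4 (a : K) : M.n8 * M.φ (y4 T a) * M.n8 = M.φ (y4 T a) := by
  rw [M.n8φ _ ⟨rfl, rfl⟩, w8_y4]
theorem n8_x4 (a : K) : M.n8 * M.φ (x4 T a) * M.n8 = M.φ (x4 T a) := by
  rw [M.n8φ _ ⟨rfl, rfl⟩, w8_x4]
theorem n8_x5 (a : K) : M.n8 * M.φ (x5 T a) * M.n8 = M.φ (x3 T a) := by
  rw [M.n8φ _ ⟨rfl, rfl⟩, w8_x5]
theorem n8_y6 (a : K) : M.n8 * M.φ (y6 T a) * M.n8 = M.φ (y2 T a) := by
  rw [M.n8φ _ ⟨rfl, rfl⟩, w8_y6]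
theorem n8_x6 (a : K) : M.n8 * M.φ (x6 T a) * M.n8 = M.φ (x2 T a) := by
  rw [M.n8φ _ ⟨rfl, rfl⟩, w8_x6]
theorem n8_x7 (a : K) : M.n8 * M.φ (x7 T a) * M.n8 = M.φ (x1 T a) := by
  rw [M.n8φ _ ⟨rfl, rfl⟩, w8_x7]

/-- `n1 x1 n1 = x1 n1 x1`. -/
theorem braid1 : M.n1 * M.φ (x1 T 1) * M.n1 = M.φ (x1 T 1) * M.n1 * M.φ (x1 T 1) := by
  have := M.rk1 1
  simpa [show ((1 : Kˣ), (1 : Kˣ)) = (1 : Kˣ × Kˣ) from rfl] using this

theorem gen_X {H : Subgroup G} (h1 : M.cf.C ≤ H) (h2 : ∀ k ∈ M.cf.C, M.n1 * k * M.n1 ∈ H) :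
    M.X ≤ H := by
  have k1 : ∀ u, M.φ u ∈ H := fun u => h1 (φK M u)
  refine X_le_of M.toPF k1 (fun c => ?_) ?_ (h1 (n8K M))
  · have := h2 _ (hK M c.1)
    rw [M.n1h] at this
    have e : M.h c = M.h (c.1, 1) * M.h (1, c.2) := by rw [← map_mul]; simp
    exact e ▸ mul_mem this (h1 (hK M _))
  · rw [n1_eq M.toPF]
    exact mul_mem (mul_mem (inv_mem (k1 _)) (h2 _ (φK M _))) (inv_mem (k1 _))

theorem mem_K {z : U T} (hz : z ∈ Z T) (z1 : z ≠ 1) {g : G} :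
    g ∈ M.cf.C ↔ g ∈ M.X ∧ Commute g (M.φ z) := by
  rw [← cent M hz z1, mem_inf, mem_centralizer_singleton_iff]; rfl

theorem x4_ne {a : K} (h : a ≠ 0) : x4 T a ≠ 1 := fun e => h (congrArg U.a4 e)

theorem x4_mem (a : K) : x4 T a ∈ Z T := by o8s

/-- An element normalizing `L` and `Z` normalizes `K₄`. -/
theorem norm_K [Finite G] {g : G} (hg : g ∈ normalizer (M.X : Set G)) {z z' : U T} (hz : z ∈ Z T)
    (hz' : z' ∈ Z T) (z1 : z ≠ 1) (e : g * M.φ z * g⁻¹ = M.φ z') :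
    g ∈ normalizer (M.cf.C : Set G) := by
  have z1' : z' ≠ 1 := fun k => z1 (φ_eq_one M (by
    rw [k, map_one] at e; simpa [mul_inv_eq_one] using e))
  refine mem_normalizer_fintype fun k hk => ?_
  obtain ⟨h1, h2⟩ := (mem_K M hz z1).1 hk
  exact (mem_K M hz' z1').2 ⟨(mem_normalizer_iff.1 hg k).1 h1, e ▸ comm_conj h2 g⟩

/-- The automorphism of `U` induced by an element of the normalizer. -/
theorem exists_aut {g : G} (hg : g ∈ normalizer (M.φ.range : Set G)) :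
    ∃ β : MulAut (U T), ∀ u, g * M.φ u * g⁻¹ = M.φ (β u) := by
  let e := MonoidHom.ofInjective M.inj
  refine ⟨e.trans ((M.φ.range.normalizerMonoidHom ⟨g, hg⟩).trans e.symm), fun u => ?_⟩
  have : ∀ x : M.φ.range, M.φ (e.symm x) = x := fun x => MonoidHom.apply_ofInjective_symm M.inj x
  rw [MulEquiv.trans_apply, MulEquiv.trans_apply, this]; rfl

variable [Finite K] [Finite G]

/-- Classes of involutions. -/
theorem inv_cls (hs : IsSylowIn 2 M.φ.range M.X) {j : G} (hj : j ∈ M.X) (h2 : j * j = 1) :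
    ∃ l ∈ M.X, ∃ a, l * j * l⁻¹ = M.φ (x4 T a) ∨ l * j * l⁻¹ = M.φ (x5 T a) := by
  let P : G → Prop := fun j => ∃ l ∈ M.X, ∃ a, l * j * l⁻¹ = M.φ (x4 T a) ∨ l * j * l⁻¹ = M.φ (x5 T a)
  have st : ∀ {j j' l}, l ∈ M.X → l * j * l⁻¹ = j' → P j' → P j := by
    rintro j _ l hl rfl ⟨m, hm, a, h⟩
    exact ⟨m * l, mul_mem hm hl, a, by simpa only [mul_inv_rev, mul_assoc] using h⟩
  have su : ∀ {v v'}, (∃ k, k * v * k⁻¹ = v') → P (M.φ v') → P (M.φ v) := by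
    rintro v _ ⟨k, rfl⟩
    exact st (φX M k) (by simp)
  have s1 : ∀ {v}, v ∈ E T → P (M.φ (w1 v)) → P (M.φ v) := fun hv =>
    st (n1X M) (by rw [n1_inv, M.n1φ _ hv])
  have s8 : ∀ {v}, v ∈ Q T → P (M.φ (w8 v)) → P (M.φ v) := fun hv =>
    st (n8X M) (by rw [n8_inv, M.n8φ _ hv])
  have p4 : ∀ a, P (M.φ (x4 T a)) := fun a => ⟨1, one_mem _, a, .inl (by simp)⟩
  have p5 : ∀ a, P (M.φ (x5 T a)) := fun a => ⟨1, one_mem _, a, .inr (by simp)⟩
  have p6 : ∀ a, P (M.φ (x6 T a)) := fun a => s1 rfl (w1_x6 (T := T) a ▸ p4 a)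
  have pZ : ∀ v ∈ Z T, P (M.φ v) := fun v hv => eq_x4 hv ▸ p4 _
  have pR : ∀ v ∈ R T, P (M.φ v) := fun v hv => by
    by_cases h1 : v ∈ W T
    · by_cases h2 : v ∈ Z T
      · exact pZ v h2
      · exact su (rep6 v h1 h2) (p6 _)
    · exact su (rep5 v hv h1) (p5 _)
  have pV : ∀ v ∈ V T, P (M.φ v) := fun v hv => by
    rcases repV v hv with h | ⟨u, -, h⟩
    · exact pR v h
    · exact su ⟨u, rfl⟩ (s8 (V_le_Q (nV.conj_mem _ hv u)) (pR _ h))
  obtain ⟨l, hl, hle⟩ := hs.exists_conj_le (P := zpowers j) (zpowers_le.2 hj)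
    (H83.isPGroup_iff.2 fun x hx => ⟨1, by
      obtain ⟨k, rfl⟩ := hx
      rw [pow_one, ← zpow_natCast, ← zpow_mul, mul_comm, zpow_mul, zpow_natCast, sq, h2, one_zpow]⟩)
  obtain ⟨u, hu⟩ := hle (H83.conj_mem_cj (mem_zpowers j))
  refine st hl hu.symm ?_
  rcases M.cf.cls _ (φK M u) (by rw [hu]; exact conj_sq h2 l) with ⟨z, hz, e⟩ | ⟨c, hc, r, hr, e⟩
  · exact e ▸ pZ z hz
  refine st (KX M hc) e ?_
  obtain ⟨a, c, -, rfl | rfl | rfl | rfl⟩ := hr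
  · exact p6 a
  · exact p5 a
  · exact s1 rfl (pV _ (by rw [w1_x7]; o8s))
  · exact s1 (by o8s) (pV _ (by o8s))

end Frame

/-! ### The centralizer of `t` -/

variable {M : FF T G} {t : G}

theorem Od.comm {k l : G} (h : Od M t k) (hl : l ∈ M.X) : Commute k l :=
  (mem_centralizer_iff.1 h.1 l hl).symm

theorem Od.φ {k : G} (h : Od M t k) (u : U T) : Commute k (M.φ u) := h.comm (φX M u)

theorem Od.one : Od M t 1 := ⟨one_mem _, Commute.one_left _, by simp⟩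

theorem Od.inv {k : G} (h : Od M t k) : Od M t k⁻¹ := ⟨inv_mem h.1, h.2.1.inv_left, by simpa using h.2.2⟩

namespace Ctx

variable (h : Ctx M t)
include h

theorem q2 : 2 < Nat.card K := lt_of_lt_of_le (by norm_num) h.q8

theorem tX {l : G} (hl : l ∈ M.X) : Commute l t := mem_centralizer_iff.1 h.tL l hl
theorem tφ (u : U T) : Commute (M.φ u) t := h.tX (φX M u)
theorem th (d : Kˣ × Kˣ) : Commute (M.h d) t := h.tX (hX M d)
theorem tn1 : Commute M.n1 t := h.tX (n1X M)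
theorem tn8 : Commute M.n8 t := h.tX (n8X M)
theorem t_inv : t⁻¹ = t := inv_eq_of_mul_eq_one_right h.tt
theorem t_not : t ∉ M.X := fun e => h.t1 (h.zl t e h.tL)

theorem od_mem {k : G} (hk : Od M t k) (hX : k ∈ M.X) : k = 1 := h.zl k hX hk.1

/-- Conjugation by `t` of an element moving `t`. -/
theorem tconj {g v : G} (e : g * t * g⁻¹ = t * v) : t * g * t = v * g := by
  calc _ = t * (g * t * g⁻¹) * g := by group
    _ = _ := by rw [e, ← mul_assoc, h.tt, one_mul]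

/-- An element `g` with `t g t = v g` moves `t` to `t v`. -/
theorem mov_of {g v : G} (e : t * g * t = v * g) : g * t * g⁻¹ = t * v := by
  calc _ = t * t * (g * t * g⁻¹) := by rw [h.tt, one_mul]
    _ = t * (t * g * t) * g⁻¹ := by group
    _ = _ := by rw [e]; group

theorem comm_of_tconj {g : G} (e : t * g * t = g) : Commute g t := by
  have := h.mov_of (v := 1) (by rw [e, one_mul])
  rwa [mul_one, conj_eq_iff] at this

theorem dec {g : G} (hg : g ∈ normalizer (M.X : Set G)) (h2 : Two g) :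
    ∃ l ∈ M.X, ∃ c ∈ centralizer (M.X : Set G), Two l ∧ Two c ∧ g = l * c := by
  obtain ⟨l, hl, c, hc, rfl⟩ := (H83.mem_sup_left_norm (centralizer_le_normalizer _)).1
    (h.two g hg h2)
  obtain ⟨k, e⟩ := h2
  have hlc : Commute l c := mem_centralizer_iff.1 hc l hl
  rw [hlc.mul_pow] at e
  have e1 : l ^ 2 ^ k = 1 := h.zl _ (pow_mem hl _) (by
    rw [eq_inv_of_mul_eq_one_left e]; exact inv_mem (pow_mem hc _))
  exact ⟨l, hl, c, hc, ⟨k, e1⟩, ⟨k, by rwa [e1, one_mul] at e⟩, rfl⟩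

variable [Finite K] [Finite G]

omit h in
theorem odd_K {g : G} (hg : g ∈ normalizer (M.X : Set G)) (ho : Odd (orderOf g))
    (hW : ∀ w ∈ W T, Commute g (M.φ w)) : ∀ k ∈ M.cf.C, Commute g k := by
  have gN := norm_K M hg (x4_mem 1) (x4_mem 1) (x4_ne one_ne_zero)
    (conj_eq_iff.2 (hW _ (Z_le_W (x4_mem 1))))
  have := (H15.O8.facts H92.UL.uf3 M.cf).odd (M.cf.C.normalizerMonoidHom ⟨g, gN⟩)
    (ho.of_dvd_nat ((orderOf_map_dvd _ _).trans (by rw [← Subgroup.orderOf_coe])))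
    fun w hw => Subtype.ext (conj_eq_iff.2 (hW w hw))
  intro k hk
  exact conj_eq_iff.1 (congrArg (fun β : MulAut M.cf.C => (β ⟨k, hk⟩ : G)) this)

/-- An element of odd order centralizing `t` and `W` centralizes `L`. -/
theorem od_of {g : G} (hg : Commute g t) (ho : Odd (orderOf g))
    (hW : ∀ w ∈ W T, Commute g (M.φ w)) : Od M t g := by
  refine ⟨fun l hl => ?_, hg, ho⟩
  have h1 := odd_K (h.ct g hg) ho hW
  have h2 := odd_K (g := M.n1 * g * M.n1) (h.ct _ ((h.tn1.mul_left hg).mul_left h.tn1))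
    (by
      have := (MulAut.conj M.n1).orderOf_eq g
      rw [MulAut.conj_apply, n1_inv] at this; rwa [this]) fun w hw => by
      have hw' : w1 w ∈ W T := by revert hw; o8s; rintro ⟨a, b, c, d, e, f, g, h, i, j⟩; simp [*]
      have := comm_conj' M.n1n1 (hW _ hw')
      rwa [M.n1φ _ (w1_mem _), w1_w1 (V_le_E (R_le_V (W_le_R hw)))] at this
  refine (mem_centralizer_singleton_iff.1 (gen_X M (H := centralizer {g})
    (fun k hk => mem_centralizer_singleton_iff.2 (h1 k hk).symm) (fun k hk => ?_) hl))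
  have := comm_conj' M.n1n1 (h2 k hk)
  rw [conj_conj' M.n1n1] at this
  exact mem_centralizer_singleton_iff.2 this.symm

end Ctx

/-- `g = φ e tᵋ o`. -/
def Dec (M : FF T G) (t g : G) (e : U T) (o : G) : Prop := g = M.φ e * o ∨ g = M.φ e * t * o

namespace Ctx2

variable (h : Ctx2 M t)
include h

theorem two_mem {g : G} (hg : Commute g t) (h2 : Two g) : ∃ l ∈ M.X, Two l ∧ (g = l ∨ g = l * t) := by
  obtain ⟨l, hl, c, hc, hl2, hc2, rfl⟩ := h.dec (h.ct g hg) h2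
  have : Commute c t := by simpa using (h.tX hl).inv_left.mul_left hg
  rcases h.r2 c hc this hc2 with rfl | rfl
  · exact ⟨l, hl, hl2, .inl (mul_one _)⟩
  · exact ⟨l, hl, hl2, .inr rfl⟩

theorem dec_comm {g o x : G} {e : U T} (hd : Dec M t g e o) (ho : Od M t o) (hx : x ∈ M.X)
    (hc : Commute g x) : Commute (M.φ e) x := by
  rcases hd with rfl | rfl
  · simpa using hc.mul_left (ho.comm hx).inv_left
  · simpa using (hc.mul_left (ho.comm hx).inv_left).mul_left (h.tX hx).symm.inv_left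

theorem dec_φ {g o : G} {e u : U T} (hd : Dec M t g e o) (ho : Od M t o)
    (hc : Commute g (M.φ u)) : e * u = u * e := (φ_comm M).1 (h.dec_comm hd ho (φX M u) hc)

theorem dec_h {g o : G} {e : U T} {d : Kˣ × Kˣ} (hd : Dec M t g e o) (ho : Od M t o)
    (hc : Commute g (M.h d)) : tor T d e = e :=
  M.inj ((M.hφ d e).symm.trans (conj_eq_iff.2 (h.dec_comm hd ho (hX M d) hc).symm))

/-- The action of `g = φ e tᵋ o` on `L`. -/
theorem dec_conj {g o x : G} {e : U T} (hd : Dec M t g e o) (ho : Od M t o) (hx : x ∈ M.X) :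
    g * x * g⁻¹ = M.φ e * x * (M.φ e)⁻¹ := by
  have h1 := conj_eq_iff.2 (ho.comm hx)
  have h2 := conj_eq_iff.2 (h.tX hx).symm
  rcases hd with rfl | rfl
  · conv_rhs => rw [← h1]
    group
  · conv_rhs => rw [← h2, ← h1]
    rw [mul_inv_rev, mul_inv_rev]; group

/-- **DI**: an element moving `t` which inverts `g = φ e tᵋ o`. -/
theorem di {g o i : G} {e v : U T} (hd : Dec M t g e o) (ho : Od M t o) (hio : Commute i o)
    (hie : Commute i (M.φ e)) (he : e * e = 1) (hv : i * t * i⁻¹ = t * M.φ v) (v1 : v ≠ 1)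
    (hinv : i * g * i⁻¹ = g⁻¹) : g = M.φ e := by
  have e1 : (M.φ e)⁻¹ = M.φ e := inv_eq_of_mul_eq_one_right (by rw [← map_mul, he, map_one])
  have c1 := conj_eq_iff.2 hio
  have c2 := conj_eq_iff.2 hie
  rcases hd with rfl | rfl
  · have : M.φ e * o = M.φ e * o⁻¹ := by
      calc _ = i * M.φ e * i⁻¹ * (i * o * i⁻¹) := by rw [c1, c2]
        _ = i * (M.φ e * o) * i⁻¹ := by group
        _ = _ := by rw [hinv, mul_inv_rev, e1, (ho.inv.φ e).eq]
    rw [eq_one_of_odd_sq ho.2.2 (mul_eq_one_iff_eq_inv.2 (mul_left_cancel this)), mul_one]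
  · have : M.φ e * t * (M.φ v * o) = M.φ e * t * o⁻¹ := by
      calc _ = i * M.φ e * i⁻¹ * (i * t * i⁻¹) * (i * o * i⁻¹) := by rw [c1, c2, hv]; group
        _ = i * (M.φ e * t * o) * i⁻¹ := by group
        _ = _ := by
          rw [hinv, mul_inv_rev, mul_inv_rev, e1, h.t_inv, ← (h.tφ e).eq,
            ((ho.inv.φ e).mul_right ho.inv.2.1).eq]
    have e2 : M.φ v = o⁻¹ * o⁻¹ := eq_mul_inv_of_mul_eq (mul_left_cancel this)
    exact absurd (φ_eq_one M (h.zl _ (φX M v) (e2 ▸ mul_mem ho.inv.1 ho.inv.1))) v1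

variable [Finite K] [Finite G]

/-- **CW**: the centralizer of `t` and `W`. -/
theorem cw {g : G} (hg : Commute g t) (hW : ∀ w ∈ W T, Commute g (M.φ w)) :
    ∃ e ∈ E T, ∃ o, Od M t o ∧ o ∈ zpowers g ∧ Dec M t g e o := by
  obtain ⟨a, ha, o, hb, a2, ho, rfl⟩ := two_odd g
  have od := h.od_of (comm_of_zpowers hb hg) ho fun w hw => comm_of_zpowers hb (hW w hw)
  obtain ⟨l, hl, -, hl'⟩ := h.two_mem (comm_of_zpowers ha hg) a2
  have hlW : ∀ w ∈ W T, Commute l (M.φ w) := fun w hw => by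
    have := comm_of_zpowers ha (hW w hw)
    rcases hl' with rfl | rfl
    · exact this
    · simpa using this.mul_left (h.tφ w).symm.inv_left
  have : l ∈ M.cf.s (E T) := by
    rw [← M.cf.cW]
    refine ⟨(mem_K M (x4_mem 1) (x4_ne one_ne_zero)).2 ⟨hl, hlW _ (Z_le_W (x4_mem 1))⟩, ?_⟩
    rintro _ ⟨w, hw, rfl⟩
    exact (hlW w hw).symm
  obtain ⟨e, he, rfl⟩ := this
  exact ⟨e, he, o, od, hb, hl'.imp (fun k => by rw [k]; rfl) fun k => by rw [k]; rfl⟩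

/-- Two involutions moving `t` in the same way and centralizing `A` differ by an element of the
centre of `A`. -/
theorem pair {i j : G} {v : U T} {A : Subgroup (U T)} (hW : W T ≤ A)
    (hA : ∀ e : U T, (∀ a ∈ A, e * a = a * e) → e ∈ A ∧ e * e = 1) (hi : i * i = 1) (hj : j * j = 1)
    (ti : i * t * i⁻¹ = t * M.φ v) (tj : j * t * j⁻¹ = t * M.φ v) (v1 : v ≠ 1)
    (ci : ∀ a ∈ A, Commute i (M.φ a)) (cj : ∀ a ∈ A, Commute j (M.φ a))
    (oi : ∀ k, Od M t k → Commute i k) :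
    ∃ e ∈ A, (∀ a ∈ A, e * a = a * e) ∧ j = i * M.φ e := by
  have i1 : i⁻¹ = i := inv_eq_of_mul_eq_one_right hi
  have j1 : j⁻¹ = j := inv_eq_of_mul_eq_one_right hj
  have hc : ∀ a ∈ A, Commute (i * j) (M.φ a) := fun a ha => (ci a ha).mul_left (cj a ha)
  have ht : Commute (i * j) t := by
    rw [← conj_eq_iff]
    calc _ = i * (j * t * j⁻¹) * i⁻¹ := by group
      _ = i * (i * t * i⁻¹) * i⁻¹ := by rw [tj, ti]
      _ = i * i * t * (i * i)⁻¹ := by group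
      _ = t := by rw [hi]; group
  obtain ⟨e, -, o, ho, -, hd⟩ := h.cw ht fun w hw => hc w (hW hw)
  have he : ∀ a ∈ A, e * a = a * e := fun a ha => h.dec_φ hd ho (hc a ha)
  have := h.di hd ho (oi o ho) (ci e (hA e he).1) (hA e he).2 ti v1 (by
    rw [mul_inv_rev, i1, j1, ← mul_assoc, hi, one_mul])
  exact ⟨e, (hA e he).1, he, by rw [← this, ← mul_assoc, hi, one_mul]⟩

end Ctx2

theorem cenE (e : U T) (h : ∀ a ∈ E T, e * a = a * e) : e ∈ E T ∧ e * e = 1 :=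
  ⟨V_le_E (R_le_V (W_le_R (cE e h))), sqV e (R_le_V (W_le_R (cE e h)))⟩

theorem cenQ (e : U T) (h : ∀ a ∈ Q T, e * a = a * e) : e ∈ Q T ∧ e * e = 1 :=
  ⟨W_le_Q (Z_le_W (cQ e h)), sqV e (R_le_V (W_le_R (Z_le_W (cQ e h))))⟩

theorem cenO (e : U T) (h : ∀ a ∈ O T, e * a = a * e) : e ∈ O T ∧ e * e = 1 :=
  ⟨Y_le_O (R_le_Y (cO e h)), sqV e (R_le_V (cO e h))⟩

theorem cenY (e : U T) (h : ∀ a ∈ Y T, e * a = a * e) : e ∈ Y T ∧ e * e = 1 :=
  ⟨cY e h, sqY e (cY e h)⟩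

theorem cenD [Finite K] (hq : 2 < Nat.card K) (e : U T) (h : ∀ a ∈ D T, e * a = a * e) :
    e ∈ D T ∧ e * e = 1 := ⟨V_le_D (cD e h hq), sqV e (cD e h hq)⟩

end Cfsg.Agent.H54.RF
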