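import Cfsg.Agent.H54.RfKit

/-! # Standard subgroups of type `²F₄(q)`: basic facts on the doubled root elements -/

set_option autoImplicit false
set_option linter.unusedSimpArgs false
set_option linter.unnecessarySeqFocus false
set_option linter.unusedSectionVars false

namespace Cfsg.Agent.H54.RF

open Cfsg Cfsg.Agent.H15.O8 Cfsg.Agent.H39 Cfsg.Agent.H36.O8T Subgroup
open scoped commutatorElement

variable {K : Type*} [Field K] {T : Tits K} {G : Type*} [Group G] {M : FF T G} {t : G}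

/-- Transport of a conjugation formula by an involution. -/
theorem rel_conj {n a b c : G} (hn : n * n = 1) (e : a * b * a⁻¹ = c) :
    n * a * n * (n * b * n) * (n * a * n)⁻¹ = n * c * n := by
  rw [← e, conj_mul' hn, conj_mul' hn, conj_inv' hn]

/-- An additive family of elements moving `t` and centralizing the elements of odd order. -/
structure Fam (M : FF T G) (t : G) (P : K → G) (x : K → U T) : Prop where
  add : ∀ a b, P (a + b) = P a * P b
  mov : ∀ a, P a * t * (P a)⁻¹ = t * M.φ (x a)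
  odd : ∀ a k, Od M t k → Commute (P a) k
  cx : ∀ a b, Commute (P a) (M.φ (x b))

namespace Fam

variable {P : K → G} {x : K → U T} (f : Fam M t P x)
include f

theorem zero : P 0 = 1 := by simpa using f.add 0 0
theorem sq (a : K) : P a * P a = 1 := by rw [← f.add, add_self (T := T), f.zero]
theorem inv (a : K) : (P a)⁻¹ = P a := inv_eq_of_mul_eq_one_right (f.sq a)
theorem comm (a b : K) : Commute (P a) (P b) := by
  rw [Commute, SemiconjBy, ← f.add, ← f.add, add_comm]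
theorem tconj (c : Ctx M t) (a : K) : t * P a * t = P a * M.φ (x a) := by
  rw [c.tconj (f.mov a), (f.cx a a).eq]

theorem conj (c : Ctx M t) {n : G} (hn : n * n = 1) (hX : n ∈ M.X) {y : K → U T}
    (hy : ∀ a, n * M.φ (x a) * n = M.φ (y a)) : Fam M t (fun a => n * P a * n) y where
  add a b := by rw [f.add, conj_mul' hn]
  mov a := by
    have := rel_conj hn (f.mov a)
    rwa [conj_mul' hn t, conj_fix' hn (c.tX hX).symm, hy] at this
  odd a k hk := by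
    have := comm_conj' hn (f.odd a k hk)
    rwa [conj_fix' hn (hk.comm hX)] at this
  cx a b := hy b ▸ comm_conj' hn (f.cx a b)

end Fam

theorem n1_h (M : FF T G) (d : Kˣ × Kˣ) : M.n1 * M.h (d.2, d.1) * M.n1 = M.h d := M.n1h _ _

theorem n8_h (M : FF T G) (d : Kˣ × Kˣ) : M.n8 * M.h (d.1, θu T d.1 / d.2) * M.n8 = M.h d := by
  rw [M.n8h, div_div_cancel]

variable {p r : K → G}

theorem n1_P6 (a : K) : M.n1 * P6 M p a * M.n1 = p a := conj_conj' M.n1n1 _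
theorem n8_P2 (a : K) : M.n8 * P2 M p a * M.n8 = P6 M p a := conj_conj' M.n8n8 _
theorem n1_P8 (a : K) : M.n1 * P8 M p a * M.n1 = P2 M p a := conj_conj' M.n1n1 _
theorem n8_P3 (a : K) : M.n8 * P3 M r a * M.n8 = r a := conj_conj' M.n8n8 _
theorem n1_P7 (a : K) : M.n1 * P7 M r a * M.n1 = P3 M r a := conj_conj' M.n1n1 _
theorem n8_P1 (a : K) : M.n8 * P1 M r a * M.n8 = P7 M r a := conj_conj' M.n8n8 _
theorem n1_p (a : K) : M.n1 * p a * M.n1 = P6 M p a := rfl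
theorem n8_P6 (a : K) : M.n8 * P6 M p a * M.n8 = P2 M p a := rfl
theorem n1_P2 (a : K) : M.n1 * P2 M p a * M.n1 = P8 M p a := rfl
theorem n8_r (a : K) : M.n8 * r a * M.n8 = P3 M r a := rfl
theorem n1_P3 (a : K) : M.n1 * P3 M r a * M.n1 = P7 M r a := rfl
theorem n8_P7 (a : K) : M.n8 * P7 M r a * M.n8 = P1 M r a := rfl

namespace H4

variable (h : H4 M t p)
include h

theorem pφ (a : K) (u : U T) : Commute (p a) (M.φ u) := h.cen a _ (φK M u)
theorem n8_p (a : K) : M.n8 * p a * M.n8 = p a := conj_fix' M.n8n8 (h.cen a _ (n8K M))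
theorem f4 : Fam M t p (x4 T) := ⟨h.add, h.mov, h.odd, fun a _ => h.pφ a _⟩
theorem f6 (c : Ctx M t) : Fam M t (P6 M p) (x6 T) := h.f4.conj c M.n1n1 (n1X M) (n1_x4 M)
theorem f2 (c : Ctx M t) : Fam M t (P2 M p) (x2 T) := (h.f6 c).conj c M.n8n8 (n8X M) (n8_x6 M)
theorem f8 (c : Ctx M t) : Fam M t (P8 M p) (x8 T) := (h.f2 c).conj c M.n1n1 (n1X M) (n1_x2 M)

theorem cen6 (a : K) {u : U T} (hu : u ∈ E T) : Commute (P6 M p a) (M.φ u) := by
  have := comm_conj' M.n1n1 (h.pφ a (w1 u))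
  rwa [M.n1φ _ (w1_mem u), w1_w1 hu] at this

theorem cen2 (a : K) {u : U T} (hu : u ∈ Q T) (h7 : u.a7 = 0) : Commute (P2 M p a) (M.φ u) := by
  have := comm_conj' M.n8n8 (h.cen6 a (u := w8 u) h7)
  rwa [M.n8φ _ (w8_mem u), w8_w8 hu] at this

theorem cen8 (a : K) {u : U T} (hu : u ∈ Te T) : Commute (P8 M p a) (M.φ u) := by
  obtain ⟨k1, k2, k3, k4⟩ := hu
  have := comm_conj' M.n1n1 (h.cen2 a (u := w1 u) ⟨k2, k3⟩ (by simp [w1, k2, k3, k4]))
  rwa [M.n1φ _ (w1_mem u), w1_w1 k1] at this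

theorem tor6 (d : Kˣ × Kˣ) (a : K) :
    M.h d * P6 M p a * (M.h d)⁻¹ = P6 M p (d.2 * T.θ d.2 * a) := by
  have := rel_conj M.n1n1 (h.tor (d.2, d.1) a)
  rwa [n1_h] at this

theorem tor2 (d : Kˣ × Kˣ) (a : K) : M.h d * P2 M p a * (M.h d)⁻¹ = P2 M p (wt2 T d * a) := by
  have := rel_conj M.n8n8 (h.tor6 (d.1, θu T d.1 / d.2) a)
  rwa [n8_h, show ((θu T d.1 / d.2 : Kˣ) : K) * T.θ (θu T d.1 / d.2 : Kˣ) = wt2 T d from
    congrArg Units.val (show Nu T (θu T d.1 / d.2) = wt2 T d by wt_tac)] at this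

theorem tor8 (d : Kˣ × Kˣ) (a : K) : M.h d * P8 M p a * (M.h d)⁻¹ = P8 M p (wt8 T d * a) := by
  have := rel_conj M.n1n1 (h.tor2 (d.2, d.1) a)
  rwa [n1_h] at this

theorem x7P2 (w a : K) :
    M.φ (x7 T w) * P2 M p a * (M.φ (x7 T w))⁻¹ = P2 M p a * p (w * a) := by
  have := rel_conj M.n8n8 (h.line w a)
  rwa [n8_x1, conj_mul' M.n8n8 (P6 M p a), h.n8_p] at this

theorem x3P8 (w a : K) :
    M.φ (x3 T w) * P8 M p a * (M.φ (x3 T w))⁻¹ = P8 M p a * P6 M p (w * a) := by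
  have := rel_conj M.n1n1 (h.x7P2 w a)
  rwa [n1_x7, conj_mul' M.n1n1 (P2 M p a)] at this

theorem c24 (a b : K) : Commute (P2 M p a) (p b) :=
  h.n8_p b ▸ comm_conj' M.n8n8 (h.c46 b a).symm

theorem c68 (a b : K) : Commute (P6 M p a) (P8 M p b) := comm_conj' M.n1n1 (h.c24 b a).symm

theorem rot6 (a : K) : rot M.toPF 1 (p a) = P6 M p a := by rw [rot_one, h.n8_p]; rfl
omit h in
theorem rot2 (a : K) : rot M.toPF (-1) (p a) = P2 M p a := rot_neg _ _
theorem rot8 (a : K) : rot M.toPF 2 (p a) = P8 M p a := by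
  rw [show (2 : ℤ) = 1 + 1 from rfl, rot_add, h.rot6, rot_one]; rfl

end H4

namespace HR

variable (h : HR M t p r)
include h

theorem n1_r (a : K) : M.n1 * r a * M.n1 = r a := conj_fix' M.n1n1 (h.rn1 a)
theorem f5 : Fam M t r (x5 T) := ⟨h.radd, h.rmov, h.rodd, fun a _ => h.rcen a _ ⟨rfl, rfl⟩⟩
theorem f3 (c : Ctx M t) : Fam M t (P3 M r) (x3 T) := h.f5.conj c M.n8n8 (n8X M) (n8_x5 M)
theorem f7 (c : Ctx M t) : Fam M t (P7 M r) (x7 T) := (h.f3 c).conj c M.n1n1 (n1X M) (n1_x3 M)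
theorem f1 (c : Ctx M t) : Fam M t (P1 M r) (x1 T) := (h.f7 c).conj c M.n8n8 (n8X M) (n8_x7 M)

theorem cen3 (a : K) {u : U T} (hu : u ∈ Q T) (h6 : u.b6 = 0) : Commute (P3 M r a) (M.φ u) := by
  have := comm_conj' M.n8n8 (h.rcen a (w8 u) ⟨h6, rfl⟩)
  rwa [M.n8φ _ (w8_mem u), w8_w8 hu] at this

theorem cen7 (a : K) {u : U T} (hu : u ∈ Td T) : Commute (P7 M r a) (M.φ u) := by
  obtain ⟨k1, k2, k3, k4⟩ := hu
  have := comm_conj' M.n1n1 (h.cen3 a (u := w1 u) ⟨k2, k3⟩ (by simp [w1, k2, k4]))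
  rwa [M.n1φ _ (w1_mem u), w1_w1 k1] at this

theorem cen1 (a : K) {u : U T} (hu : u ∈ Q T) (h4 : u.b4 = 0) (h6 : u.b6 = 0) (h6' : u.a6 = 0)
    (h7 : u.a7 = 0) : Commute (P1 M r a) (M.φ u) := by
  have := comm_conj' M.n8n8 (h.cen7 a (u := w8 u) ⟨h7, h6, by simp [w8, h6', h7], h4⟩)
  rwa [M.n8φ _ (w8_mem u), w8_w8 hu] at this

theorem tor3 (d : Kˣ × Kˣ) (a : K) : M.h d * P3 M r a * (M.h d)⁻¹ = P3 M r (wt3 T d * a) := by
  have := rel_conj M.n8n8 (h.rtor (d.1, θu T d.1 / d.2) a)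
  rwa [n8_h, show (d.1 : K) * ((θu T d.1 / d.2 : Kˣ) : K) = wt3 T d from
    congrArg Units.val (show d.1 * (θu T d.1 / d.2) = wt3 T d by wt_tac)] at this

theorem tor7 (d : Kˣ × Kˣ) (a : K) : M.h d * P7 M r a * (M.h d)⁻¹ = P7 M r (wt7 T d * a) := by
  have := rel_conj M.n1n1 (h.tor3 (d.2, d.1) a)
  rwa [n1_h] at this

theorem tor1 (d : Kˣ × Kˣ) (a : K) : M.h d * P1 M r a * (M.h d)⁻¹ = P1 M r (wt1 T d * a) := by
  have := rel_conj M.n8n8 (h.tor7 (d.1, θu T d.1 / d.2) a)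
  rwa [n8_h, show wt7 T (d.1, θu T d.1 / d.2) = wt1 T d by wt_tac] at this

theorem y6P3 (w a : K) :
    M.φ (y6 T w) * P3 M r a * (M.φ (y6 T w))⁻¹ = P3 M r a * p (w * a) := by
  have := rel_conj M.n8n8 (h.ry2 w a)
  rwa [n8_y2, conj_mul' M.n8n8 (r a), h.n8_p] at this

theorem y8r (w a : K) : M.φ (y8 T w) * r a * (M.φ (y8 T w))⁻¹ = r a * P6 M p (w * a) := by
  have := rel_conj M.n1n1 (h.ry2 w a)
  rwa [n1_y2, conj_mul' M.n1n1 (r a), h.n1_r] at this

theorem y4P7 (w a : K) :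
    M.φ (y4 T w) * P7 M r a * (M.φ (y4 T w))⁻¹ = P7 M r a * P6 M p (w * a) := by
  have := rel_conj M.n1n1 (h.y6P3 w a)
  rwa [n1_y6, conj_mul' M.n1n1 (P3 M r a)] at this

theorem y4P1 (w a : K) :
    M.φ (y4 T w) * P1 M r a * (M.φ (y4 T w))⁻¹ = P1 M r a * P2 M p (w * a) := by
  have := rel_conj M.n8n8 (h.y4P7 w a)
  rwa [n8_y4, conj_mul' M.n8n8 (P7 M r a)] at this

theorem c34 (a b : K) : Commute (P3 M r a) (p b) := h.n8_p b ▸ comm_conj' M.n8n8 (h.c45 b a).symm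
theorem c56 (a b : K) : Commute (r a) (P6 M p b) := h.n1_r a ▸ comm_conj' M.n1n1 (h.c45 b a).symm
theorem c23 (a b : K) : Commute (P2 M p a) (P3 M r b) := comm_conj' M.n8n8 (h.c56 b a).symm
theorem c36 (a b : K) : Commute (P3 M r a) (P6 M p b) :=
  n8_P2 (M := M) (p := p) b ▸ comm_conj' M.n8n8 (h.c25 b a).symm
theorem c47 (a b : K) : Commute (p a) (P7 M r b) :=
  n1_P6 (M := M) (p := p) a ▸ comm_conj' M.n1n1 (h.c36 b a).symm
theorem c48 (a b : K) : Commute (p a) (P8 M p b) :=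
  n1_P6 (M := M) (p := p) a ▸ comm_conj' M.n1n1 (h.c26 b a).symm
theorem c57 (a b : K) : Commute (r a) (P7 M r b) := h.n1_r a ▸ comm_conj' M.n1n1 (h.c35 b a).symm
theorem c58 (a b : K) : Commute (r a) (P8 M p b) := h.n1_r a ▸ comm_conj' M.n1n1 (h.c25 b a).symm
theorem c67 (a b : K) : Commute (P6 M p a) (P7 M r b) := comm_conj' M.n1n1 (h.c34 b a).symm
theorem c78 (a b : K) : Commute (P7 M r a) (P8 M p b) := comm_conj' M.n1n1 (h.c23 b a).symm
theorem c12 (a b : K) : Commute (P1 M r a) (P2 M p b) := comm_conj' M.n8n8 (h.c67 b a).symm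
theorem c13 (a b : K) : Commute (P1 M r a) (P3 M r b) := comm_conj' M.n8n8 (h.c57 b a).symm
theorem c14 (a b : K) : Commute (P1 M r a) (p b) := h.n8_p b ▸ comm_conj' M.n8n8 (h.c47 b a).symm

omit h in
theorem rot3 (a : K) : rot M.toPF (-1) (r a) = M.n8 * (M.n1 * r a * M.n1) * M.n8 := rot_neg _ _
theorem rot3' (a : K) : rot M.toPF (-1) (r a) = P3 M r a := by rw [rot_neg, h.n1_r]; rfl
omit h in
theorem rot7 (a : K) : rot M.toPF 1 (r a) = P7 M r a := rot_one _ _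
theorem rot1 (a : K) : rot M.toPF (-2) (r a) = P1 M r a := by
  rw [show (-2 : ℤ) = -1 + -1 from rfl, rot_add, h.rot3', rot_neg]; rfl

variable {e : K} (a1 : A1 M p r e)
include a1

theorem x2P8 (u a : K) : M.φ (x2 T u) * P8 M p a * (M.φ (x2 T u))⁻¹ = P8 M p a *
    P6 M p (T.θ a * u) * M.φ (x6 T (e * T.θ a * u)) * r (a * u) * p (a * T.θ u) := by
  have := rel_conj M.n1n1 (a1.x8P2 u a)
  simp only [n1_x8, conj_mul' M.n1n1, n1_P2, n1_x4, h.n1_r, n1_P6] at this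
  exact this

omit h in
theorem x2P7 (u a : K) : M.φ (x2 T u) * P7 M r a * (M.φ (x2 T u))⁻¹ = P7 M r a * p (a * u) := by
  have := rel_conj M.n1n1 (a1.x8P3 u a)
  simp only [n1_x8, conj_mul' M.n1n1, n1_P3, n1_P6] at this
  exact this

omit h in
theorem x6P1 (hp : H4 M t p) (u a : K) :
    M.φ (x6 T u) * P1 M r a * (M.φ (x6 T u))⁻¹ = P1 M r a * p (a * u) := by
  have := rel_conj M.n8n8 (x2P7 a1 u a)
  simp only [n8_x2, conj_mul' M.n8n8, n8_P7, hp.n8_p] at this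
  exact this

theorem y2P7 (u a : K) : M.φ (y2 T u) * P7 M r a * (M.φ (y2 T u))⁻¹ =
    P7 M r a * P6 M p (T.θ a * u) * M.φ (x6 T (e * T.θ a * u)) * r (a * T.θ u) := by
  have := rel_conj M.n1n1 (a1.y8P3 u a)
  simp only [n1_y8, conj_mul' M.n1n1, n1_P3, n1_x4, h.n1_r] at this
  exact this

theorem y2P8 (u a : K) : M.φ (y2 T u) * P8 M p a * (M.φ (y2 T u))⁻¹ =
    P8 M p a * P7 M r (a * u) * r (a * (u * T.θ u)) * p (a * u * (u * T.θ u)) := by
  have := rel_conj M.n1n1 (a1.y8P2 u a)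
  simp only [n1_y8, conj_mul' M.n1n1, n1_P2, n1_P3, h.n1_r, n1_P6] at this
  exact this

omit a1

variable {c ε : K} (g : Gm M p r e c ε)
include g

omit h in
theorem g38 (a b : K) : ⁅P8 M p a, P3 M r b⁆ = P6 M p (a * b) * M.φ (x6 T (c * a * b)) := by
  have := congrArg (fun x => M.n1 * x * M.n1) (g.g27 a b)
  simp only [conj_comm' M.n1n1, conj_mul' M.n1n1, n1_P2, n1_P7, n1_x4] at this
  exact this

theorem g16 (a b : K) : ⁅P6 M p a, P1 M r b⁆ = p (a * b) * M.φ (x4 T (c * a * b)) := by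
  have := congrArg (fun x => M.n8 * x * M.n8) (g.g27 a b)
  simp only [conj_comm' M.n8n8, conj_mul' M.n8n8, n8_P2, n8_P7, h.n8_p, n8_x4] at this
  exact this

omit h in
theorem c15 (a b : K) : Commute (P1 M r a) (r b) :=
  n8_P3 (M := M) (r := r) b ▸ comm_conj' M.n8n8 (g.g37 b a).symm

omit g in
theorem x7P1 (a2 : A2 M r e) (c b : K) : M.φ (x7 T c) * P1 M r b * (M.φ (x7 T c))⁻¹ =
    P1 M r b * r (T.θ c * b) * P3 M r (c * T.θ b) * M.φ (x3 T (e * c * T.θ b)) := by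
  have := rel_conj M.n8n8 (a2 c b)
  simp only [n8_x1, conj_mul' M.n8n8, n8_P7, n8_P3, n8_x5] at this
  exact this

end HR

end Cfsg.Agent.H54.RF
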