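import Cfsg.Agent.H54.RfDefs

/-! # Standard subgroups of type `²F₄(q)`: facts on the unipotent group and on the field -/

set_option autoImplicit false
set_option linter.unusedSimpArgs false
set_option linter.unnecessarySeqFocus false

namespace Cfsg.Agent.H54.RF

open Cfsg Cfsg.Agent.H15.O8 Cfsg.Agent.H39 Subgroup
open scoped commutatorElement

variable {K : Type*} [Field K] {T : Tits K}

/-! ### Additivity, action of the torus and of the reflections on root elements -/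

theorem x1_add (a b : K) : x1 T (a + b) = x1 T a * x1 T b := by ext <;> o8s <;> o8ring T
theorem x2_add (a b : K) : x2 T (a + b) = x2 T a * x2 T b := by ext <;> o8s <;> o8ring T
theorem x3_add (a b : K) : x3 T (a + b) = x3 T a * x3 T b := by ext <;> o8s <;> o8ring T
theorem x4_add (a b : K) : x4 T (a + b) = x4 T a * x4 T b := by ext <;> o8s <;> o8ring T
theorem x5_add (a b : K) : x5 T (a + b) = x5 T a * x5 T b := by ext <;> o8s <;> o8ring T
theorem x6_add (a b : K) : x6 T (a + b) = x6 T a * x6 T b := by ext <;> o8s <;> o8ring T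
theorem x7_add (a b : K) : x7 T (a + b) = x7 T a * x7 T b := by ext <;> o8s <;> o8ring T
theorem x8_add (a b : K) : x8 T (a + b) = x8 T a * x8 T b := by ext <;> o8s <;> o8ring T

theorem x1_zero : x1 T 0 = 1 := rfl
theorem y2_zero : y2 T 0 = 1 := rfl
theorem x2_zero : x2 T 0 = 1 := rfl
theorem x3_zero : x3 T 0 = 1 := rfl
theorem y4_zero : y4 T 0 = 1 := rfl
theorem x4_zero : x4 T 0 = 1 := rfl
theorem x5_zero : x5 T 0 = 1 := rfl
theorem y6_zero : y6 T 0 = 1 := rfl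
theorem x6_zero : x6 T 0 = 1 := rfl
theorem x7_zero : x7 T 0 = 1 := rfl
theorem y8_zero : y8 T 0 = 1 := rfl
theorem x8_zero : x8 T 0 = 1 := rfl

include T in
theorem add_self (a : K) : a + a = 0 := by have := T.charP; exact CharTwo.add_self_eq_zero a

theorem w1_y2 (a : K) : w1 (y2 T a) = y8 T a := by ext <;> o8s
theorem w1_x2 (a : K) : w1 (x2 T a) = x8 T a := by ext <;> o8s
theorem w1_x3 (a : K) : w1 (x3 T a) = x7 T a := by ext <;> o8s
theorem w1_y4 (a : K) : w1 (y4 T a) = y6 T a := by ext <;> o8s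
theorem w1_x4 (a : K) : w1 (x4 T a) = x6 T a := by ext <;> o8s
theorem w1_x5 (a : K) : w1 (x5 T a) = x5 T a := by ext <;> o8s
theorem w1_y6 (a : K) : w1 (y6 T a) = y4 T a := by ext <;> o8s
theorem w1_x6 (a : K) : w1 (x6 T a) = x4 T a := by ext <;> o8s
theorem w1_x7 (a : K) : w1 (x7 T a) = x3 T a := by ext <;> o8s
theorem w1_y8 (a : K) : w1 (y8 T a) = y2 T a := by ext <;> o8s
theorem w1_x8 (a : K) : w1 (x8 T a) = x2 T a := by ext <;> o8s

theorem w8_x1 (a : K) : w8 (x1 T a) = x7 T a := by ext <;> o8s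
theorem w8_y2 (a : K) : w8 (y2 T a) = y6 T a := by ext <;> o8s
theorem w8_x2 (a : K) : w8 (x2 T a) = x6 T a := by ext <;> o8s
theorem w8_x3 (a : K) : w8 (x3 T a) = x5 T a := by ext <;> o8s
theorem w8_y4 (a : K) : w8 (y4 T a) = y4 T a := by ext <;> o8s
theorem w8_x4 (a : K) : w8 (x4 T a) = x4 T a := by ext <;> o8s
theorem w8_x5 (a : K) : w8 (x5 T a) = x3 T a := by ext <;> o8s
theorem w8_y6 (a : K) : w8 (y6 T a) = y2 T a := by ext <;> o8s
theorem w8_x6 (a : K) : w8 (x6 T a) = x2 T a := by ext <;> o8s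
theorem w8_x7 (a : K) : w8 (x7 T a) = x1 T a := by ext <;> o8s

variable (T) in
/-- The norm `a θ(a)` on units. -/
def Nu (a : Kˣ) : Kˣ := a * θu T a

@[simp] theorem Nu_val (a : Kˣ) : (Nu T a : K) = a * T.θ a := rfl

/-- The weights of the torus element `(a, b)`. -/
def wt1 (T : Tits K) (d : Kˣ × Kˣ) : Kˣ := Nu T d.1 / Nu T d.2
def wy2 (T : Tits K) (d : Kˣ × Kˣ) : Kˣ := θu T d.1 / d.2
def wt2 (T : Tits K) (d : Kˣ × Kˣ) : Kˣ := d.1 * Nu T d.1 / Nu T d.2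
def wt3 (T : Tits K) (d : Kˣ × Kˣ) : Kˣ := Nu T d.1 / d.2
def wt7 (T : Tits K) (d : Kˣ × Kˣ) : Kˣ := Nu T d.2 / d.1
def wy8 (T : Tits K) (d : Kˣ × Kˣ) : Kˣ := θu T d.2 / d.1
def wt8 (T : Tits K) (d : Kˣ × Kˣ) : Kˣ := d.2 * Nu T d.2 / Nu T d.1

theorem tor_x1 (d : Kˣ × Kˣ) (a : K) : tor T d (x1 T a) = x1 T (wt1 T d * a) := by
  rw [tor_apply]; ext <;> o8s; simp [wt1, div_eq_mul_inv]; ring_nf; simp
theorem tor_y2 (d : Kˣ × Kˣ) (a : K) : tor T d (y2 T a) = y2 T (wy2 T d * a) := by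
  rw [tor_apply]; ext <;> o8s; simp [wy2, div_eq_mul_inv]
theorem tor_x2 (d : Kˣ × Kˣ) (a : K) : tor T d (x2 T a) = x2 T (wt2 T d * a) := by
  rw [tor_apply]; ext <;> o8s; simp [wt2, div_eq_mul_inv]; ring_nf; simp
theorem tor_x3 (d : Kˣ × Kˣ) (a : K) : tor T d (x3 T a) = x3 T (wt3 T d * a) := by
  rw [tor_apply]; ext <;> o8s; simp [wt3, div_eq_mul_inv]
theorem tor_y4 (d : Kˣ × Kˣ) (a : K) : tor T d (y4 T a) = y4 T (d.1 * a) := by
  rw [tor_apply]; ext <;> o8s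
theorem tor_x4 (d : Kˣ × Kˣ) (a : K) : tor T d (x4 T a) = x4 T (d.1 * T.θ d.1 * a) := by
  rw [tor_apply]; ext <;> o8s
theorem tor_x5 (d : Kˣ × Kˣ) (a : K) : tor T d (x5 T a) = x5 T (d.1 * d.2 * a) := by
  rw [tor_apply]; ext <;> o8s
theorem tor_y6 (d : Kˣ × Kˣ) (a : K) : tor T d (y6 T a) = y6 T (d.2 * a) := by
  rw [tor_apply]; ext <;> o8s
theorem tor_x6 (d : Kˣ × Kˣ) (a : K) : tor T d (x6 T a) = x6 T (d.2 * T.θ d.2 * a) := by
  rw [tor_apply]; ext <;> o8s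
theorem tor_x7 (d : Kˣ × Kˣ) (a : K) : tor T d (x7 T a) = x7 T (wt7 T d * a) := by
  rw [tor_apply]; ext <;> o8s; simp [wt7, div_eq_mul_inv]
theorem tor_y8 (d : Kˣ × Kˣ) (a : K) : tor T d (y8 T a) = y8 T (wy8 T d * a) := by
  rw [tor_apply]; ext <;> o8s; simp [wy8, div_eq_mul_inv]
theorem tor_x8 (d : Kˣ × Kˣ) (a : K) : tor T d (x8 T a) = x8 T (wt8 T d * a) := by
  rw [tor_apply]; ext <;> o8s; simp [wt8, div_eq_mul_inv]; ring_nf; simp

/-! ### Centralizers -/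

theorem cD (g : U T) (h : ∀ d ∈ D T, g * d = d * g) [Finite K] (hq : 2 < Nat.card K) :
    g ∈ V T := by
  have hD : g ∈ D T := (H92.UL.cV g).2 fun v hv => h v
    ⟨hv.1, hv.2.1, hv.2.2.2.1, hv.2.2.2.2.1, hv.2.2.2.2.2.1, hv.2.2.2.2.2.2⟩
  obtain ⟨a, h0, h1⟩ := H92.UL.exists_ne hq
  have e1 := congrArg U.a4 (h (y4 T 1) (by o8s))
  have e2 := congrArg U.a4 (h (y4 T a) (by o8s))
  obtain ⟨k1, k2, k3, k4, k5, k6⟩ := hD
  refine ⟨k1, k2, ?_, k3, k4, k5, k6⟩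
  o8s at e1 e2
  have := (H92.UL.scal (T := T) h0 h1).2.2.2.2.2
  have e3 : g.b4 * (T.θ a - a) = 0 := by linear_combination e2 - a * e1
  exact (mul_eq_zero.1 e3).resolve_right (sub_ne_zero.2 this)

theorem cO (g : U T) (h : ∀ d ∈ O T, g * d = d * g) : g ∈ R T := by
  obtain ⟨k1, k2, k3, k4, k5, k6⟩ : g ∈ D T := (H92.UL.cV g).2 fun v hv => h v
    ⟨hv.1, hv.2.1, hv.2.2.2.2.2.1⟩
  have e1 := h (y6 T 1) (by o8s)
  have e2 := h (x7 T 1) (by o8s)
  o8s at e1 e2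
  simp only [k1, k2, k3, k4, k5, k6, map_zero, mul_zero, zero_mul, add_zero] at e1 e2
  have := T.charP
  refine ⟨k1, k2, ?_, ?_, ?_, k3, k4, k5, k6⟩ <;> grind

theorem cY (g : U T) (h : ∀ d ∈ Y T, g * d = d * g) : g ∈ Y T := by
  have k1 : g.a1 = 0 := (cW g).2 fun w hw => h w (R_le_Y (W_le_R hw))
  have e1 := h (x5 T 1) (by o8s)
  have e2 := h (x3 T 1) (by o8s)
  have e3 := h (x7 T 1) (by o8s)
  have := T.charP
  o8s at e1 e2 e3
  have k2 : g.b2 = 0 := by grind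
  have k8 : g.b8 = 0 := by grind
  simp only [k1, k2, k8, map_zero, mul_zero, zero_mul, add_zero] at e2 e3
  refine ⟨k1, k2, ?_, ?_, ?_, k8, ?_⟩ <;> grind

theorem D_le_E : D T ≤ E T := fun _ h => h.1
theorem D_le_Q : D T ≤ Q T := fun _ h => ⟨h.2.2.2.2.1, h.2.2.2.2.2⟩
theorem V_le_D : V T ≤ D T := fun _ hv =>
  ⟨hv.1, hv.2.1, hv.2.2.2.1, hv.2.2.2.2.1, hv.2.2.2.2.2.1, hv.2.2.2.2.2.2⟩
theorem D_le_O : D T ≤ O T := fun _ h => ⟨h.1, h.2.1, h.2.2.2.2.1⟩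
theorem O_le_Tc : O T ≤ Tc T := fun _ h => h.2
theorem O_le_E : O T ≤ E T := fun _ h => h.1
theorem Y_le_O : Y T ≤ O T := fun _ h => ⟨h.1, h.2.1, h.2.2.2.2.2.1⟩
theorem A_le_O : A T ≤ O T := fun _ h => ⟨h.1, h.2.1, h.2.2.2.2.2.2⟩
theorem w8_D {u : U T} (h : u ∈ D T) : w8 u ∈ D T := by
  obtain ⟨k1, k2, k3, k4, -, -⟩ := h
  o8s; exact ⟨k4, k3, k2, k1⟩

theorem eq_R {g : U T} (h : g ∈ R T) : g = x4 T g.a4 * x5 T g.a5 * x6 T g.a6 := by
  obtain ⟨k1, k2, k3, k4, k5, k6, k7, k8, k9⟩ := h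
  ext <;> o8s <;> assumption

theorem eq_V {g : U T} (h : g ∈ V T) :
    g = x2 T g.a2 * x3 T g.a3 * x4 T g.a4 * x5 T g.a5 * x6 T g.a6 := by
  obtain ⟨k1, k2, k3, k4, k5, k6, k7⟩ := h
  ext <;> o8s <;> assumption

theorem eq_Y {g : U T} (h : g ∈ Y T) :
    g = x3 T g.a3 * x4 T g.a4 * x5 T g.a5 * x6 T g.a6 * x7 T g.a7 := by
  obtain ⟨k1, k2, k3, k4, k5, k6, k7⟩ := h
  ext <;> o8s <;> assumption

set_option maxRecDepth 4000 in
theorem eq_O {g : U T} (h : g ∈ O T) : g = x2 T g.a2 * x3 T g.a3 * y4 T g.b4 * x4 T g.a4 *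
    x5 T g.a5 * y6 T g.b6 * x6 T g.a6 * x7 T g.a7 * x8 T g.a8 := by
  obtain ⟨k1, k2, k3⟩ := h
  ext <;> o8s <;> assumption

theorem eq_Tc {g : U T} (h : g ∈ Tc T) : ∃ j ∈ O T, g = x1 T g.a1 * j := by
  obtain ⟨k1, k2⟩ := h
  exact ⟨{ g with a1 := 0 }, ⟨rfl, k1, k2⟩, by ext <;> o8s⟩

/-- Fixed points of the torus centralizing `x5`. -/
theorem fix5 {a : Kˣ} (h1 : a ≠ 1) (g : U T) (h : tor T (a, a⁻¹) g = g) : g = x5 T g.a5 := by
  have h0 := a.ne_zero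
  have h1' : (a : K) ≠ 1 := fun e => h1 (Units.ext e)
  obtain ⟨s0, s1, s2, s3, s4, s5⟩ := H92.UL.scal (T := T) h0 h1'
  have s6 : (a : K) ^ 3 * T.θ a ^ 2 ≠ 1 := fun e => by
    have e' := congrArg T.θ e
    simp only [map_mul, map_pow, T.θθ, map_one] at e'
    refine s2 ?_
    have : (a : K) ^ 3 * T.θ a ^ 2 * (a * T.θ a - 1) = 0 := by linear_combination e' - e
    rw [e, one_mul] at this
    exact sub_eq_zero.1 this
  rw [tor_apply] at h
  o8s at h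
  simp only [Units.val_inv_eq_inv_val, inv_inv, map_inv₀] at h
  obtain ⟨e1, e2, e3, e4, e5, e6, -, e8, e9, e10, e11, e12⟩ := h
  have z : ∀ {s x : K}, s ≠ 1 → s * x = x → x = 0 := H92.UL.fz
  have i : ∀ {s x : K}, s ≠ 0 → s ≠ 1 → s⁻¹ * x = x → x = 0 := fun h0 h1 e =>
    z (fun k => h1 (inv_eq_one.1 k)) e
  ext <;> o8s
  · refine z (s := (a * T.θ a) ^ 2) (fun k => s2 ?_) (by linear_combination e1)
    have := T.charP
    have : (a * T.θ a + 1) ^ 2 = 0 := by grind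
    have := pow_eq_zero_iff two_ne_zero |>.1 this
    grind
  · exact z s2 (by linear_combination e2)
  · exact z s6 (by linear_combination e3)
  · exact z s3 (by linear_combination e4)
  · exact z h1' e5
  · exact z s2 e6
  · exact i h0 h1' e8
  · exact i (mul_ne_zero h0 s0) s2 (by rw [mul_inv]; exact e9)
  · exact i (mul_ne_zero (pow_ne_zero 2 h0) s0) s3 (by rw [mul_inv, ← inv_pow]; linear_combination e10)
  · exact i (mul_ne_zero h0 s0) s2 (by rw [mul_inv]; linear_combination e11)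
  · exact i (mul_ne_zero (pow_ne_zero 3 h0) (pow_ne_zero 2 s0)) s6
      (by rw [mul_inv, ← inv_pow, ← inv_pow]; linear_combination e12)

/-! ### The field -/

section Fin

variable [Finite K]

theorem Nu_surj (c : Kˣ) : ∃ a, Nu T a = c := (H92.UL.nrm (T := T)).2 c

theorem θu_surj (c : Kˣ) : ∃ a, θu T a = c := by
  obtain ⟨a, e⟩ := θ_surj (T := T) (c : K)
  have : a ≠ 0 := fun k => c.ne_zero (by rw [← e, k, map_zero])
  exact ⟨Units.mk0 a this, Units.ext e⟩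

omit [Finite K] in
/-- An additive function which is homogeneous for two characters `χ₁`, `χ₂`, the first one onto:
if it does not vanish then `χ₂` is an additive function of `χ₁`. -/
theorem hom_zero {ι : Type*} (χ₁ χ₂ : ι → K) (f : K → K) (hadd : ∀ a b, f (a + b) = f a + f b)
    (hf : ∀ i, f (χ₁ i) = χ₂ i * f 1) (hs : ∀ c, c ≠ 0 → ∃ i, χ₁ i = c)
    (hn : ∃ i j k, χ₁ k = χ₁ i + χ₁ j ∧ χ₂ k ≠ χ₂ i + χ₂ j) (a : K) : f a = 0 := by
  obtain ⟨i, j, k, e, ne⟩ := hn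
  have h1 : f 1 = 0 := by
    have := hf k
    rw [e, hadd, hf, hf] at this
    exact (mul_eq_zero.1 (show (χ₂ k - (χ₂ i + χ₂ j)) * f 1 = 0 by
      linear_combination -this)).resolve_left (sub_ne_zero.2 ne)
  by_cases h : a = 0
  · have := hadd 0 0
    rw [add_zero] at this
    rw [h]; linear_combination -this
  · obtain ⟨i, rfl⟩ := hs a h
    rw [hf, h1, mul_zero]

/-- The norm is not additive. -/
theorem N_not_add (hq : 2 < Nat.card K) : ∃ a : K, a ≠ 0 ∧ a + 1 ≠ 0 ∧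
    (a + 1) * T.θ (a + 1) ≠ a * T.θ a + 1 := by
  obtain ⟨a, h0, h1⟩ := H92.UL.exists_ne hq
  have := T.charP
  refine ⟨a, h0, fun e => h1 (by grind), fun e => (H92.UL.scal (T := T) h0 h1).2.2.2.2.2 ?_⟩
  rw [map_add, map_one] at e
  grind

/-- The inverse of the norm is not additive. -/
theorem Ninv_not_add (hq : 2 < Nat.card K) : ∃ a b c : K, a ≠ 0 ∧ b ≠ 0 ∧ c ≠ 0 ∧
    c * T.θ c = a * T.θ a + b * T.θ b ∧ c ≠ a + b := by
  obtain ⟨a, h0, h1, h2⟩ := N_not_add (T := T) hq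
  obtain ⟨c, e⟩ := nrm_surj (T := T) (a * T.θ a + 1)
  have := T.charP
  refine ⟨a, 1, c, h0, one_ne_zero, fun k => h1 ?_, by simpa using e, fun k => h2 (k ▸ e)⟩
  have : a * T.θ a = 1 := by rw [k, zero_mul] at e; grind
  rw [nrm_eq_one this]; grind

theorem surj_pair (f g : Kˣ × Kˣ → Kˣ) (hf : ∀ d e, f (d * e) = f d * f e)
    (hg : ∀ d e, g (d * e) = g d * g e) (h : ∀ d, f d = 1 → g d = 1 → d = 1) (a b : Kˣ) :
    ∃ d, f d = a ∧ g d = b := by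
  let F : Kˣ × Kˣ →* Kˣ × Kˣ := MonoidHom.mk' (fun d => (f d, g d)) fun d e => Prod.ext (hf d e) (hg d e)
  have : Function.Injective F := (injective_iff_map_eq_one F).2 fun d e =>
    h d (congrArg Prod.fst e) (congrArg Prod.snd e)
  obtain ⟨d, e⟩ := Finite.surjective_of_injective this (a, b)
  exact ⟨d, congrArg Prod.fst e, congrArg Prod.snd e⟩

omit [Finite K]

theorem Nu_mul (a b : Kˣ) : Nu T (a * b) = Nu T a * Nu T b := by
  simp only [Nu, map_mul]; exact mul_mul_mul_comm _ _ _ _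

theorem Nu_eq_one {a : Kˣ} (h : Nu T a = 1) : a = 1 :=
  Units.ext (nrm_eq_one (T := T) (congrArg Units.val h))

theorem θu_eq_one {a : Kˣ} (h : θu T a = 1) : a = 1 :=
  Units.ext (T.θ_eq_one.1 (congrArg Units.val h))

theorem θu_θu (a : Kˣ) : θu T (θu T a) = a * a := Units.ext ((T.θθ a).trans (sq _))

/-- Identities between weights. -/
macro "wt_tac" : tactic => `(tactic| (
  simp only [wt1, wy2, wt2, wt3, wt7, wy8, wt8, Nu, map_mul, map_div, θu_θu, Prod.fst_mul,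
    Prod.snd_mul]
  apply Additive.ofMul.injective
  simp only [div_eq_mul_inv, ofMul_mul, ofMul_inv]
  abel))

theorem i16 (d : Kˣ × Kˣ) : Nu T d.1 = wt1 T d * Nu T d.2 := by wt_tac
theorem i17a (d : Kˣ × Kˣ) : wt3 T d = θu T (wt1 T d) * wt7 T d := by wt_tac
theorem i17b (d : Kˣ × Kˣ) : d.1 * d.2 = wt1 T d * θu T (wt7 T d) := by wt_tac
theorem i28a (d : Kˣ × Kˣ) : Nu T d.1 = θu T (wt2 T d) * wt8 T d := by wt_tac
theorem i28b (d : Kˣ × Kˣ) : d.1 * d.2 = wt2 T d * wt8 T d := by wt_tac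
theorem i28c (d : Kˣ × Kˣ) : Nu T d.2 = wt2 T d * θu T (wt8 T d) := by wt_tac
theorem i3y8a (d : Kˣ × Kˣ) : Nu T d.1 = θu T (wt3 T d) * wy8 T d := by wt_tac
theorem i3y8b (d : Kˣ × Kˣ) : d.1 * d.2 = wt3 T d * θu T (wy8 T d) := by wt_tac
theorem i2y8a (d : Kˣ × Kˣ) : Nu T d.1 = θu T (wt2 T d) * Nu T (wy8 T d) := by wt_tac
theorem i2y8b (d : Kˣ × Kˣ) : wt3 T d = wt2 T d * wy8 T d := by wt_tac
theorem iy25 (d : Kˣ × Kˣ) : Nu T d.1 = wy2 T d * (d.1 * d.2) := by wt_tac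
theorem i38 (d : Kˣ × Kˣ) : Nu T d.2 = wt3 T d * wt8 T d := by wt_tac
theorem i27 (d : Kˣ × Kˣ) : Nu T d.1 = wt2 T d * wt7 T d := by wt_tac

variable [Finite K]

theorem w16 (a b : Kˣ) : ∃ d, wt1 T d = a ∧ Nu T d.2 = b :=
  surj_pair _ (fun d => Nu T d.2) (fun _ _ => by wt_tac) (fun _ _ => Nu_mul _ _) (fun d h1 h2 =>
    Prod.ext (Nu_eq_one (T := T) (by rw [i16, h1, h2, mul_one])) (Nu_eq_one h2)) a b

theorem w17 (a b : Kˣ) : ∃ d, wt1 T d = a ∧ wt7 T d = b :=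
  surj_pair _ _ (fun _ _ => by wt_tac) (fun _ _ => by wt_tac) (fun d h1 h2 => by
    have e1 := i17a (T := T) d
    have e2 := i17b (T := T) d
    rw [h1, h2, map_one, mul_one] at e1 e2
    have e3 : d.2 = d.1⁻¹ := eq_inv_of_mul_eq_one_right e2
    have e4 : θu T d.1 * (d.1 * d.1) = 1 := by rw [← e1, wt3, e3]; wt_tac
    have e5 : d.1 = 1 := Nu_eq_one (T := T) (θu_eq_one (T := T) (by rw [← e4, Nu, map_mul, θu_θu]))
    exact Prod.ext e5 (by rw [e3, e5]; rfl)) a b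

theorem w28 (a b : Kˣ) : ∃ d, wt2 T d = a ∧ wt8 T d = b :=
  surj_pair _ _ (fun _ _ => by wt_tac) (fun _ _ => by wt_tac) (fun d h1 h2 =>
    Prod.ext (Nu_eq_one (T := T) (by rw [i28a, h1, h2, map_one, mul_one]))
      (Nu_eq_one (T := T) (by rw [i28c, h1, h2, map_one, mul_one]))) a b

theorem w3y8 (a b : Kˣ) : ∃ d, wt3 T d = a ∧ wy8 T d = b :=
  surj_pair _ _ (fun _ _ => by wt_tac) (fun _ _ => by wt_tac) (fun d h1 h2 => by
    have e1 : d.1 = 1 := Nu_eq_one (T := T) (by rw [i3y8a, h1, h2, map_one, mul_one])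
    have e2 := i3y8b (T := T) d
    rw [h1, h2, e1, map_one, mul_one, one_mul] at e2
    exact Prod.ext e1 e2) a b

theorem w2y8 (a b : Kˣ) : ∃ d, wt2 T d = a ∧ wy8 T d = b :=
  surj_pair _ _ (fun _ _ => by wt_tac) (fun _ _ => by wt_tac) (fun d h1 h2 => by
    have e1 : d.1 = 1 := Nu_eq_one (T := T) (by rw [i2y8a, h1, h2]; simp [Nu])
    rw [wy8, e1, div_one] at h2
    exact Prod.ext e1 (θu_eq_one h2)) a b

theorem wy25 (a b : Kˣ) : ∃ d, wy2 T d = a ∧ d.1 * d.2 = b :=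
  surj_pair _ (fun d => d.1 * d.2) (fun _ _ => by wt_tac) (fun _ _ => by wt_tac) (fun d h1 h2 => by
    have e1 : d.1 = 1 := Nu_eq_one (T := T) (by rw [iy25, h1, h2, mul_one])
    rw [e1, one_mul] at h2
    exact Prod.ext e1 h2) a b

theorem w38 (a b : Kˣ) : ∃ d, wt3 T d = a ∧ wt8 T d = b :=
  surj_pair _ _ (fun _ _ => by wt_tac) (fun _ _ => by wt_tac) (fun d h1 h2 => by
    have e1 : d.2 = 1 := Nu_eq_one (T := T) (by rw [i38, h1, h2, mul_one])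
    rw [wt3, e1, div_one] at h1
    exact Prod.ext (Nu_eq_one h1) e1) a b

omit [Finite K] in
/-- A function on `K × K` which is homogeneous under the torus. -/
theorem hom_pair (α β γ : Kˣ × Kˣ → Kˣ) (hs : ∀ a b, ∃ d, α d = a ∧ β d = b) (m : K → K → K)
    (hm : ∀ d, (γ d : K) = m (α d) (β d)) (f : K → K → K)
    (hf : ∀ d, f (α d) (β d) = γ d * f 1 1) {a b : K} (ha : a ≠ 0) (hb : b ≠ 0) :
    f a b = f 1 1 * m a b := by
  obtain ⟨d, e1, e2⟩ := hs (Units.mk0 a ha) (Units.mk0 b hb)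
  have := hf d
  rw [hm, e1, e2] at this
  rw [mul_comm]; exact this

end Fin

end Cfsg.Agent.H54.RF
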