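import Cfsg.Agent.H74.RuDefs

/-!
Project RU, piece FLAG: a `p`-group of isometries is unitriangular in some frame.
-/

set_option autoImplicit false

namespace Cfsg.Agent.H54.RuFlag

open Cfsg Module Cfsg.Agent.H31 Cfsg.Agent.H74.Ru

section

variable {F V : Type} [Field F] [AddCommGroup V] [Module F V]

theorem fl_mono {n : ℕ} (v : Fin n → V) {a b : ℕ} (h : a ≤ b) : Fl F v a ≤ Fl F v b :=
  Submodule.span_mono (Set.image_mono fun _ hj => lt_of_lt_of_le hj h)

theorem mem_fl {n : ℕ} (v : Fin n → V) (j : Fin n) {a : ℕ} (h : j.val < a) : v j ∈ Fl F v a :=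
  Submodule.subset_span ⟨j, h, rfl⟩

theorem fl_congr {n : ℕ} {v w : Fin n → V} {a : ℕ} (h : ∀ j : Fin n, j.val < a → v j = w j) :
    Fl F v a = Fl F w a := congrArg _ (Set.image_congr h)

theorem map_fl {n : ℕ} {v : Fin n → V} {a : ℕ} {g : V ≃ₗ[F] V} {W : Submodule F V}
    (h : ∀ j : Fin n, j.val < a → g (v j) ∈ W) {x : V} (hx : x ∈ Fl F v a) : g x ∈ W := by
  have : Fl F v a ≤ W.comap (g : V →ₗ[F] V) :=
    Submodule.span_le.2 (by rintro _ ⟨j, hj, rfl⟩; exact h j hj)
  exact this hx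

theorem step_mem {n : ℕ} {v : Fin n → V} {g : V ≃ₗ[F] V} {i : Fin n} {a : ℕ} (hi : i.val < a)
    (h : g (v i) - v i ∈ Fl F v i.val) : g (v i) ∈ Fl F v a := by
  have := add_mem (fl_mono v hi.le h) (mem_fl (F := F) v i hi)
  rwa [sub_add_cancel] at this

variable [Fintype F] (S : Un F V)

theorem fl_perp {v : Fin S.n → V} (hv : S.Fr v) {a b : ℕ} (h : a + b ≤ S.n) {x y : V}
    (hx : x ∈ Fl F v a) (hy : y ∈ Fl F v b) : S.B x y = 0 := by
  have : Fl F v b ≤ perp S.B (Fl F v a) := Submodule.span_le.2 (by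
    rintro _ ⟨j, hj, rfl⟩
    refine mem_perp_span.2 ?_
    rintro _ ⟨i, hi, rfl⟩
    rw [hv, if_neg]
    intro e
    have := congrArg Fin.val e
    have hi' : i.val < a := hi
    have hj' : j.val < b := hj
    rw [Fin.val_rev] at this
    omega)
  exact this hy x hx

variable [FiniteDimensional F V]

theorem step (ka : KaStmt) (frm : FrmStmt) (fix : FixStmt) (P : Subgroup (V ≃ₗ[F] V))
    (hP : P ≤ S.G) (hp : IsPGroup (ringChar F) P) {v : Fin S.n → V} (hv : S.Fr v) (s : ℕ)
    (hs : 2 * (s + 1) ≤ S.n)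
    (h : ∀ g ∈ P, ∀ i : Fin S.n, i.val < s → g (v i) - v i ∈ Fl F v i.val) :
    ∃ w, S.Fr w ∧ (∀ i : Fin S.n, i.val < s → w i = v i) ∧
      ∀ g ∈ P, ∀ i : Fin S.n, i.val < s + 1 → g (w i) - w i ∈ Fl F w i.val := by
  have hX : ∀ g ∈ P, ∀ x ∈ Fl F v s, g x ∈ Fl F v s := fun g hg x hx =>
    map_fl (fun j hj => step_mem hj (h g hg j hj)) hx
  have hs' : s < S.n := by omega
  obtain ⟨y, y1, y2, y3, y4⟩ := fix S P hP hp (Fl F v s) (perp S.B (Fl F v s))
    (fun x hx z hz => fl_perp S hv (by omega) hz hx) (fun x hx r hr => hr x hx) hX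
    (fun g hg r hr x hx => by
      rw [← apply_inv_apply g x, (hP hg).1]
      exact hr _ (hX _ (inv_mem hg) x hx))
    ⟨v ⟨s, hs'⟩, fun x hx => fl_perp S hv (b := s + 1) (by omega) hx (mem_fl v _ (by simp)),
      fun hx => by
        have h1 := fl_perp S hv (b := S.n - s) (by omega) hx
          (mem_fl v (Fin.rev ⟨s, hs'⟩) (by rw [Fin.val_rev]; dsimp only; omega))
        rw [hv, if_pos rfl] at h1
        exact one_ne_zero h1,
      fl_perp S hv (a := s + 1) (b := s + 1) (by omega) (mem_fl v _ (by simp))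
        (mem_fl v _ (by simp))⟩
  let e0 : Fin s → V := fun i => v (Fin.castLE hs'.le i)
  have he0 : ∀ i, e0 i ∈ Fl F v s := fun i => mem_fl v _ i.2
  have hr : Set.range e0 = v '' {j | j.val < s} := by
    ext z
    exact ⟨fun ⟨i, hi⟩ => ⟨_, i.2, hi⟩, fun ⟨j, hj, e⟩ => ⟨⟨j.val, hj⟩, e⟩⟩
  have hli : LinearIndependent F (Fin.snoc e0 y : Fin (s + 1) → V) :=
    linearIndependent_finSnoc.2 ⟨(ka S v hv).2.2.1.comp _ (Fin.castLE_injective _),
      by rw [hr]; exact y2⟩
  obtain ⟨w, hw, hwe⟩ := (frm S).1 (s + 1) hs _ hli fun i j => by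
    refine Fin.lastCases ?_ (fun i => ?_) i <;> refine Fin.lastCases ?_ (fun j => ?_) j <;>
      simp only [Fin.snoc_last, Fin.snoc_castSucc]
    · exact y3
    · exact S.herm.toIsHermSymm.flip_zero (y1 _ (he0 j))
    · exact y1 _ (he0 i)
    · exact fl_perp S hv (by omega) (he0 i) (he0 j)
  have h1 : ∀ i : Fin S.n, i.val < s → w i = v i := fun i hi => by
    have := hwe (Fin.castSucc ⟨i.val, hi⟩)
    rw [Fin.snoc_castSucc] at this
    exact this
  have h2 : w ⟨s, hs'⟩ = y := by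
    have := hwe (Fin.last s)
    rw [Fin.snoc_last] at this
    exact this
  refine ⟨w, hw, h1, fun g hg i hi => ?_⟩
  rw [fl_congr (w := v) fun j hj => h1 j (by omega)]
  rcases (Nat.le_of_lt_succ hi).lt_or_eq with hi | hi
  · rw [h1 i hi]; exact h g hg i hi
  · obtain rfl : i = ⟨s, hs'⟩ := Fin.ext hi
    rw [h2]; exact y4 g hg

end

theorem flag (ka : KaStmt) (kb : KbStmt) (frm : FrmStmt) (fix : FixStmt) : FlagStmt := by
  intro F V _ _ _ _ _ S P hP hp x y hxy hg
  have hn := S.hn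
  have key : ∀ s, 2 ≤ s → 2 * s ≤ S.n → ∃ v, S.Fr v ∧ v S.i0 = x ∧ v S.i1 = y ∧
      ∀ g ∈ P, ∀ i : Fin S.n, i.val < s → g (v i) - v i ∈ Fl F v i.val := by
    intro s hs
    induction s, hs using Nat.le_induction with
    | base =>
      intro _
      obtain ⟨v, hv, h0, h1⟩ := (frm S).2.1 x y hxy
      refine ⟨v, hv, h0, h1, fun g hg' i hi => ?_⟩
      rcases (by omega : i.val = 0 ∨ i.val = 1) with e | e
      · obtain rfl : i = S.i0 := Fin.ext e
        rw [h0, (hg g hg').1, sub_self]; exact zero_mem _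
      · obtain rfl : i = S.i1 := Fin.ext e
        rw [h1]
        refine (Submodule.span_singleton_le_iff_mem _ _).2 ?_ (hg g hg').2
        rw [← h0]; exact mem_fl v _ Nat.zero_lt_one
    | succ s hs ih =>
      intro h
      obtain ⟨v, hv, h0, h1, h2⟩ := ih (by omega)
      obtain ⟨w, hw, e, h3⟩ := step S ka frm fix P hP hp hv s h h2
      exact ⟨w, hw, (e _ (by change 0 < s; omega)).trans h0,
        (e _ (by change 1 < s; omega)).trans h1, h3⟩
  obtain ⟨v, hv, h0, h1, h2⟩ := key (S.n / 2) (by omega) (by omega)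
  refine ⟨v, hv, h0, h1, fun g hg' => ?_⟩
  have mem := (ka S v hv).2.1
  have up : ∀ i : Fin S.n, g (v i) ∈ Fl F v (i.val + 1) := fun i => by
    by_cases hi : i.val < S.n / 2
    · exact step_mem (Nat.lt_succ_self _) (h2 g hg' i hi)
    refine (mem _ _).2 fun j hj => ?_
    have hj' := j.2
    have hr := Fin.val_rev j
    rw [← apply_inv_apply g (v j.rev), (hP hg').1]
    exact fl_perp S hv (a := j.rev.val + 1) (b := i.val + 1) (by omega)
      (step_mem (Nat.lt_succ_self _) (h2 _ (inv_mem hg') _ (by omega)))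
      (mem_fl v i (Nat.lt_succ_self _))
  have ne : ∀ i : Fin S.n, S.B (v i.rev) (g (v i)) ≠ 0 := fun i hi => by
    have h3 : g (v i) ∈ Fl F v i.val := (mem _ _).2 fun j hj => by
      rcases hj.lt_or_eq with hj | hj
      · exact (mem _ _).1 (up i) j hj
      · obtain rfl : i = j := Fin.ext hj
        exact hi
    have hi' := i.2
    have hr := Fin.val_rev i
    have h4 := fl_perp S hv (by omega) h3 (up i.rev)
    rw [(hP hg').1, hv, if_pos rfl] at h4
    exact one_ne_zero h4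
  have tri : Tri v g fun i => Units.mk0 _ (ne i) := fun i => (mem _ _).2 fun j hj => by
    rw [map_sub, smul_right, hv, Fin.rev_rev, Units.val_mk0]
    rcases hj.lt_or_eq with hj | hj
    · rw [(mem _ _).1 (up i) j hj, if_neg fun e => by rw [e] at hj; exact lt_irrefl _ hj, mul_zero,
        sub_zero]
    · obtain rfl : i = j := Fin.ext hj
      rw [if_pos rfl, mul_one, sub_self]
  obtain ⟨m, hm⟩ := hp ⟨g, hg'⟩
  have := (kb S v hv).2.2.2 g _ m tri (by simpa using congrArg Subtype.val hm)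
  rwa [this] at tri

end Cfsg.Agent.H54.RuFlag
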