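import Cfsg.Agent.H54.Comm
import Cfsg.Agent.H51.Replacement
import Cfsg.Agent.H3.Cores

/-!
Thompson's replacement lemma for one element: if `A` is abelian and `M = ⟨⁅a, x⁆ : a ∈ A⟩` is abelian
then `M C_A(M)` is abelian of order at least `|A|`.
-/

set_option autoImplicit false

namespace Cfsg.Agent.H54

open Subgroup
open scoped commutatorElement

variable {G : Type*} [Group G]

/-- The subgroup generated by the commutators `⁅a, x⁆`, `a ∈ A`. -/
def commWith (A : Subgroup G) (x : G) : Subgroup G := closure {g | ∃ a ∈ A, g = ⁅a, x⁆}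

theorem mem_commWith {A : Subgroup G} {a : G} (ha : a ∈ A) (x : G) : ⁅a, x⁆ ∈ commWith A x :=
  subset_closure ⟨a, ha, rfl⟩

theorem commWith_le {A K : Subgroup G} {x : G} : commWith A x ≤ K ↔ ∀ a ∈ A, ⁅a, x⁆ ∈ K := by
  rw [commWith, closure_le]
  exact ⟨fun h a ha => h ⟨a, ha, rfl⟩, by rintro h _ ⟨a, ha, rfl⟩; exact h a ha⟩

theorem le_normalizer_commWith (A : Subgroup G) (x : G) :
    A ≤ normalizer (commWith A x : Set G) := by
  have key : ∀ a ∈ A, ∀ m ∈ commWith A x, a * m * a⁻¹ ∈ commWith A x := by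
    intro a ha m hm
    have : commWith A x ≤ (commWith A x).comap (MulAut.conj a).toMonoidHom := by
      rw [commWith_le]
      intro b hb
      have e : a * ⁅b, x⁆ * a⁻¹ = ⁅a * b, x⁆ * ⁅a, x⁆⁻¹ := by
        simp only [commutatorElement_def]; group
      change a * ⁅b, x⁆ * a⁻¹ ∈ commWith A x
      rw [e]
      exact mul_mem (mem_commWith (mul_mem ha hb) x) (inv_mem (mem_commWith ha x))
    exact this hm
  intro a ha
  rw [mem_normalizer_iff]
  exact fun m => ⟨key a ha m, fun h => by simpa [mul_assoc] using key a⁻¹ (inv_mem ha) _ h⟩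

/-- The replacement of `A` by `x`. -/
def thRepl (A : Subgroup G) (x : G) : Subgroup G :=
  commWith A x ⊔ (A ⊓ centralizer (commWith A x : Set G))

theorem thRepl_comm {A : Subgroup G} {x : G} (hA : IsMulCommutative A)
    (hM : IsMulCommutative (commWith A x)) : IsMulCommutative (thRepl A x) :=
  H51.isMulCommutative_sup hM (H51.isMulCommutative_of_le hA inf_le_left) inf_le_right

theorem mem_centralizer_commWith {A : Subgroup G} {x : G} (hA : IsMulCommutative A)
    (hM : IsMulCommutative (commWith A x)) {u : G} (hu : u ∈ A)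
    (h : ⁅u, x⁆ ∈ centralizer (A : Set G)) : u ∈ centralizer (commWith A x : Set G) := by
  have : commWith A x ≤ centralizer ({u} : Set G) := by
    rw [commWith_le]
    intro b hb
    rw [mem_centralizer_singleton_iff]
    have hab := H51.isMulCommutative_iff_forall.mp hA u hu b hb
    have h1 : ⁅u * b, x⁆ = u * ⁅b, x⁆ * u⁻¹ * ⁅u, x⁆ := by
      simp only [commutatorElement_def]; group
    have h2 : ⁅b * u, x⁆ = b * ⁅u, x⁆ * b⁻¹ * ⁅b, x⁆ := by
      simp only [commutatorElement_def]; group
    rw [hab, h2, mem_centralizer_iff.mp h b hb, mul_inv_cancel_right,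
      H51.isMulCommutative_iff_forall.mp hM _ (mem_commWith hu x) _ (mem_commWith hb x),
      mul_left_inj, eq_mul_inv_iff_mul_eq] at h1
    exact h1
  exact mem_centralizer_iff.mpr fun m hm => mem_centralizer_singleton_iff.mp (this hm)

theorem card_le_card_thRepl [Finite G] {A : Subgroup G} {x : G} (hA : IsMulCommutative A)
    (hM : IsMulCommutative (commWith A x)) : Nat.card A ≤ Nat.card (thRepl A x) := by
  set M := commWith A x with hMdef
  set C := A ⊓ centralizer (M : Set G) with hC
  have h1 : (centralizer (M : Set G)).relIndex A ≤ (centralizer (A : Set G)).relIndex M := by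
    refine Nat.card_le_card_of_injective
      (fun q : A ⧸ (centralizer (M : Set G)).subgroupOf A =>
        (QuotientGroup.mk ⟨⁅(q.out : G), x⁆⁻¹, inv_mem (mem_commWith q.out.2 x)⟩ :
          M ⧸ (centralizer (A : Set G)).subgroupOf M)) ?_
    intro q r h
    rw [← q.out_eq, ← r.out_eq, QuotientGroup.eq]
    set a := q.out
    set b := r.out
    have h2 : ⁅(a : G), x⁆ * ⁅(b : G), x⁆⁻¹ ∈ centralizer (A : Set G) := by
      simpa [mem_subgroupOf] using QuotientGroup.eq.mp h
    refine mem_centralizer_commWith hA hM (u := ((a⁻¹ * b : A) : G)) (a⁻¹ * b).2 ?_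
    have e : ⁅((a⁻¹ * b : A) : G), x⁆ = (a : G)⁻¹ * (⁅(a : G), x⁆ * ⁅(b : G), x⁆⁻¹)⁻¹ * a := by
      simp only [commutatorElement_def, coe_mul, coe_inv]; group
    rw [e, mul_assoc, ← mem_centralizer_iff.mp (inv_mem h2) a a.2, inv_mul_cancel_left]
    exact inv_mem h2
  have h2 := H3.card_inf_mul_relIndex (centralizer (M : Set G)) A
  have h3 := H3.card_inf_mul_relIndex (centralizer (A : Set G)) M
  have h4 := H3.card_sup_mul_card_inf_of_le_normalizer (H := C) (N := M)
    (inf_le_left.trans (le_normalizer_commWith A x))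
  have h5 : Nat.card (C ⊓ M : Subgroup G) ≤ Nat.card (centralizer (A : Set G) ⊓ M : Subgroup G) :=
    card_le_of_le (inf_le_inf_right _
      (inf_le_left.trans (H51.isMulCommutative_iff_le_centralizer.mp hA)))
  rw [inf_comm] at h2
  rw [thRepl, sup_comm]
  have hpos : 0 < Nat.card (centralizer (A : Set G) ⊓ M : Subgroup G) := Nat.card_pos
  refine Nat.le_of_mul_le_mul_right ?_ hpos
  calc Nat.card A * Nat.card (centralizer (A : Set G) ⊓ M : Subgroup G)
      = Nat.card C * ((centralizer (M : Set G)).relIndex A *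
          Nat.card (centralizer (A : Set G) ⊓ M : Subgroup G)) := by rw [← h2]; ring
    _ ≤ Nat.card C * ((centralizer (A : Set G)).relIndex M *
          Nat.card (centralizer (A : Set G) ⊓ M : Subgroup G)) := by gcongr
    _ = Nat.card C * Nat.card M := by rw [← h3]; ring
    _ = _ := h4.symm
    _ ≤ _ := Nat.mul_le_mul_left _ h5

theorem thRepl_le {A K : Subgroup G} {x : G} (hA : A ≤ K) (hM : commWith A x ≤ K) :
    thRepl A x ≤ K := sup_le hM (inf_le_left.trans hA)

theorem thRepl_mem_maxEA [Finite G] {S A : Subgroup G} {x : G} (hA : A ∈ H51.maxEA 0 S)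
    (hx : x ∈ S) (hM : IsMulCommutative (commWith A x)) : thRepl A x ∈ H51.maxEA 0 S :=
  H51.mem_maxEA_of_card_le hA
    (thRepl_le hA.1 (commWith_le.mpr fun _ ha =>
      mul_mem (mul_mem (mul_mem (hA.1 ha) hx) (inv_mem (hA.1 ha))) (inv_mem hx)))
    (H51.isEA_zero_iff.mpr (thRepl_comm hA.2.1.1 hM)) (card_le_card_thRepl hA.2.1.1 hM)

end Cfsg.Agent.H54
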