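import Cfsg.Agent.H97.U4Defs
import Cfsg.Agent.H83.Cores

/-!
# The normalizers of the unitriangular group and of `Q` in `SU₄`
-/

set_option autoImplicit false

namespace Cfsg.Agent.H54.U4X2

open Cfsg.Agent.H97 Cfsg.Agent.H97.U4 Subgroup
open Cfsg.Agent.H97.U5 (Hm)

universe u

variable {K : Type u} [Field K] {T : Hm K}

theorem unit_entry {M : Matrix (Fin 4) (Fin 4) K} (h : (M.map T.σ).transpose * J4 K * M = J4 K)
    (i j : Fin 4) : T.σ (M 0 i) * M 3 j + T.σ (M 1 i) * M 2 j + T.σ (M 2 i) * M 1 j +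
      T.σ (M 3 i) * M 0 j = J4 K i j := by
  rw [← congrFun (congrFun h i) j]
  simp [J4, Matrix.mul_apply, Fin.sum_univ_four]
  ring

/-- the first column and the last row of a matrix normalizing `Q` -/
theorem col0 {M : Matrix (Fin 4) (Fin 4) K} (h : (M.map T.σ).transpose * J4 K * M = J4 K)
    (hn : ∀ u' ∈ Q T, ∃ u : U T, mat u' * M = M * mat u) :
    M 1 0 = 0 ∧ M 2 0 = 0 ∧ M 3 0 = 0 ∧ M 3 1 = 0 ∧ M 3 2 = 0 := by
  have c0 : ∀ u' ∈ Q T, ∀ i, (mat u' * M) i 0 = M i 0 := fun u' hu' i => by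
    obtain ⟨u, hu⟩ := hn u' hu'
    rw [hu]
    simp [mat, Matrix.mul_apply, Fin.sum_univ_four]
  have h10 : M 1 0 = 0 := by
    simpa [mat, Matrix.mul_apply, Fin.sum_univ_four] using c0 (xt T 1) rfl 0
  have h30 : M 3 0 = 0 := by
    simpa [mat, Matrix.mul_apply, Fin.sum_univ_four] using c0 (xt T 1) rfl 2
  have h20 : M 2 0 = 0 := by
    simpa [mat, Matrix.mul_apply, Fin.sum_univ_four] using c0 (xm T 1) rfl 0
  have e03 := unit_entry h 0 3
  have e01 := unit_entry h 0 1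
  have e02 := unit_entry h 0 2
  simp only [h10, h20, h30, map_zero, zero_mul, add_zero] at e03 e01 e02
  have n0 : T.σ (M 0 0) ≠ 0 := left_ne_zero_of_mul_eq_one e03
  exact ⟨h10, h20, h30, (mul_eq_zero.1 e01).resolve_left n0, (mul_eq_zero.1 e02).resolve_left n0⟩

/-- upper triangular matrices -/
def Up (M : Matrix (Fin 4) (Fin 4) K) : Prop :=
  M 1 0 = 0 ∧ M 2 0 = 0 ∧ M 3 0 = 0 ∧ M 3 1 = 0 ∧ M 3 2 = 0 ∧ M 2 1 = 0

theorem up_of {M : Matrix (Fin 4) (Fin 4) K} (h : (M.map T.σ).transpose * J4 K * M = J4 K)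
    (hn : ∀ u' : U T, ∃ u : U T, mat u' * M = M * mat u) : Up M := by
  obtain ⟨h10, h20, h30, h31, h32⟩ := col0 h fun u' _ => hn u'
  refine ⟨h10, h20, h30, h31, h32, ?_⟩
  obtain ⟨u, hu⟩ := hn (xd T T.ep (by simp))
  have := congrFun (congrFun hu 1) 1
  simpa [mat, Matrix.mul_apply, Fin.sum_univ_four, h10, T.ep_ne] using this

theorem exists_mat {M : Matrix (Fin 4) (Fin 4) K} (h : (M.map T.σ).transpose * J4 K * M = J4 K)
    (hu : Up M) (hd : ∀ i, M i i = 1) : ∃ s : U T, M = mat s := by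
  obtain ⟨h10, h20, h30, h31, h32, h21⟩ := hu
  have e13 := unit_entry h 1 3
  have e22 := unit_entry h 2 2
  have e23 := unit_entry h 2 3
  have e33 := unit_entry h 3 3
  simp only [h10, h20, h30, h21, h31, h32, hd, map_zero, map_one, zero_mul,
    add_zero, mul_one, one_mul, mul_zero, zero_add] at e13 e22 e23 e33
  change _ = (0 : K) at e13 e22 e23 e33
  have f23 : M 2 3 = -T.σ (M 0 1) := by linear_combination e13
  have g12 : T.σ (M 1 2) = -M 1 2 := by linear_combination e22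
  have f13 : M 1 3 = -T.σ (M 0 2) - M 1 2 * T.σ (M 0 1) := by
    rw [f23, g12] at e23; linear_combination e23
  refine ⟨⟨M 0 1, M 0 3 + M 0 2 * T.σ (M 0 1), M 0 2, M 1 2, ?_, ?_⟩, ?_⟩
  · rw [f23, f13] at e33
    simp only [map_add, map_sub, map_mul, map_neg, T.inv, g12] at e33 ⊢
    linear_combination e33
  · rw [g12]; ring
  · ext i j
    fin_cases i <;> fin_cases j <;> simp [mat, *]

/-- a diagonal matrix -/
def dm (T : Hm K) (a b : Kˣ) : Matrix (Fin 4) (Fin 4) K :=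
  Matrix.diagonal ![a, b, (T.σ b)⁻¹, (T.σ a)⁻¹]

/-- a diagonal element of `SU₄` -/
def dg (T : Hm K) (a b : Kˣ) (h : T.σ (a * b : Kˣ) = (a * b : Kˣ)) : XU T := ⟨⟨dm T a b, by
    have := T.σ_ne_zero a.ne_zero
    have := T.σ_ne_zero b.ne_zero
    rw [Units.val_mul, map_mul] at h
    simp [dm, Fin.prod_univ_four]
    field_simp
    linear_combination -h⟩, by
    have := T.σ_ne_zero a.ne_zero
    have := T.σ_ne_zero b.ne_zero
    change ((dm T a b).map T.σ).transpose * J4 K * dm T a b = J4 K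
    ext i j
    fin_cases i <;> fin_cases j <;>
      simp [dm, J4, Matrix.mul_apply, Fin.sum_univ_four, Matrix.diagonal]⟩

theorem dg_conj (a b : Kˣ) (h : T.σ (a * b : Kˣ) = (a * b : Kˣ)) (u : U T) :
    dg T a b h * iU T u * (dg T a b h)⁻¹ = iU T (tor T (a, a⁻¹) (tor T (1, a * b) u)) := by
  have := T.σ_ne_zero a.ne_zero
  have := T.σ_ne_zero b.ne_zero
  have e : tor T (a, a⁻¹) (tor T (1, a * b) u) = tor T (a, b) u := by
    rw [← MulAut.mul_apply, ← map_mul]
    simp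
  rw [e, mul_inv_eq_iff_eq_mul]
  refine Subtype.ext (Subtype.ext ?_)
  change dm T a b * mat u = mat _ * dm T a b
  ext i j
  rw [dm, Matrix.diagonal_mul, Matrix.mul_diagonal]
  fin_cases i <;> fin_cases j <;> simp [mat] <;> field_simp

theorem decomp {g : XU T} (hg : g ∈ normalizer ((iU T).range : Set (XU T))) :
    ∃ (s : U T) (a b : Kˣ) (h : T.σ (a * b : Kˣ) = (a * b : Kˣ)), g = iU T s * dg T a b h := by
  have h : (g.1.1.map T.σ).transpose * J4 K * g.1.1 = J4 K := g.2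
  have up := up_of h fun u' => by
    obtain ⟨u, hu⟩ := (mem_normalizer_iff''.1 hg (iU T u')).1 ⟨u', rfl⟩
    refine ⟨u, ?_⟩
    have e : iU T u' * g = g * iU T u := by rw [hu]; group
    exact congrArg (fun x : XU T => x.1.1) e
  obtain ⟨h10, h20, h30, h31, h32, h21⟩ := up
  have e03 := unit_entry h 0 3
  have e12 := unit_entry h 1 2
  simp only [h10, h20, h30, h21, h31, h32, map_zero, zero_mul, add_zero, mul_zero,
    zero_add] at e03 e12
  change _ = (1 : K) at e03 e12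
  have n0 : g.1.1 0 0 ≠ 0 := fun e => by simp [e] at e03
  have n1 : g.1.1 1 1 ≠ 0 := fun e => by simp [e] at e12
  have s0 := T.σ_ne_zero n0
  have s1 := T.σ_ne_zero n1
  have f3 : g.1.1 3 3 = (T.σ (g.1.1 0 0))⁻¹ := eq_inv_of_mul_eq_one_right e03
  have f2 : g.1.1 2 2 = (T.σ (g.1.1 1 1))⁻¹ := eq_inv_of_mul_eq_one_right e12
  have det : g.1.1.det = 1 := g.1.2
  rw [Matrix.det_of_isUpperTriangular (by
    intro i j hij
    fin_cases i <;> fin_cases j <;> simp_all), Fin.prod_univ_four, f2, f3] at det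
  set a := Units.mk0 _ n0
  set b := Units.mk0 _ n1
  have hab : T.σ (a * b : Kˣ) = (a * b : Kˣ) := by
    change T.σ (g.1.1 0 0 * g.1.1 1 1) = g.1.1 0 0 * g.1.1 1 1
    rw [map_mul]
    field_simp at det
    linear_combination -det
  set k := g * (dg T a b hab)⁻¹ with hk
  have e : k.1.1 * dm T a b = g.1.1 := by
    have : k * dg T a b hab = g := by rw [hk]; group
    exact congrArg (fun x : XU T => x.1.1) this
  have ent : ∀ i j, k.1.1 i j * dm T a b j j = g.1.1 i j := fun i j => by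
    rw [← e, dm, Matrix.mul_diagonal, Matrix.diagonal_apply_eq]
  have dd : ∀ j, dm T a b j j = g.1.1 j j := fun j => by
    fin_cases j
    · rfl
    · rfl
    · exact f2.symm
    · exact f3.symm
  have dn : ∀ j, dm T a b j j ≠ 0 := fun j => by
    fin_cases j <;> simp [dm, a, b, n0, n1]
  have z : ∀ i j, g.1.1 i j = 0 → k.1.1 i j = 0 := fun i j hz =>
    (mul_eq_zero.1 ((ent i j).trans hz)).resolve_right (dn j)
  obtain ⟨s, hs⟩ := exists_mat (T := T) (M := k.1.1) k.2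
    ⟨z _ _ h10, z _ _ h20, z _ _ h30, z _ _ h31, z _ _ h32, z _ _ h21⟩ fun i => by
      have := ent i i
      rw [← dd i] at this
      exact (mul_eq_right₀ (dn i)).1 this
  refine ⟨s, a, b, hab, ?_⟩
  have : k = iU T s := Subtype.ext (Subtype.ext hs)
  rw [← this, hk]; group

theorem eq_one_of_pow {p : ℕ} [Fact p.Prime] [CharP K p] {x : K} {k : ℕ} (h : x ^ p ^ k = 1) :
    x = 1 := by
  have : (x - 1) ^ p ^ k = 0 := by rw [sub_pow_char_pow, h, one_pow, sub_self]
  exact sub_eq_zero.1 (pow_eq_zero_iff (pow_ne_zero k (Fact.out : p.Prime).ne_zero) |>.1 this)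

theorem dg_eq_one {p : ℕ} [Fact p.Prime] [CharP K p] {a b : Kˣ} {k : ℕ}
    {hab : T.σ (a * b : Kˣ) = (a * b : Kˣ)} (h : dg T a b hab ^ p ^ k = 1) : dg T a b hab = 1 := by
  have e : dm T a b ^ p ^ k = 1 := by
    have : (dg T a b hab).1.1 ^ p ^ k = 1 := by simpa using congrArg (fun x : XU T => x.1.1) h
    exact this
  rw [dm, Matrix.diagonal_pow] at e
  have ha : (a : K) = 1 := eq_one_of_pow (by simpa using congrFun (congrFun e 0) 0)
  have hb : (b : K) = 1 := eq_one_of_pow (by simpa using congrFun (congrFun e 1) 1)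
  refine Subtype.ext (Subtype.ext ?_)
  change dm T a b = 1
  ext i j
  fin_cases i <;> fin_cases j <;> simp [dm, ha, hb]

theorem x2 [Finite K] {p : ℕ} [Fact p.Prime] [CharP K p] : X2Stmt T p := by
  refine ⟨?_, fun g hg => ?_⟩
  · have hP : IsPGroup p (iU T).range :=
      (isPGroup_U p).of_surjective _ (iU T).rangeRestrict_surjective
    obtain ⟨S, hS⟩ := hP.exists_le_sylow
    rcases hS.eq_or_lt with e | e
    · rw [e]; exact S.not_dvd_index
    · obtain ⟨g, hg, hg'⟩ := SetLike.exists_of_lt (H83.lt_inf_normalizer S.isPGroup' e)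
      obtain ⟨s, a, b, hab, rfl⟩ := decomp hg.2
      have h1 : dg T a b hab ∈ (S : Subgroup (XU T)) :=
        (Subgroup.mul_mem_cancel_left _ (hS ⟨s, rfl⟩)).1 hg.1
      obtain ⟨k, hk⟩ := H83.isPGroup_iff.1 S.isPGroup' _ h1
      rw [dg_eq_one hk, mul_one] at hg'
      exact absurd ⟨s, rfl⟩ hg'
  · obtain ⟨s, a, b, hab, rfl⟩ := decomp hg
    refine ⟨s, a, a * b, hab, fun u => ?_⟩
    rw [map_mul, map_mul, map_inv, ← dg_conj a b hab]
    group

theorem x3 : X3Stmt T := by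
  intro g hg c x u v hu hv
  have h : ((g⁻¹).1.1.map T.σ).transpose * J4 K * (g⁻¹).1.1 = J4 K := (g⁻¹).2
  obtain ⟨-, -, -, h31, h32⟩ := col0 h fun u' hu' => by
    obtain ⟨w, -, hw⟩ := hg u' hu'
    refine ⟨w, ?_⟩
    have e : iU T u' * g⁻¹ = g⁻¹ * iU T w := by rw [← hw]; group
    exact congrArg (fun x : XU T => x.1.1) e
  have one : g.1.1 * (g⁻¹).1.1 = 1 := congrArg (fun x : XU T => x.1.1) (mul_inv_cancel g)
  have key : ∀ (y : K) (w : U T), g * iU T (xm T y) * g⁻¹ = iU T w →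
      w.t = y * (g.1.1 0 0 * (g⁻¹).1.1 2 1) ∧ w.m = y * (g.1.1 0 0 * (g⁻¹).1.1 2 2) := by
    intro y w hw
    have e : g.1.1 * mat (xm T y) * (g⁻¹).1.1 = mat w := congrArg (fun x : XU T => x.1.1) hw
    generalize (g⁻¹).1.1 = N at *
    generalize g.1.1 = M at *
    have e1 := congrFun (congrFun e 0) 1
    have e2 := congrFun (congrFun e 0) 2
    have o1 := congrFun (congrFun one 0) 1
    have o2 := congrFun (congrFun one 0) 2
    simp [mat, Matrix.mul_apply, Fin.sum_univ_four, h31, h32] at e1 e2 o1 o2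
    exact ⟨by linear_combination o1 - e1, by linear_combination o2 - e2⟩
  obtain ⟨a1, a2⟩ := key x u hu
  obtain ⟨b1, b2⟩ := key (c * x) v hv
  simp only [wv, Prod.smul_mk, smul_eq_mul, a1, a2, b1, b2, mul_assoc]

end Cfsg.Agent.H54.U4X2
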